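import Mathlib

set_option autoImplicit false

namespace Cfsg.Agent.H48

open scoped commutatorElement

/-- `H / H'` has exponent dividing `p`: the `p`-th power of every element of `H` lies in the
derived subgroup of `H`. -/
def EAb (p : ℕ) {G : Type*} [Group G] (H : Subgroup G) : Prop :=
  ∀ x ∈ H, x ^ p ∈ ⁅H, H⁆

theorem mem_commutator_subtype {G : Type*} [Group G] (H : Subgroup G) (x : H) :
    x ∈ commutator H ↔ (x : G) ∈ ⁅H, H⁆ := by
  rw [← Subgroup.map_subtype_commutator]
  constructor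
  · intro h; exact ⟨x, h, rfl⟩
  · rintro ⟨y, hy, hyx⟩
    have : y = x := Subtype.ext hyx
    rwa [← this]

theorem eab_iff {p : ℕ} {G : Type*} [Group G] (H : Subgroup G) :
    EAb p H ↔ ∀ x : H, x ^ p ∈ commutator H := by
  constructor
  · intro h x
    rw [mem_commutator_subtype]
    exact h x.1 x.2
  · intro h x hx
    have := h ⟨x, hx⟩
    rw [mem_commutator_subtype] at this
    exact this

theorem eab_top_iff {p : ℕ} {G : Type*} [Group G] :
    EAb p (⊤ : Subgroup G) ↔ ∀ x : G, x ^ p ∈ commutator G := by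
  unfold EAb
  rw [commutator_def]
  simp

theorem EAb.map {p : ℕ} {G G' : Type*} [Group G] [Group G'] {H : Subgroup G}
    (h : EAb p H) (φ : G →* G') : EAb p (H.map φ) := by
  rintro _ ⟨x, hx, rfl⟩
  rw [← Subgroup.map_commutator, ← map_pow]
  exact Subgroup.mem_map_of_mem φ (h x hx)

theorem EAb.of_map_injective {p : ℕ} {G G' : Type*} [Group G] [Group G'] {H : Subgroup G}
    (φ : G →* G') (hφ : Function.Injective φ) (h : EAb p (H.map φ)) : EAb p H := by
  intro x hx
  have h1 := h (φ x) (Subgroup.mem_map_of_mem φ hx)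
  rw [← Subgroup.map_commutator, ← map_pow] at h1
  obtain ⟨y, hy, hyx⟩ := h1
  rwa [← hφ hyx]

theorem eab_subgroup_iff_top {p : ℕ} {G : Type*} [Group G] (H : Subgroup G) :
    EAb p H ↔ EAb p (⊤ : Subgroup H) := by
  rw [eab_iff, eab_top_iff]

theorem EAb.of_mulEquiv {p : ℕ} {G G' : Type*} [Group G] [Group G'] (e : G ≃* G')
    (h : EAb p (⊤ : Subgroup G')) : EAb p (⊤ : Subgroup G) := by
  apply EAb.of_map_injective e.toMonoidHom e.injective
  have : (⊤ : Subgroup G).map e.toMonoidHom = ⊤ := by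
    rw [← MonoidHom.range_eq_map]; exact MonoidHom.range_eq_top.mpr e.surjective
  rw [this]; exact h

/-- If `H` is generated by elements whose `p`-th powers lie in `H'`, then `H/H'` has exponent
dividing `p`. -/
theorem EAb.of_gen {p : ℕ} {G : Type*} [Group G] {H : Subgroup G} (S : Set G)
    (hgen : H ≤ Subgroup.closure S) (hS : ∀ s ∈ S, s ∈ H ∧ s ^ p ∈ ⁅H, H⁆) : EAb p H := by
  rw [eab_iff]
  obtain ⟨ψ, hψ⟩ : ∃ ψ : H →* Abelianization H, ψ = (powMonoidHom p).comp Abelianization.of :=
    ⟨_, rfl⟩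
  have hK : ∀ x : H, x ∈ ψ.ker ↔ x ^ p ∈ commutator H := by
    intro x
    rw [MonoidHom.mem_ker, ← Abelianization.ker_of, MonoidHom.mem_ker, hψ]
    show (Abelianization.of x) ^ p = 1 ↔ Abelianization.of (x ^ p) = 1
    rw [map_pow]
  have hle : Subgroup.closure S ≤ ψ.ker.map H.subtype := by
    rw [Subgroup.closure_le]
    intro s hs
    obtain ⟨hsH, hsp⟩ := hS s hs
    refine ⟨⟨s, hsH⟩, ?_, rfl⟩
    rw [SetLike.mem_coe, hK, mem_commutator_subtype]
    exact hsp
  intro x
  obtain ⟨y, hy, hyx⟩ := hle (hgen x.2)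
  have : y = x := Subtype.ext hyx
  rw [← hK, ← this]; exact hy

theorem EAb.sup {p : ℕ} {G : Type*} [Group G] {H K : Subgroup G}
    (hH : EAb p H) (hK : EAb p K) : EAb p (H ⊔ K) := by
  apply EAb.of_gen ((H : Set G) ∪ K)
  · rw [Subgroup.closure_union, Subgroup.closure_eq, Subgroup.closure_eq]
  · rintro s (hs | hs)
    · exact ⟨(le_sup_left : H ≤ H ⊔ K) hs,
        Subgroup.commutator_mono le_sup_left le_sup_left (hH s hs)⟩
    · exact ⟨(le_sup_right : K ≤ H ⊔ K) hs,
        Subgroup.commutator_mono le_sup_right le_sup_right (hK s hs)⟩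

theorem EAb.sylow_all {p : ℕ} [Fact p.Prime] {G : Type*} [Group G] [Finite G]
    (P₀ P : Sylow p G) (h : EAb p (P₀ : Subgroup G)) : EAb p (P : Subgroup G) := by
  obtain ⟨g, rfl⟩ := MulAction.exists_smul_eq G P₀ P
  rw [Sylow.coe_subgroup_smul, Subgroup.pointwise_smul_def]
  exact h.map _

/-- The generalized quaternion group of order `4m`, `m` even, has elementary abelian
abelianization. -/
theorem eab_quaternion (m : ℕ) (hm : Even m) : EAb 2 (⊤ : Subgroup (QuaternionGroup m)) := by
  have key : ∀ i : ZMod (2 * m), QuaternionGroup.a (i + i) ∈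
      ⁅(⊤ : Subgroup (QuaternionGroup m)), (⊤ : Subgroup (QuaternionGroup m))⁆ := by
    intro i
    have h := Subgroup.commutator_mem_commutator (H₁ := (⊤ : Subgroup (QuaternionGroup m)))
      (H₂ := (⊤ : Subgroup (QuaternionGroup m)))
      (Subgroup.mem_top (QuaternionGroup.xa (0 : ZMod (2 * m))))
      (Subgroup.mem_top (QuaternionGroup.a (-i)))
    have e : ⁅(QuaternionGroup.xa (0 : ZMod (2 * m)) : QuaternionGroup m),
        (QuaternionGroup.a (-i) : QuaternionGroup m)⁆ = QuaternionGroup.a (i + i) := by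
      rw [commutatorElement_def, mul_inv_eq_iff_eq_mul, mul_inv_eq_iff_eq_mul]
      simp only [QuaternionGroup.xa_mul_a, QuaternionGroup.a_mul_xa, QuaternionGroup.a_mul_a]
      congr 1
      ring
    rwa [e] at h
  intro x _
  rcases x with i | i
  · rw [pow_two, QuaternionGroup.a_mul_a]
    exact key i
  · rw [pow_two, QuaternionGroup.xa_mul_xa]
    obtain ⟨k, hk⟩ := hm
    have hk' : (m : ZMod (2 * m)) = (k : ZMod (2 * m)) + k := by
      have := congrArg (Nat.cast : ℕ → ZMod (2 * m)) hk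
      rw [this]; push_cast; rfl
    have : (m : ZMod (2 * m)) + i - i = (k : ZMod (2 * m)) + k := by
      rw [hk']; ring
    rw [this]
    exact key _

end Cfsg.Agent.H48
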