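import Mathlib
import Cfsg.Agent.H49.Isom
import Cfsg.Agent.H43.OrthSign
import Cfsg.Agent.H48.EAb

set_option autoImplicit false

/-! Helper lemmas (helper48): a linear isometry between quadratic forms on (possibly different)
coordinate spaces gives an isomorphism of isometry groups; isometry from the discriminant for
arbitrary index types; transfer of the Sylow statement for commutator subgroups. -/

namespace Cfsg.Agent.H48

open Matrix

section linIso

variable {F : Type*} [Field F] {ι₁ ι₂ : Type} [Fintype ι₁] [DecidableEq ι₁] [Fintype ι₂]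
  [DecidableEq ι₂]

/-- Conjugation of matrices by a linear equivalence. -/
noncomputable def matConjHom (g : (ι₁ → F) ≃ₗ[F] (ι₂ → F)) :
    Matrix ι₁ ι₁ F →* Matrix ι₂ ι₂ F where
  toFun M := LinearMap.toMatrix' ((g : (ι₁ → F) →ₗ[F] (ι₂ → F)) ∘ₗ Matrix.toLin' M ∘ₗ
    (g.symm : (ι₂ → F) →ₗ[F] (ι₁ → F)))
  map_one' := by
    rw [Matrix.toLin'_one]
    have : (g : (ι₁ → F) →ₗ[F] (ι₂ → F)) ∘ₗ LinearMap.id ∘ₗ
        (g.symm : (ι₂ → F) →ₗ[F] (ι₁ → F)) = LinearMap.id := by
      apply LinearMap.ext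
      intro x
      simp
    rw [this, LinearMap.toMatrix'_id]
  map_mul' M N := by
    rw [← LinearMap.toMatrix'_comp]
    congr 1
    apply LinearMap.ext
    intro x
    simp [Matrix.toLin'_mul]

theorem matConjHom_mulVec (g : (ι₁ → F) ≃ₗ[F] (ι₂ → F)) (M : Matrix ι₁ ι₁ F) (w : ι₂ → F) :
    matConjHom g M *ᵥ w = g (M *ᵥ g.symm w) := by
  rw [← Matrix.toLin'_apply]
  show Matrix.toLin' (LinearMap.toMatrix' _) w = _
  rw [Matrix.toLin'_toMatrix']
  simp [Matrix.toLin'_apply]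

theorem matConjHom_symm (g : (ι₁ → F) ≃ₗ[F] (ι₂ → F)) (M : Matrix ι₁ ι₁ F) :
    matConjHom g.symm (matConjHom g M) = M := by
  apply Matrix.toLin'.injective
  apply LinearMap.ext
  intro v
  rw [Matrix.toLin'_apply, Matrix.toLin'_apply, matConjHom_mulVec, matConjHom_mulVec]
  simp

theorem matConjHom_symm' (g : (ι₁ → F) ≃ₗ[F] (ι₂ → F)) (M : Matrix ι₂ ι₂ F) :
    matConjHom g (matConjHom g.symm M) = M := by
  apply Matrix.toLin'.injective
  apply LinearMap.ext
  intro v
  rw [Matrix.toLin'_apply, Matrix.toLin'_apply, matConjHom_mulVec, matConjHom_mulVec]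
  simp

/-- A linear isometry induces a homomorphism of isometry groups. -/
noncomputable def isoHom (Q₁ : (ι₁ → F) → F) (Q₂ : (ι₂ → F) → F) (g : (ι₁ → F) ≃ₗ[F] (ι₂ → F))
    (h : ∀ v, Q₂ (g v) = Q₁ v) :
    ↥(Cfsg.isometryGroup F Q₁) →* ↥(Cfsg.isometryGroup F Q₂) :=
  MonoidHom.codRestrict ((Units.map (matConjHom g)).comp (Subgroup.subtype _)) _ (fun x => by
    rw [H43.mem_isometryGroup_iff]
    intro w
    have hx := (H43.mem_isometryGroup_iff _ _).mp x.2
    show Q₂ (matConjHom g ((x : GL ι₁ F) : Matrix ι₁ ι₁ F) *ᵥ w) = Q₂ w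
    rw [matConjHom_mulVec, h, hx, ← h, LinearEquiv.apply_symm_apply])

theorem isoHom_coe (Q₁ : (ι₁ → F) → F) (Q₂ : (ι₂ → F) → F) (g : (ι₁ → F) ≃ₗ[F] (ι₂ → F))
    (h : ∀ v, Q₂ (g v) = Q₁ v) (x : ↥(Cfsg.isometryGroup F Q₁)) :
    (((isoHom Q₁ Q₂ g h x : ↥(Cfsg.isometryGroup F Q₂)) : GL ι₂ F) : Matrix ι₂ ι₂ F) =
      matConjHom g ((x : GL ι₁ F) : Matrix ι₁ ι₁ F) := rfl

/-- A linear isometry induces an isomorphism of isometry groups. -/
noncomputable def isoEquiv (Q₁ : (ι₁ → F) → F) (Q₂ : (ι₂ → F) → F)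
    (g : (ι₁ → F) ≃ₗ[F] (ι₂ → F)) (h : ∀ v, Q₂ (g v) = Q₁ v) :
    ↥(Cfsg.isometryGroup F Q₁) ≃* ↥(Cfsg.isometryGroup F Q₂) :=
  MonoidHom.toMulEquiv (isoHom Q₁ Q₂ g h)
    (isoHom Q₂ Q₁ g.symm (fun w => by rw [← h, LinearEquiv.apply_symm_apply]))
    (by
      apply MonoidHom.ext
      intro x
      apply Subtype.ext
      apply Units.ext
      rw [MonoidHom.comp_apply, isoHom_coe, isoHom_coe]
      exact matConjHom_symm g _)
    (by
      apply MonoidHom.ext
      intro x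
      apply Subtype.ext
      apply Units.ext
      rw [MonoidHom.comp_apply, isoHom_coe, isoHom_coe]
      exact matConjHom_symm' g _)

theorem single_comp_equiv {κ : Type} [DecidableEq κ] (e : ι₁ ≃ κ) (i : κ) :
    (Pi.single i (1 : F) : κ → F) ∘ e = Pi.single (e.symm i) 1 := by
  funext x
  rw [Function.comp_apply, Pi.single_apply, Pi.single_apply]
  by_cases hx : e x = i
  · rw [if_pos hx, if_pos (by rw [← hx, Equiv.symm_apply_apply])]
  · rw [if_neg hx, if_neg (fun h' => hx (by rw [h', Equiv.apply_symm_apply]))]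

/-- Over a finite field of odd order, non-degenerate quadratic forms on coordinate spaces of
the same dimension whose discriminants agree up to squares are isometric. -/
theorem exists_linIso_of_disc [Fintype F] (h2 : (2 : F) ≠ 0)
    (hcard : Fintype.card ι₁ = Fintype.card ι₂)
    (Q₁ : QuadraticForm F (ι₁ → F)) (Q₂ : QuadraticForm F (ι₂ → F))
    (h₁ : (QuadraticMap.polarBilin Q₁).Nondegenerate)
    (h₂ : (QuadraticMap.polarBilin Q₂).Nondegenerate)
    (hsq : IsSquare ((H49.stdGram Q₁).det * (H49.stdGram Q₂).det)) :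
    ∃ g : (ι₁ → F) ≃ₗ[F] (ι₂ → F), ∀ v, Q₂ (g v) = Q₁ v := by
  classical
  obtain ⟨n, hn⟩ : ∃ n, Fintype.card ι₁ = n := ⟨_, rfl⟩
  have key : ∀ {ι : Type} [Fintype ι] [DecidableEq ι] (Q : QuadraticForm F (ι → F)),
      (QuadraticMap.polarBilin Q).Nondegenerate → Fintype.card ι = n →
      ∃ (L : (Fin n → F) ≃ₗ[F] (ι → F)) (Q' : QuadraticForm F (Fin n → F)),
        (∀ x, Q' x = Q (L x)) ∧ (QuadraticMap.polarBilin Q').Nondegenerate ∧
        (H49.stdGram Q').det = (H49.stdGram Q).det := by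
    intro ι _ _ Q hQ hι
    obtain ⟨e⟩ : Nonempty (ι ≃ Fin n) := ⟨Fintype.equivFinOfCardEq hι⟩
    obtain ⟨L, hL⟩ : ∃ L : (Fin n → F) ≃ₗ[F] (ι → F), ∀ x, L x = x ∘ e :=
      ⟨LinearEquiv.funCongrLeft F F e, fun x => rfl⟩
    obtain ⟨Q', hQ'⟩ : ∃ Q' : QuadraticForm F (Fin n → F),
        Q' = Q.comp (L : (Fin n → F) →ₗ[F] (ι → F)) := ⟨_, rfl⟩
    have hQ'a : ∀ x, Q' x = Q (L x) := fun x => by rw [hQ']; rfl
    have hpol : ∀ x y, QuadraticMap.polar (⇑Q') x y = QuadraticMap.polar (⇑Q) (L x) (L y) := by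
      intro x y
      unfold QuadraticMap.polar
      rw [hQ'a, hQ'a, hQ'a, map_add]
    have hkey : ∀ x : Fin n → F, (∀ y, QuadraticMap.polar (⇑Q') x y = 0) → x = 0 := by
      intro x hx
      have h0 : L x = 0 := by
        apply hQ.1
        intro z
        have := hx (L.symm z)
        rw [hpol, LinearEquiv.apply_symm_apply] at this
        exact this
      exact L.map_eq_zero_iff.mp h0
    refine ⟨L, Q', hQ'a, ?_, ?_⟩
    · constructor
      · intro x hx
        exact hkey x hx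
      · intro y hy
        apply hkey y
        intro x
        rw [QuadraticMap.polar_comm]
        exact hy x
    · have hG : H49.stdGram Q' = (H49.stdGram Q).submatrix e.symm e.symm := by
        ext i j
        rw [Matrix.submatrix_apply, H49.stdGram, H49.stdGram, Matrix.of_apply, Matrix.of_apply,
          hpol, hL, hL, single_comp_equiv, single_comp_equiv]
      rw [hG, Matrix.det_submatrix_equiv_self]
  obtain ⟨L₁, Q₁', hQ₁', hnd₁, hd₁⟩ := key Q₁ h₁ hn
  obtain ⟨L₂, Q₂', hQ₂', hnd₂, hd₂⟩ := key Q₂ h₂ (hcard ▸ hn)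
  obtain ⟨g, hg⟩ := (H49.isometric_iff_disc h2 Q₁' Q₂' hnd₁ hnd₂).mpr (by rw [hd₁, hd₂]; exact hsq)
  refine ⟨L₁.symm.trans (g.trans L₂), fun v => ?_⟩
  rw [LinearEquiv.trans_apply, LinearEquiv.trans_apply, ← hQ₂', hg, hQ₁',
    LinearEquiv.apply_symm_apply]

end linIso

/-- Transfer of the Sylow statement for the commutator subgroup along a group isomorphism. -/
theorem sylow_comm_eab_of_equiv {G₁ G₂ : Type*} [Group G₁] [Group G₂] [Finite G₁] (e : G₁ ≃* G₂)
    (h : ∀ P : Sylow 2 (commutator G₂), EAb 2 (P : Subgroup (commutator G₂)))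
    (P : Sylow 2 (commutator G₁)) : EAb 2 (P : Subgroup (commutator G₁)) := by
  obtain ⟨f, hf⟩ : ∃ f : commutator G₁ →* commutator G₂, ∀ x, (f x : G₂) = e x :=
    ⟨(e.toMonoidHom.comp (Subgroup.subtype _)).codRestrict _
      (fun x => H43.map_mem_commutator e.toMonoidHom x.2), fun x => rfl⟩
  have hinj : Function.Injective f := by
    intro x y hxy
    have := congrArg Subtype.val hxy
    rw [hf, hf] at this
    exact Subtype.ext (e.injective this)
  have hsurj : Function.Surjective f := by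
    rintro ⟨y, hy⟩
    refine ⟨⟨e.symm y, H43.map_mem_commutator e.symm.toMonoidHom hy⟩, Subtype.ext ?_⟩
    rw [hf]
    simp
  have h1 := h (P.mapSurjective hsurj)
  rw [Sylow.coe_mapSurjective] at h1
  exact EAb.of_map_injective f hinj h1

end Cfsg.Agent.H48
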