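import Mathlib
import Cfsg.Prelude.Def_CaseTheorems
import Cfsg.Agent.H48.EAb

set_option autoImplicit false

namespace Cfsg.Agent.H48

open scoped commutatorElement

/-- A quasi-dihedral `2`-group has elementary abelian abelianization. -/
theorem eab_of_quasiDihedral {S : Type*} [Group S] (h : Cfsg.IsQuasiDihedral S) :
    EAb 2 (⊤ : Subgroup S) := by
  obtain ⟨n, hn, hcard, x, y, hx, hy, hrel⟩ := h
  obtain ⟨k, rfl⟩ : ∃ k, n = k + 3 := ⟨n - 3, by omega⟩
  have hfin : Finite S := Nat.finite_of_card_ne_zero (by rw [hcard]; positivity)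
  have hk2 : k + 3 - 1 = k + 2 := by omega
  rw [hk2] at hrel
  have hynot : y ∉ Subgroup.zpowers x := by
    intro hy'
    obtain ⟨j, rfl⟩ := Subgroup.mem_zpowers_iff.mp hy'
    have hcomm : x ^ j * x * (x ^ j)⁻¹ = x := by
      rw [← zpow_add_one, ← zpow_neg, ← zpow_add]
      simp
    rw [hcomm] at hrel
    have h1 : x ^ (2 ^ (k + 2) - 1 - 1) = 1 := by
      have h2 : 2 ^ (k + 2) - 1 = (2 ^ (k + 2) - 1 - 1) + 1 := by
        have : 4 ≤ 2 ^ (k + 2) := by
          calc 4 = 2 ^ 2 := by norm_num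
            _ ≤ 2 ^ (k + 2) := Nat.pow_le_pow_right (by norm_num) (by omega)
        omega
      rw [h2, pow_succ] at hrel
      exact (mul_eq_right.mp hrel.symm)
    have h3 := orderOf_dvd_of_pow_eq_one h1
    rw [hx] at h3
    have h4 : 4 ≤ 2 ^ (k + 2) := by
      calc 4 = 2 ^ 2 := by norm_num
        _ ≤ 2 ^ (k + 2) := Nat.pow_le_pow_right (by norm_num) (by omega)
    have h5 := Nat.le_of_dvd (by omega) h3
    have h6 : 2 ^ (k + 3) = 2 * 2 ^ (k + 2) := by ring
    omega
  apply EAb.of_gen {x, y}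
  · -- generation
    have hle : Subgroup.zpowers x ≤ Subgroup.closure {x, y} := by
      rw [Subgroup.zpowers_le]
      exact Subgroup.subset_closure (by simp)
    have hyK : y ∈ Subgroup.closure ({x, y} : Set S) := Subgroup.subset_closure (by simp)
    have hcx : Nat.card (Subgroup.zpowers x) = 2 ^ (k + 3) := by rw [Nat.card_zpowers, hx]
    have hd1 : Nat.card (Subgroup.zpowers x) ∣ Nat.card (Subgroup.closure ({x, y} : Set S)) :=
      Subgroup.card_dvd_of_le hle
    have hd2 : Nat.card (Subgroup.closure ({x, y} : Set S)) ∣ Nat.card S :=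
      Subgroup.card_subgroup_dvd_card _
    rw [hcx] at hd1
    rw [hcard] at hd2
    obtain ⟨t, ht⟩ := hd1
    have htd : t ∣ 2 := by
      rw [ht, pow_succ (n := k + 3)] at hd2
      exact (Nat.mul_dvd_mul_iff_left (by positivity)).mp hd2
    have ht2 : t = 2 := by
      rcases (Nat.dvd_prime Nat.prime_two).mp htd with h1 | h2
      · exfalso
        rw [h1, mul_one] at ht
        have : Subgroup.zpowers x = Subgroup.closure ({x, y} : Set S) :=
          Subgroup.eq_of_le_of_card_ge hle (by rw [ht, hcx])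
        exact hynot (this ▸ hyK)
      · exact h2
    have htop : Subgroup.closure ({x, y} : Set S) = ⊤ := by
      rw [← Subgroup.card_eq_iff_eq_top, ht, ht2, hcard]
      ring
    rw [htop]
  · intro s hs
    refine ⟨Subgroup.mem_top s, ?_⟩
    rcases hs with rfl | rfl
    · -- s = x
      have hxN : s ^ ((2 : ℤ) ^ (k + 3)) = 1 := by
        have h1 := pow_orderOf_eq_one s
        rw [hx] at h1
        have h2 : ((2 : ℤ) ^ (k + 3)) = ((2 ^ (k + 3) : ℕ) : ℤ) := by push_cast; rfl
        rw [h2, zpow_natCast]; exact h1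
      have hc : ⁅y, s⁆ = s ^ ((2 : ℤ) ^ (k + 2) - 2) := by
        rw [commutatorElement_def, hrel]
        have h1 : ((2 ^ (k + 2) - 1 : ℕ) : ℤ) = (2 : ℤ) ^ (k + 2) - 1 := by
          rw [Nat.cast_sub Nat.one_le_two_pow]; push_cast; rfl
        rw [← zpow_natCast, h1, ← zpow_neg_one, ← zpow_add]
        congr 1; ring
      have hx2 : s ^ 2 = (⁅y, s⁆) ^ (-((2 : ℤ) ^ (k + 1) + 1)) *
          (s ^ ((2 : ℤ) ^ (k + 3))) ^ ((2 : ℤ) ^ k) := by
        rw [hc, ← zpow_mul, ← zpow_mul, ← zpow_add, ← zpow_natCast]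
        congr 1; push_cast; ring
      rw [hx2, hxN, one_zpow, mul_one]
      exact Subgroup.zpow_mem _ (Subgroup.commutator_mem_commutator (Subgroup.mem_top y)
        (Subgroup.mem_top s)) _
    · -- s = y
      have : s ^ 2 = 1 := by rw [← hy]; exact pow_orderOf_eq_one s
      rw [this]; exact Subgroup.one_mem _

/-- A finite product of groups with elementary abelian abelianization has elementary abelian
abelianization. -/
theorem eab_pi {p : ℕ} {ι : Type*} [Finite ι] [DecidableEq ι] {G : ι → Type*}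
    [∀ i, Group (G i)] (h : ∀ i, EAb p (⊤ : Subgroup (G i))) :
    EAb p (⊤ : Subgroup (∀ i, G i)) := by
  intro x _
  apply Subgroup.pi_mem_of_mulSingle_mem
  intro i
  have h1 := ((h i).map (MonoidHom.mulSingle G i)) (Pi.mulSingle i (x i))
    ⟨x i, Subgroup.mem_top _, rfl⟩
  have h2 : Pi.mulSingle i ((x ^ p) i) = (Pi.mulSingle i (x i) : ∀ i, G i) ^ p := by
    rw [Pi.pow_apply, ← MonoidHom.mulSingle_apply, map_pow]
    rfl
  rw [h2]
  exact Subgroup.commutator_mono le_top le_top h1

end Cfsg.Agent.H48
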