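import Mathlib
import Cfsg.Prelude.Def_G2

set_option autoImplicit false

namespace Cfsg.Agent.H48

open Matrix Cfsg.Lie

section zorn

variable {F : Type*} [Field F]

/-- Coordinates of the Zorn product. -/
theorem zornMul_eq (x y : Fin 8 → F) :
    zornMul x y = ![x 0 * y 0 + (x 1 * y 4 + x 2 * y 5 + x 3 * y 6),
      x 0 * y 1 + y 7 * x 1 - (x 5 * y 6 - x 6 * y 5),
      x 0 * y 2 + y 7 * x 2 - (x 6 * y 4 - x 4 * y 6),
      x 0 * y 3 + y 7 * x 3 - (x 4 * y 5 - x 5 * y 4),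
      y 0 * x 4 + x 7 * y 4 + (x 2 * y 3 - x 3 * y 2),
      y 0 * x 5 + x 7 * y 5 + (x 3 * y 1 - x 1 * y 3),
      y 0 * x 6 + x 7 * y 6 + (x 1 * y 2 - x 2 * y 1),
      x 4 * y 1 + x 5 * y 2 + x 6 * y 3 + x 7 * y 7] := by
  ext i
  fin_cases i <;> simp [zornMul, dot3, cross3]

theorem mem_G2_iff (g : GL (Fin 8) F) :
    g ∈ G2 F ↔ ∀ x y, (g : Matrix (Fin 8) (Fin 8) F) *ᵥ zornMul x y =
      zornMul ((g : Matrix (Fin 8) (Fin 8) F) *ᵥ x) ((g : Matrix (Fin 8) (Fin 8) F) *ᵥ y) :=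
  Iff.rfl

/-- A `GL₈` element from a pair of mutually inverse linear maps. -/
def mkGL (f g : (Fin 8 → F) →ₗ[F] (Fin 8 → F)) (h₁ : ∀ x, f (g x) = x) (h₂ : ∀ x, g (f x) = x) :
    GL (Fin 8) F :=
  ⟨LinearMap.toMatrix' f, LinearMap.toMatrix' g,
    by rw [← LinearMap.toMatrix'_mul, show f * g = 1 from LinearMap.ext h₁, LinearMap.toMatrix'_one],
    by rw [← LinearMap.toMatrix'_mul, show g * f = 1 from LinearMap.ext h₂, LinearMap.toMatrix'_one]⟩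

theorem mkGL_mulVec (f g : (Fin 8 → F) →ₗ[F] (Fin 8 → F)) (h₁ : ∀ x, f (g x) = x)
    (h₂ : ∀ x, g (f x) = x) (x : Fin 8 → F) :
    ((mkGL f g h₁ h₂ : GL (Fin 8) F) : Matrix (Fin 8) (Fin 8) F) *ᵥ x = f x := by
  show (LinearMap.toMatrix' f) *ᵥ x = f x
  rw [← Matrix.toLin'_apply, Matrix.toLin'_toMatrix']

theorem mkGL_mem (f g : (Fin 8 → F) →ₗ[F] (Fin 8 → F)) (h₁ : ∀ x, f (g x) = x)
    (h₂ : ∀ x, g (f x) = x) (h : ∀ x y, f (zornMul x y) = zornMul (f x) (f y)) :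
    mkGL f g h₁ h₂ ∈ G2 F := by
  rw [mem_G2_iff]
  intro x y
  rw [mkGL_mulVec, mkGL_mulVec, mkGL_mulVec, h]

/-- The short root element `τ_c`. -/
def tauL (c : Fin 3 → F) : (Fin 8 → F) →ₗ[F] (Fin 8 → F) where
  toFun x := ![x 0 - (c 0 * x 4 + c 1 * x 5 + c 2 * x 6),
    x 1 + (x 0 - x 7 - (c 0 * x 4 + c 1 * x 5 + c 2 * x 6)) * c 0,
    x 2 + (x 0 - x 7 - (c 0 * x 4 + c 1 * x 5 + c 2 * x 6)) * c 1,
    x 3 + (x 0 - x 7 - (c 0 * x 4 + c 1 * x 5 + c 2 * x 6)) * c 2,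
    x 4 + (c 1 * x 3 - c 2 * x 2),
    x 5 + (c 2 * x 1 - c 0 * x 3),
    x 6 + (c 0 * x 2 - c 1 * x 1),
    x 7 + (c 0 * x 4 + c 1 * x 5 + c 2 * x 6)]
  map_add' x y := by
    ext i
    fin_cases i <;> simp <;> ring
  map_smul' r x := by
    ext i
    fin_cases i <;> simp <;> ring

theorem tauL_apply (c : Fin 3 → F) (x : Fin 8 → F) :
    tauL c x = ![x 0 - (c 0 * x 4 + c 1 * x 5 + c 2 * x 6),
    x 1 + (x 0 - x 7 - (c 0 * x 4 + c 1 * x 5 + c 2 * x 6)) * c 0,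
    x 2 + (x 0 - x 7 - (c 0 * x 4 + c 1 * x 5 + c 2 * x 6)) * c 1,
    x 3 + (x 0 - x 7 - (c 0 * x 4 + c 1 * x 5 + c 2 * x 6)) * c 2,
    x 4 + (c 1 * x 3 - c 2 * x 2),
    x 5 + (c 2 * x 1 - c 0 * x 3),
    x 6 + (c 0 * x 2 - c 1 * x 1),
    x 7 + (c 0 * x 4 + c 1 * x 5 + c 2 * x 6)] := rfl

theorem tauL_tauL_neg (c : Fin 3 → F) (x : Fin 8 → F) : tauL c (tauL (-c) x) = x := by
  ext i
  fin_cases i <;> simp [tauL_apply] <;> ring

theorem tauL_neg_tauL (c : Fin 3 → F) (x : Fin 8 → F) : tauL (-c) (tauL c x) = x := by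
  have h := tauL_tauL_neg (-c) x
  rwa [neg_neg] at h

theorem tauL_zornMul (c : Fin 3 → F) (x y : Fin 8 → F) :
    tauL c (zornMul x y) = zornMul (tauL c x) (tauL c y) := by
  ext i
  fin_cases i <;> simp [tauL_apply, zornMul_eq] <;> ring

/-- The swap automorphism. -/
def sigL : (Fin 8 → F) →ₗ[F] (Fin 8 → F) where
  toFun x := ![x 7, -x 4, -x 5, -x 6, -x 1, -x 2, -x 3, x 0]
  map_add' x y := by
    ext i
    fin_cases i <;> simp <;> ring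
  map_smul' r x := by
    ext i
    fin_cases i <;> simp

theorem sigL_apply (x : Fin 8 → F) :
    sigL x = ![x 7, -x 4, -x 5, -x 6, -x 1, -x 2, -x 3, x 0] := rfl

theorem sigL_sigL (x : Fin 8 → F) : sigL (sigL x) = x := by
  ext i
  fin_cases i <;> simp [sigL_apply]

theorem sigL_zornMul (x y : Fin 8 → F) :
    sigL (zornMul x y) = zornMul (sigL x) (sigL y) := by
  ext i
  fin_cases i <;> simp [sigL_apply, zornMul_eq] <;> ring

/-- `τ_c` as an element of `G₂(F)`. -/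
def tauG (c : Fin 3 → F) : G2 F :=
  ⟨mkGL (tauL c) (tauL (-c)) (tauL_tauL_neg c) (tauL_neg_tauL c),
    mkGL_mem _ _ _ _ (tauL_zornMul c)⟩

/-- The swap as an element of `G₂(F)`. -/
def sigG : G2 F :=
  ⟨mkGL sigL sigL sigL_sigL sigL_sigL, mkGL_mem _ _ _ _ sigL_zornMul⟩

theorem tauG_mulVec (c : Fin 3 → F) (x : Fin 8 → F) :
    (((tauG c : G2 F) : GL (Fin 8) F) : Matrix (Fin 8) (Fin 8) F) *ᵥ x = tauL c x :=
  mkGL_mulVec (tauL c) (tauL (-c)) (tauL_tauL_neg c) (tauL_neg_tauL c) x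

theorem sigG_mulVec (x : Fin 8 → F) :
    (((sigG : G2 F) : GL (Fin 8) F) : Matrix (Fin 8) (Fin 8) F) *ᵥ x = sigL x :=
  mkGL_mulVec sigL sigL sigL_sigL sigL_sigL x

end zorn

end Cfsg.Agent.H48
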