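import Mathlib
import Cfsg.Agent.H48.G2Basic

set_option autoImplicit false

namespace Cfsg.Agent.H48

open Matrix Cfsg.Lie

section cd

variable {F : Type*} [Field F]

/-- Zorn coordinates as a pair of `2 × 2` matrices (Cayley–Dickson form). -/
def encL : (Fin 8 → F) →ₗ[F] (Matrix (Fin 2) (Fin 2) F × Matrix (Fin 2) (Fin 2) F) where
  toFun x := (!![x 0, -x 1; -x 4, x 7], !![x 2, -x 6; x 3, x 5])
  map_add' x y := by
    refine Prod.ext ?_ ?_ <;> (ext i j; fin_cases i <;> fin_cases j <;> simp <;> ring)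
  map_smul' r x := by
    refine Prod.ext ?_ ?_ <;> (ext i j; fin_cases i <;> fin_cases j <;> simp)

/-- Inverse of `encL`. -/
def decL : (Matrix (Fin 2) (Fin 2) F × Matrix (Fin 2) (Fin 2) F) →ₗ[F] (Fin 8 → F) where
  toFun p := ![p.1 0 0, -p.1 0 1, p.2 0 0, p.2 1 0, -p.1 1 0, p.2 1 1, -p.2 0 1, p.1 1 1]
  map_add' x y := by
    ext i
    fin_cases i <;> simp <;> ring
  map_smul' r x := by
    ext i
    fin_cases i <;> simp

theorem encL_apply (x : Fin 8 → F) :
    encL x = (!![x 0, -x 1; -x 4, x 7], !![x 2, -x 6; x 3, x 5]) := rfl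

theorem decL_apply (p : Matrix (Fin 2) (Fin 2) F × Matrix (Fin 2) (Fin 2) F) :
    decL p = ![p.1 0 0, -p.1 0 1, p.2 0 0, p.2 1 0, -p.1 1 0, p.2 1 1, -p.2 0 1, p.1 1 1] := rfl

theorem decL_encL (x : Fin 8 → F) : decL (encL x) = x := by
  rw [encL_apply, decL_apply]
  ext i
  fin_cases i <;> simp

theorem encL_decL (p : Matrix (Fin 2) (Fin 2) F × Matrix (Fin 2) (Fin 2) F) :
    encL (decL p) = p := by
  rw [encL_apply, decL_apply]
  refine Prod.ext ?_ ?_ <;> (ext i j; fin_cases i <;> fin_cases j <;> simp)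

/-- The Cayley–Dickson product on pairs of `2 × 2` matrices. -/
def cdMul (p q : Matrix (Fin 2) (Fin 2) F × Matrix (Fin 2) (Fin 2) F) :
    Matrix (Fin 2) (Fin 2) F × Matrix (Fin 2) (Fin 2) F :=
  (p.1 * q.1 + adjugate q.2 * p.2, q.2 * p.1 + p.2 * adjugate q.1)

theorem encL_zornMul (x y : Fin 8 → F) : encL (zornMul x y) = cdMul (encL x) (encL y) := by
  rw [zornMul_eq, encL_apply, encL_apply, encL_apply, cdMul]
  refine Prod.ext ?_ ?_ <;>
    (ext i j; fin_cases i <;> fin_cases j <;>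
      simp [Matrix.mul_apply, Fin.sum_univ_two, Matrix.adjugate_fin_two] <;> ring)

/-- The map `(X, Y) ↦ (A X B, C Y B)`. -/
def actL (A B C : Matrix (Fin 2) (Fin 2) F) :
    (Matrix (Fin 2) (Fin 2) F × Matrix (Fin 2) (Fin 2) F) →ₗ[F]
      (Matrix (Fin 2) (Fin 2) F × Matrix (Fin 2) (Fin 2) F) :=
  LinearMap.prodMap (LinearMap.mulLeft F A ∘ₗ LinearMap.mulRight F B)
    (LinearMap.mulLeft F C ∘ₗ LinearMap.mulRight F B)

theorem actL_apply (A B C : Matrix (Fin 2) (Fin 2) F)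
    (p : Matrix (Fin 2) (Fin 2) F × Matrix (Fin 2) (Fin 2) F) :
    actL A B C p = (A * (p.1 * B), C * (p.2 * B)) := rfl

theorem actL_cdMul (A B C : Matrix (Fin 2) (Fin 2) F) (hAB : A * B = 1) (hBA : B * A = 1)
    (hdet : C.det = A.det) (p q : Matrix (Fin 2) (Fin 2) F × Matrix (Fin 2) (Fin 2) F) :
    actL A B C (cdMul p q) = cdMul (actL A B C p) (actL A B C q) := by
  have adjB : adjugate B = B.det • A := by
    calc adjugate B = adjugate B * (B * A) := by rw [hBA, mul_one]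
      _ = (adjugate B * B) * A := (mul_assoc _ _ _).symm
      _ = B.det • A := by rw [adjugate_mul, Matrix.smul_mul, one_mul]
  have adjA : adjugate A = A.det • B := by
    calc adjugate A = adjugate A * (A * B) := by rw [hAB, mul_one]
      _ = (adjugate A * A) * B := (mul_assoc _ _ _).symm
      _ = A.det • B := by rw [adjugate_mul, Matrix.smul_mul, one_mul]
  have hdd : B.det * A.det = 1 := by rw [← det_mul, hBA, det_one]
  have adjC : ∀ Z : Matrix (Fin 2) (Fin 2) F, adjugate C * (C * Z) = C.det • Z := by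
    intro Z
    rw [← mul_assoc, adjugate_mul, Matrix.smul_mul, one_mul]
  have hBAZ : ∀ Z : Matrix (Fin 2) (Fin 2) F, B * (A * Z) = Z := by
    intro Z
    rw [← mul_assoc, hBA, one_mul]
  rw [actL_apply, actL_apply, actL_apply]
  unfold cdMul
  refine Prod.ext ?_ ?_
  · show A * ((p.1 * q.1 + adjugate q.2 * p.2) * B) =
      A * (p.1 * B) * (A * (q.1 * B)) + adjugate (C * (q.2 * B)) * (C * (p.2 * B))
    have t1 : A * (p.1 * B) * (A * (q.1 * B)) = A * (p.1 * q.1 * B) := by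
      simp only [mul_assoc, hBAZ]
    have t2 : adjugate (C * (q.2 * B)) * (C * (p.2 * B)) = A * (adjugate q.2 * p.2 * B) := by
      rw [adjugate_mul_distrib, adjugate_mul_distrib, mul_assoc, mul_assoc, adjC, adjB]
      simp only [Matrix.smul_mul, Matrix.mul_smul, smul_smul, mul_assoc]
      rw [hdet, mul_comm, hdd, one_smul]
    rw [t1, t2, add_mul, mul_add]
  · show C * ((q.2 * p.1 + p.2 * adjugate q.1) * B) =
      C * (q.2 * B) * (A * (p.1 * B)) + C * (p.2 * B) * adjugate (A * (q.1 * B))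
    have t1 : C * (q.2 * B) * (A * (p.1 * B)) = C * (q.2 * p.1 * B) := by
      simp only [mul_assoc, hBAZ]
    have t2 : C * (p.2 * B) * adjugate (A * (q.1 * B)) = C * (p.2 * adjugate q.1 * B) := by
      rw [adjugate_mul_distrib, adjugate_mul_distrib, adjA, adjB]
      simp only [Matrix.smul_mul, Matrix.mul_smul, smul_smul, mul_assoc, hBAZ]
      rw [mul_comm A.det, hdd, one_smul]
    rw [t1, t2, add_mul, mul_add]

/-- The `8 × 8` matrix of the action of a pair `(h₁, h₂)`. -/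
def phiM (h : GL (Fin 2) F × GL (Fin 2) F) : Matrix (Fin 8) (Fin 8) F :=
  LinearMap.toMatrix' (decL ∘ₗ actL (h.1 : Matrix (Fin 2) (Fin 2) F)
    ((h.1⁻¹ : GL (Fin 2) F) : Matrix (Fin 2) (Fin 2) F) (h.2 : Matrix (Fin 2) (Fin 2) F) ∘ₗ encL)

theorem phiM_mulVec (h : GL (Fin 2) F × GL (Fin 2) F) (x : Fin 8 → F) :
    phiM h *ᵥ x = decL (actL (h.1 : Matrix (Fin 2) (Fin 2) F)
      ((h.1⁻¹ : GL (Fin 2) F) : Matrix (Fin 2) (Fin 2) F) (h.2 : Matrix (Fin 2) (Fin 2) F)
      (encL x)) := by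
  rw [phiM, ← Matrix.toLin'_apply, Matrix.toLin'_toMatrix']
  rfl

theorem mat_ext_mulVec {M N : Matrix (Fin 8) (Fin 8) F} (h : ∀ x, M *ᵥ x = N *ᵥ x) : M = N := by
  apply Matrix.toLin'.injective
  refine LinearMap.ext fun x => ?_
  rw [Matrix.toLin'_apply, Matrix.toLin'_apply]
  exact h x

/-- The action as a monoid homomorphism into matrices. -/
def phiHom (F : Type*) [Field F] :
    GL (Fin 2) F × GL (Fin 2) F →* Matrix (Fin 8) (Fin 8) F where
  toFun := phiM
  map_one' := by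
    apply mat_ext_mulVec
    intro x
    rw [phiM_mulVec, actL_apply, Matrix.one_mulVec]
    simp [decL_encL]
  map_mul' h k := by
    apply mat_ext_mulVec
    intro x
    rw [← Matrix.mulVec_mulVec, phiM_mulVec, phiM_mulVec, phiM_mulVec, encL_decL, actL_apply,
      actL_apply, actL_apply]
    simp [mul_assoc]

/-- The action as a homomorphism into `GL₈(F)`. -/
def phiGL (F : Type*) [Field F] : GL (Fin 2) F × GL (Fin 2) F →* GL (Fin 8) F :=
  (phiHom F).toHomUnits

theorem phiGL_coe (h : GL (Fin 2) F × GL (Fin 2) F) :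
    ((phiGL F h : GL (Fin 8) F) : Matrix (Fin 8) (Fin 8) F) = phiM h := rfl

theorem phiGL_mem (h : GL (Fin 2) F × GL (Fin 2) F)
    (hdet : (h.2 : Matrix (Fin 2) (Fin 2) F).det = (h.1 : Matrix (Fin 2) (Fin 2) F).det) :
    phiGL F h ∈ G2 F := by
  rw [mem_G2_iff]
  intro x y
  rw [phiGL_coe, phiM_mulVec, phiM_mulVec, phiM_mulVec]
  have hinj : Function.Injective (encL : (Fin 8 → F) →ₗ[F] _) :=
    Function.LeftInverse.injective decL_encL
  apply hinj
  rw [encL_decL, encL_zornMul, encL_zornMul, encL_decL, encL_decL]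
  exact actL_cdMul _ _ _ (by rw [← Units.val_mul, mul_inv_cancel, Units.val_one])
    (by rw [← Units.val_mul, inv_mul_cancel, Units.val_one]) hdet _ _

theorem phiGL_eq_one_iff (h : GL (Fin 2) F × GL (Fin 2) F) :
    phiGL F h = 1 ↔ ∀ p : Matrix (Fin 2) (Fin 2) F × Matrix (Fin 2) (Fin 2) F,
      actL (h.1 : Matrix (Fin 2) (Fin 2) F)
      ((h.1⁻¹ : GL (Fin 2) F) : Matrix (Fin 2) (Fin 2) F) (h.2 : Matrix (Fin 2) (Fin 2) F) p = p := by
  constructor
  · intro h1 p
    have h2 : phiM h = 1 := by rw [← phiGL_coe, h1]; rfl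
    have h3 := phiM_mulVec h (decL p)
    rw [h2, Matrix.one_mulVec, encL_decL] at h3
    have h4 := congrArg encL h3
    rw [encL_decL, encL_decL] at h4
    exact h4.symm
  · intro hp
    apply Units.ext
    rw [phiGL_coe]
    apply mat_ext_mulVec
    intro x
    rw [phiM_mulVec, hp, decL_encL, Units.val_one, Matrix.one_mulVec]

/-- The kernel of the action consists of pairs of equal scalar matrices. -/
theorem phiGL_ker (h : GL (Fin 2) F × GL (Fin 2) F) (h1 : phiGL F h = 1) :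
    h.2 = h.1 ∧ ∃ c : F, (h.1 : Matrix (Fin 2) (Fin 2) F) = c • 1 := by
  rw [phiGL_eq_one_iff] at h1
  have hBA : ((h.1⁻¹ : GL (Fin 2) F) : Matrix (Fin 2) (Fin 2) F) *
      (h.1 : Matrix (Fin 2) (Fin 2) F) = 1 := by
    rw [← Units.val_mul, inv_mul_cancel, Units.val_one]
  have hcomm : ∀ X : Matrix (Fin 2) (Fin 2) F,
      (h.1 : Matrix (Fin 2) (Fin 2) F) * X = X * (h.1 : Matrix (Fin 2) (Fin 2) F) := by
    intro X
    have h2 := congrArg Prod.fst (h1 (X, 0))
    rw [actL_apply] at h2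
    have h3 : (h.1 : Matrix (Fin 2) (Fin 2) F) * (X * ((h.1⁻¹ : GL (Fin 2) F) :
        Matrix (Fin 2) (Fin 2) F)) = X := h2
    calc (h.1 : Matrix (Fin 2) (Fin 2) F) * X
        = (h.1 : Matrix (Fin 2) (Fin 2) F) * (X * (((h.1⁻¹ : GL (Fin 2) F) :
          Matrix (Fin 2) (Fin 2) F) * (h.1 : Matrix (Fin 2) (Fin 2) F))) := by
          rw [hBA, mul_one]
      _ = ((h.1 : Matrix (Fin 2) (Fin 2) F) * (X * ((h.1⁻¹ : GL (Fin 2) F) :
          Matrix (Fin 2) (Fin 2) F))) * (h.1 : Matrix (Fin 2) (Fin 2) F) := by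
          simp only [mul_assoc]
      _ = X * (h.1 : Matrix (Fin 2) (Fin 2) F) := by rw [h3]
  refine ⟨?_, ?_⟩
  · have h2 := congrArg Prod.snd (h1 (0, 1))
    rw [actL_apply] at h2
    have h3 : (h.2 : Matrix (Fin 2) (Fin 2) F) * (1 * ((h.1⁻¹ : GL (Fin 2) F) :
        Matrix (Fin 2) (Fin 2) F)) = 1 := h2
    rw [one_mul] at h3
    apply Units.ext
    calc (h.2 : Matrix (Fin 2) (Fin 2) F)
        = (h.2 : Matrix (Fin 2) (Fin 2) F) * (((h.1⁻¹ : GL (Fin 2) F) :
          Matrix (Fin 2) (Fin 2) F) * (h.1 : Matrix (Fin 2) (Fin 2) F)) := by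
          rw [hBA, mul_one]
      _ = (h.1 : Matrix (Fin 2) (Fin 2) F) := by rw [← mul_assoc, h3, one_mul]
  · have c1 := hcomm !![0, 1; 0, 0]
    have c2 := hcomm !![0, 0; 1, 0]
    have e1 := congrFun (congrFun c1 0) 1
    have e2 := congrFun (congrFun c1 1) 1
    have e3 := congrFun (congrFun c2 0) 0
    simp [Matrix.mul_apply, Fin.sum_univ_two] at e1 e2 e3
    refine ⟨(h.1 : Matrix (Fin 2) (Fin 2) F) 0 0, ?_⟩
    ext i j
    fin_cases i <;> fin_cases j <;> simp [e1, e2, e3]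

end cd

end Cfsg.Agent.H48
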