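import Mathlib
import Cfsg.Agent.H48.G2Basic

set_option autoImplicit false

namespace Cfsg.Agent.H48

open Matrix Cfsg.Lie

section orbit

variable {F : Type*} [Field F]

/-- The identity of the Zorn algebra. -/
def zone : Fin 8 → F := ![1, 0, 0, 0, 0, 0, 0, 1]

/-- The idempotent `e₁`. -/
def ze1 : Fin 8 → F := ![1, 0, 0, 0, 0, 0, 0, 0]

theorem zone_mul (y : Fin 8 → F) : zornMul zone y = y := by
  ext i
  fin_cases i <;> simp [zone, zornMul_eq]

theorem mul_zone (y : Fin 8 → F) : zornMul y zone = y := by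
  ext i
  fin_cases i <;> simp [zone, zornMul_eq]

/-- The matrix of an element of `G₂(F)`. -/
def gmat (g : G2 F) : Matrix (Fin 8) (Fin 8) F := ((g : GL (Fin 8) F) : Matrix (Fin 8) (Fin 8) F)

/-- The action of `G₂(F)` on `F⁸`. -/
def gact (g : G2 F) (x : Fin 8 → F) : Fin 8 → F := gmat g *ᵥ x

theorem gmat_one : gmat (1 : G2 F) = 1 := rfl

theorem gmat_mul (g h : G2 F) : gmat (g * h) = gmat g * gmat h := rfl

theorem gact_one (x : Fin 8 → F) : gact (1 : G2 F) x = x := by
  rw [gact, gmat_one, Matrix.one_mulVec]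

theorem gact_mul (g h : G2 F) (x : Fin 8 → F) : gact (g * h) x = gact g (gact h x) := by
  rw [gact, gmat_mul, ← Matrix.mulVec_mulVec]; rfl

theorem gact_zornMul (g : G2 F) (x y : Fin 8 → F) :
    gact g (zornMul x y) = zornMul (gact g x) (gact g y) := g.2 x y

theorem gact_inv_gact (g : G2 F) (x : Fin 8 → F) : gact g⁻¹ (gact g x) = x := by
  rw [← gact_mul, inv_mul_cancel, gact_one]

theorem gact_gact_inv (g : G2 F) (x : Fin 8 → F) : gact g (gact g⁻¹ x) = x := by
  rw [← gact_mul, mul_inv_cancel, gact_one]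

theorem gact_zero (g : G2 F) : gact g 0 = 0 := by
  rw [gact, Matrix.mulVec_zero]

theorem gact_sub (g : G2 F) (x y : Fin 8 → F) : gact g (x - y) = gact g x - gact g y := by
  rw [gact, Matrix.mulVec_sub]; rfl

theorem gact_zone (g : G2 F) : gact g zone = zone := by
  have h := gact_zornMul g zone (gact g⁻¹ zone)
  rw [zone_mul, gact_gact_inv, mul_zone] at h
  exact h.symm

theorem gact_tauG (c : Fin 3 → F) (x : Fin 8 → F) : gact (tauG c) x = tauL c x :=
  tauG_mulVec c x

theorem gact_sigG (x : Fin 8 → F) : gact (sigG : G2 F) x = sigL x :=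
  sigG_mulVec x

theorem gact_single (g : G2 F) (j : Fin 8) : gact g (Pi.single j 1) = fun i => gmat g i j := by
  ext i
  rw [gact, Matrix.mulVec_single_one]
  rfl

/-- The idempotents other than `0` and `1`. -/
def zIdem (F : Type*) [Field F] : Set (Fin 8 → F) :=
  {x | zornMul x x = x ∧ x ≠ 0 ∧ x ≠ zone}

theorem zIdem_iff (x : Fin 8 → F) :
    x ∈ zIdem F ↔ x 0 + x 7 = 1 ∧ x 1 * x 4 + x 2 * x 5 + x 3 * x 6 = x 0 * x 7 := by
  constructor
  · rintro ⟨h, h0, h1⟩
    rw [zornMul_eq] at h
    have c0 := congrFun h 0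
    have c1 := congrFun h 1
    have c2 := congrFun h 2
    have c3 := congrFun h 3
    have c4 := congrFun h 4
    have c5 := congrFun h 5
    have c6 := congrFun h 6
    have c7 := congrFun h 7
    simp at c0 c1 c2 c3 c4 c5 c6 c7
    by_cases hs : x 0 + x 7 = 1
    · refine ⟨hs, ?_⟩
      linear_combination c0 - x 0 * hs
    · exfalso
      have hs' : x 0 + x 7 - 1 ≠ 0 := sub_ne_zero.mpr hs
      have e1 : x 1 = 0 := by
        have : (x 0 + x 7 - 1) * x 1 = 0 := by linear_combination c1
        exact (mul_eq_zero.mp this).resolve_left hs'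
      have e2 : x 2 = 0 := by
        have : (x 0 + x 7 - 1) * x 2 = 0 := by linear_combination c2
        exact (mul_eq_zero.mp this).resolve_left hs'
      have e3 : x 3 = 0 := by
        have : (x 0 + x 7 - 1) * x 3 = 0 := by linear_combination c3
        exact (mul_eq_zero.mp this).resolve_left hs'
      have e4 : x 4 = 0 := by
        have : (x 0 + x 7 - 1) * x 4 = 0 := by linear_combination c4
        exact (mul_eq_zero.mp this).resolve_left hs'
      have e5 : x 5 = 0 := by
        have : (x 0 + x 7 - 1) * x 5 = 0 := by linear_combination c5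
        exact (mul_eq_zero.mp this).resolve_left hs'
      have e6 : x 6 = 0 := by
        have : (x 0 + x 7 - 1) * x 6 = 0 := by linear_combination c6
        exact (mul_eq_zero.mp this).resolve_left hs'
      have f0 : x 0 * (x 0 - 1) = 0 := by
        rw [e1, e2, e3] at c0
        linear_combination c0
      have f7 : x 7 * (x 7 - 1) = 0 := by
        rw [e4, e5, e6] at c7
        linear_combination c7
      rcases mul_eq_zero.mp f0 with g0 | g0 <;> rcases mul_eq_zero.mp f7 with g7 | g7
      · apply h0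
        ext i
        fin_cases i <;> simp [e1, e2, e3, e4, e5, e6, g0, g7]
      · apply hs
        linear_combination g0 + g7
      · apply hs
        linear_combination g0 + g7
      · apply h1
        have g0' : x 0 = 1 := by linear_combination g0
        have g7' : x 7 = 1 := by linear_combination g7
        ext i
        fin_cases i <;> simp [zone, e1, e2, e3, e4, e5, e6, g0', g7']
  · rintro ⟨h1, h2⟩
    refine ⟨?_, ?_, ?_⟩
    · rw [zornMul_eq]
      ext i
      fin_cases i
      · simp; linear_combination h2 + x 0 * h1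
      · simp; linear_combination x 1 * h1
      · simp; linear_combination x 2 * h1
      · simp; linear_combination x 3 * h1
      · simp; linear_combination x 4 * h1
      · simp; linear_combination x 5 * h1
      · simp; linear_combination x 6 * h1
      · simp; linear_combination h2 + x 7 * h1
    · rintro rfl
      simp at h1
    · rintro rfl
      simp [zone] at h1

theorem ze1_mem : (ze1 : Fin 8 → F) ∈ zIdem F := by
  rw [zIdem_iff]
  simp [ze1]

theorem gact_mem_zIdem (g : G2 F) {x : Fin 8 → F} (hx : x ∈ zIdem F) : gact g x ∈ zIdem F := by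
  obtain ⟨h, h0, h1⟩ := hx
  refine ⟨?_, ?_, ?_⟩
  · rw [← gact_zornMul, h]
  · intro hz
    apply h0
    rw [← gact_inv_gact g x, hz, gact_zero]
  · intro hz
    apply h1
    rw [← gact_inv_gact g x, hz, gact_zone]

theorem trans_aux1 (x : Fin 8 → F) (h0 : x 0 = 0) (h7 : x 7 = 1)
    (hd : x 1 * x 4 + x 2 * x 5 + x 3 * x 6 = 0) :
    ∃ g : G2 F, gact g x = ze1 := by
  refine ⟨tauG ![x 4, x 5, x 6] * sigG * tauG ![x 1, x 2, x 3], ?_⟩
  rw [gact_mul, gact_mul, gact_tauG, gact_sigG, gact_tauG]
  have e1 : tauL ![x 1, x 2, x 3] x = ![0, 0, 0, 0, x 4, x 5, x 6, 1] := by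
    rw [tauL_apply]
    ext i
    fin_cases i
    · simp [h0]; linear_combination (-1 : F) * hd
    · simp [h0, h7]; linear_combination (-x 1) * hd
    · simp [h0, h7]; linear_combination (-x 2) * hd
    · simp [h0, h7]; linear_combination (-x 3) * hd
    · simp; ring
    · simp; ring
    · simp; ring
    · simp [h7]; linear_combination hd
  rw [e1, sigL_apply, tauL_apply]
  ext i
  fin_cases i <;> simp [ze1] <;> ring

theorem trans_aux2 (x : Fin 8 → F) (h0 : x 0 = 1) (h7 : x 7 = 0)
    (h4 : x 4 = 0) (h5 : x 5 = 0) (h6 : x 6 = 0) :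
    ∃ g : G2 F, gact g x = ze1 := by
  refine ⟨tauG (-![x 1, x 2, x 3]), ?_⟩
  rw [gact_tauG, tauL_apply]
  ext i
  fin_cases i <;> simp [ze1, h0, h7, h4, h5, h6] <;> ring

theorem trans_aux3 (x : Fin 8 → F) (hb : ¬ (x 4 = 0 ∧ x 5 = 0 ∧ x 6 = 0)) :
    ∃ c : Fin 3 → F, tauL c x 0 = 0 := by
  by_cases h4 : x 4 = 0
  · by_cases h5 : x 5 = 0
    · have h6 : x 6 ≠ 0 := fun h6 => hb ⟨h4, h5, h6⟩
      refine ⟨![0, 0, x 0 / x 6], ?_⟩
      simp [tauL_apply]
      field_simp
      ring
    · refine ⟨![0, x 0 / x 5, 0], ?_⟩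
      simp [tauL_apply]
      field_simp
      ring
  · refine ⟨![x 0 / x 4, 0, 0], ?_⟩
    simp [tauL_apply]
    field_simp
    ring

/-- `G₂(F)` is transitive on the idempotents other than `0` and `1`. -/
theorem exists_gact_eq_ze1 {x : Fin 8 → F} (hx : x ∈ zIdem F) : ∃ g : G2 F, gact g x = ze1 := by
  have hx' := (zIdem_iff x).mp hx
  by_cases hb : x 4 = 0 ∧ x 5 = 0 ∧ x 6 = 0
  · obtain ⟨h4, h5, h6⟩ := hb
    obtain ⟨hs, hd⟩ := hx'
    rw [h4, h5, h6] at hd
    have h07 : x 0 * x 7 = 0 := by linear_combination -hd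
    rcases mul_eq_zero.mp h07 with h0 | h7
    · apply trans_aux1 x h0 (by linear_combination hs - h0)
      rw [h4, h5, h6]; ring
    · exact trans_aux2 x (by linear_combination hs - h7) h7 h4 h5 h6
  · obtain ⟨c, hc⟩ := trans_aux3 x hb
    have hy := gact_mem_zIdem (tauG c) hx
    rw [gact_tauG] at hy
    obtain ⟨hs, hd⟩ := (zIdem_iff _).mp hy
    rw [hc] at hs hd
    obtain ⟨g, hg⟩ := trans_aux1 (tauL c x) hc (by linear_combination hs) (by linear_combination hd)
    refine ⟨g * tauG c, ?_⟩
    rw [gact_mul, gact_tauG, hg]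

end orbit

end Cfsg.Agent.H48
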