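import Mathlib
import Cfsg.Agent.H48.G2Orbit

set_option autoImplicit false

namespace Cfsg.Agent.H48

open Matrix Cfsg.Lie

section stab

variable {F : Type*} [Field F]

theorem ze1_mul (y : Fin 8 → F) : zornMul ze1 y = ![y 0, y 1, y 2, y 3, 0, 0, 0, 0] := by
  ext i
  fin_cases i <;> simp [ze1, zornMul_eq]

theorem mul_ze1 (y : Fin 8 → F) : zornMul y ze1 = ![y 0, 0, 0, 0, y 4, y 5, y 6, 0] := by
  ext i
  fin_cases i <;> simp [ze1, zornMul_eq]

/-- The stabilizer of `e₁` in `G₂(F)`. -/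
def stabE (F : Type*) [Field F] : Subgroup (G2 F) where
  carrier := {g | gact g ze1 = ze1}
  mul_mem' := by
    intro g h hg hh
    show gact (g * h) ze1 = ze1
    rw [gact_mul, show gact h ze1 = ze1 from hh, show gact g ze1 = ze1 from hg]
  one_mem' := gact_one _
  inv_mem' := by
    intro g hg
    show gact g⁻¹ ze1 = ze1
    have h := gact_inv_gact g (ze1 : Fin 8 → F)
    rwa [show gact g ze1 = ze1 from hg] at h

theorem mem_stabE (g : G2 F) : g ∈ stabE F ↔ gact g ze1 = ze1 := Iff.rfl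

theorem stab_A (g : G2 F) (hg : g ∈ stabE F) (y : Fin 8 → F) (h1 : zornMul ze1 y = y)
    (h2 : zornMul y ze1 = 0) :
    gact g y 0 = 0 ∧ gact g y 4 = 0 ∧ gact g y 5 = 0 ∧ gact g y 6 = 0 ∧ gact g y 7 = 0 := by
  have hg' : gact g ze1 = ze1 := hg
  have e1 : zornMul ze1 (gact g y) = gact g y := by
    have h := gact_zornMul g ze1 y
    rw [h1, hg'] at h
    exact h.symm
  have e2 : zornMul (gact g y) ze1 = 0 := by
    have h := gact_zornMul g y ze1
    rw [h2, hg', gact_zero] at h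
    exact h.symm
  rw [ze1_mul] at e1
  rw [mul_ze1] at e2
  have a0 := congrFun e2 0
  have a4 := congrFun e1 4
  have a5 := congrFun e1 5
  have a6 := congrFun e1 6
  have a7 := congrFun e1 7
  simp at a0 a4 a5 a6 a7
  exact ⟨a0, a4.symm, a5.symm, a6.symm, a7.symm⟩

theorem stab_B (g : G2 F) (hg : g ∈ stabE F) (y : Fin 8 → F) (h1 : zornMul y ze1 = y)
    (h2 : zornMul ze1 y = 0) :
    gact g y 0 = 0 ∧ gact g y 1 = 0 ∧ gact g y 2 = 0 ∧ gact g y 3 = 0 ∧ gact g y 7 = 0 := by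
  have hg' : gact g ze1 = ze1 := hg
  have e1 : zornMul (gact g y) ze1 = gact g y := by
    have h := gact_zornMul g y ze1
    rw [h1, hg'] at h
    exact h.symm
  have e2 : zornMul ze1 (gact g y) = 0 := by
    have h := gact_zornMul g ze1 y
    rw [h2, hg', gact_zero] at h
    exact h.symm
  rw [mul_ze1] at e1
  rw [ze1_mul] at e2
  have a0 := congrFun e2 0
  have a1 := congrFun e1 1
  have a2 := congrFun e1 2
  have a3 := congrFun e1 3
  have a7 := congrFun e1 7
  simp at a0 a1 a2 a3 a7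
  exact ⟨a0, a1.symm, a2.symm, a3.symm, a7.symm⟩

theorem stab_colA (g : G2 F) (hg : g ∈ stabE F) (j : Fin 8) (hj : j = 1 ∨ j = 2 ∨ j = 3) :
    gmat g 0 j = 0 ∧ gmat g 4 j = 0 ∧ gmat g 5 j = 0 ∧ gmat g 6 j = 0 ∧ gmat g 7 j = 0 := by
  have h := stab_A g hg (Pi.single j 1)
    (by
      rw [ze1_mul]
      rcases hj with rfl | rfl | rfl <;> (ext i; fin_cases i <;> simp [Pi.single_apply]))
    (by
      rw [mul_ze1]
      rcases hj with rfl | rfl | rfl <;> (ext i; fin_cases i <;> simp [Pi.single_apply]))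
  rw [gact_single] at h
  exact h

theorem stab_colB (g : G2 F) (hg : g ∈ stabE F) (j : Fin 8) (hj : j = 4 ∨ j = 5 ∨ j = 6) :
    gmat g 0 j = 0 ∧ gmat g 1 j = 0 ∧ gmat g 2 j = 0 ∧ gmat g 3 j = 0 ∧ gmat g 7 j = 0 := by
  have h := stab_B g hg (Pi.single j 1)
    (by
      rw [mul_ze1]
      rcases hj with rfl | rfl | rfl <;> (ext i; fin_cases i <;> simp [Pi.single_apply]))
    (by
      rw [ze1_mul]
      rcases hj with rfl | rfl | rfl <;> (ext i; fin_cases i <;> simp [Pi.single_apply]))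
  rw [gact_single] at h
  exact h

theorem ze1_eq_single : (ze1 : Fin 8 → F) = Pi.single 0 1 := by
  ext i
  fin_cases i <;> simp [ze1, Pi.single_apply]

theorem stab_col0 (g : G2 F) (hg : g ∈ stabE F) : gact g (Pi.single 0 1) = Pi.single 0 1 := by
  rw [← ze1_eq_single]; exact hg

theorem stab_col7 (g : G2 F) (hg : g ∈ stabE F) : gact g (Pi.single 7 1) = Pi.single 7 1 := by
  have e : (Pi.single 7 1 : Fin 8 → F) = zone - ze1 := by
    ext i
    fin_cases i <;> simp [ze1, zone, Pi.single_apply]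
  rw [e, gact_sub, gact_zone, show gact g ze1 = ze1 from hg]

theorem prod12 : zornMul (Pi.single 1 1 : Fin 8 → F) (Pi.single 2 1) = Pi.single 6 1 := by
  rw [zornMul_eq]
  ext i
  fin_cases i <;> simp [Pi.single_apply]

theorem prod23 : zornMul (Pi.single 2 1 : Fin 8 → F) (Pi.single 3 1) = Pi.single 4 1 := by
  rw [zornMul_eq]
  ext i
  fin_cases i <;> simp [Pi.single_apply]

theorem prod31 : zornMul (Pi.single 3 1 : Fin 8 → F) (Pi.single 1 1) = Pi.single 5 1 := by
  rw [zornMul_eq]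
  ext i
  fin_cases i <;> simp [Pi.single_apply]

theorem prod36 : zornMul (Pi.single 3 1 : Fin 8 → F) (Pi.single 6 1) = Pi.single 0 1 := by
  rw [zornMul_eq]
  ext i
  fin_cases i <;> simp [Pi.single_apply]

/-- The `3 × 3` block of a matrix on the coordinates `1, 2, 3`. -/
def blk (g : G2 F) : Matrix (Fin 3) (Fin 3) F :=
  !![gmat g 1 1, gmat g 1 2, gmat g 1 3; gmat g 2 1, gmat g 2 2, gmat g 2 3;
    gmat g 3 1, gmat g 3 2, gmat g 3 3]

theorem blk_one : blk (1 : G2 F) = 1 := by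
  ext i j
  fin_cases i <;> fin_cases j <;> simp [blk, gmat_one]

theorem blk_mul (g h : G2 F) (hh : h ∈ stabE F) : blk (g * h) = blk g * blk h := by
  obtain ⟨a1, a2, a3, a4, a5⟩ := stab_colA h hh 1 (Or.inl rfl)
  obtain ⟨b1, b2, b3, b4, b5⟩ := stab_colA h hh 2 (Or.inr (Or.inl rfl))
  obtain ⟨c1, c2, c3, c4, c5⟩ := stab_colA h hh 3 (Or.inr (Or.inr rfl))
  ext i j
  fin_cases i <;> fin_cases j <;>
    simp [blk, gmat_mul, Matrix.mul_apply, Fin.sum_univ_eight, Fin.sum_univ_three,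
      a1, a2, a3, a4, a5, b1, b2, b3, b4, b5, c1, c2, c3, c4, c5]

theorem stab_rel6 (g : G2 F) (hg : g ∈ stabE F) :
    gmat g 4 6 = gmat g 2 1 * gmat g 3 2 - gmat g 3 1 * gmat g 2 2 ∧
    gmat g 5 6 = gmat g 3 1 * gmat g 1 2 - gmat g 1 1 * gmat g 3 2 ∧
    gmat g 6 6 = gmat g 1 1 * gmat g 2 2 - gmat g 2 1 * gmat g 1 2 := by
  obtain ⟨a1, a2, a3, a4, a5⟩ := stab_colA g hg 1 (Or.inl rfl)
  obtain ⟨b1, b2, b3, b4, b5⟩ := stab_colA g hg 2 (Or.inr (Or.inl rfl))
  have h := gact_zornMul g (Pi.single 1 1) (Pi.single 2 1)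
  rw [prod12, gact_single, gact_single, gact_single, zornMul_eq] at h
  have h4 := congrFun h 4
  have h5 := congrFun h 5
  have h6 := congrFun h 6
  simp [a1, a2, a3, a4, a5, b1, b2, b3, b4, b5] at h4 h5 h6
  exact ⟨h4, h5, h6⟩

theorem det_blk (g : G2 F) (hg : g ∈ stabE F) : (blk g).det = 1 := by
  obtain ⟨r4, r5, r6⟩ := stab_rel6 g hg
  obtain ⟨c1, c2, c3, c4, c5⟩ := stab_colA g hg 3 (Or.inr (Or.inr rfl))
  have h := gact_zornMul g (Pi.single 3 1) (Pi.single 6 1)
  rw [prod36, gact_single, gact_single, gact_single, zornMul_eq] at h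
  have h0 := congrFun h 0
  have hg0 := congrFun (stab_col0 g hg) 0
  rw [gact_single] at hg0
  simp [c1] at h0 hg0
  rw [hg0, r4, r5, r6] at h0
  rw [Matrix.det_fin_three]
  simp [blk]
  linear_combination -h0

end stab

end Cfsg.Agent.H48
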