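import Mathlib
import Cfsg.Agent.H48.G2Stab

set_option autoImplicit false

namespace Cfsg.Agent.H48

open Matrix Cfsg.Lie

section card

variable {F : Type*} [Field F]

/-- The stabilizer of `e₁` maps to `SL₃(F)`. -/
def stabHom (F : Type*) [Field F] : stabE F →* Matrix.SpecialLinearGroup (Fin 3) F where
  toFun g := ⟨blk g.1, det_blk g.1 g.2⟩
  map_one' := Subtype.ext blk_one
  map_mul' g h := Subtype.ext (blk_mul g.1 h.1 h.2)

theorem stabHom_injective : Function.Injective (stabHom F) := by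
  rw [injective_iff_map_eq_one]
  intro g hg
  have hb : blk g.1 = 1 := congrArg Subtype.val hg
  have hgs := g.2
  obtain ⟨a1, a2, a3, a4, a5⟩ := stab_colA g.1 hgs 1 (Or.inl rfl)
  obtain ⟨b1, b2, b3, b4, b5⟩ := stab_colA g.1 hgs 2 (Or.inr (Or.inl rfl))
  obtain ⟨c1, c2, c3, c4, c5⟩ := stab_colA g.1 hgs 3 (Or.inr (Or.inr rfl))
  have m11 := congrFun (congrFun hb 0) 0
  have m12 := congrFun (congrFun hb 0) 1
  have m13 := congrFun (congrFun hb 0) 2
  have m21 := congrFun (congrFun hb 1) 0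
  have m22 := congrFun (congrFun hb 1) 1
  have m23 := congrFun (congrFun hb 1) 2
  have m31 := congrFun (congrFun hb 2) 0
  have m32 := congrFun (congrFun hb 2) 1
  have m33 := congrFun (congrFun hb 2) 2
  simp [blk] at m11 m12 m13 m21 m22 m23 m31 m32 m33
  have k0 := stab_col0 g.1 hgs
  have k7 := stab_col7 g.1 hgs
  have k1 : gact g.1 (Pi.single 1 1) = Pi.single 1 1 := by
    rw [gact_single]
    ext i
    fin_cases i <;> simp [Pi.single_apply, a1, a2, a3, a4, a5, m11, m21, m31]
  have k2 : gact g.1 (Pi.single 2 1) = Pi.single 2 1 := by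
    rw [gact_single]
    ext i
    fin_cases i <;> simp [Pi.single_apply, b1, b2, b3, b4, b5, m12, m22, m32]
  have k3 : gact g.1 (Pi.single 3 1) = Pi.single 3 1 := by
    rw [gact_single]
    ext i
    fin_cases i <;> simp [Pi.single_apply, c1, c2, c3, c4, c5, m13, m23, m33]
  have k6 : gact g.1 (Pi.single 6 1) = Pi.single 6 1 := by
    rw [← prod12, gact_zornMul, k1, k2]
  have k4 : gact g.1 (Pi.single 4 1) = Pi.single 4 1 := by
    rw [← prod23, gact_zornMul, k2, k3]
  have k5 : gact g.1 (Pi.single 5 1) = Pi.single 5 1 := by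
    rw [← prod31, gact_zornMul, k3, k1]
  have hall : ∀ j : Fin 8, gact g.1 (Pi.single j 1) = Pi.single j 1 := by
    intro j
    fin_cases j
    · exact k0
    · exact k1
    · exact k2
    · exact k3
    · exact k4
    · exact k5
    · exact k6
    · exact k7
  have hmat : gmat g.1 = 1 := by
    ext i j
    have h : gmat g.1 i j = (Pi.single j 1 : Fin 8 → F) i := by
      rw [← hall j, gact_single]
    rw [Matrix.one_apply, h, Pi.single_apply]
  exact Subtype.ext (Subtype.ext (Units.ext hmat))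

theorem card_stabE_dvd [Finite F] :
    Nat.card (stabE F) ∣ Nat.card (Matrix.SpecialLinearGroup (Fin 3) F) :=
  Subgroup.card_dvd_of_injective _ stabHom_injective

theorem exists_rep (x : zIdem F) : ∃ g : G2 F, gact g ze1 = x.1 := by
  obtain ⟨g, hg⟩ := exists_gact_eq_ze1 x.2
  exact ⟨g⁻¹, by rw [← hg, gact_inv_gact]⟩

/-- A chosen element of `G₂(F)` carrying `e₁` to a given idempotent. -/
noncomputable def zrep (x : zIdem F) : G2 F := (exists_rep x).choose

theorem zrep_spec (x : zIdem F) : gact (zrep x) ze1 = x.1 := (exists_rep x).choose_spec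

theorem stab_of_eq (r g : G2 F) (h : gact r ze1 = gact g ze1) : r⁻¹ * g ∈ stabE F := by
  rw [mem_stabE, gact_mul, ← h, gact_inv_gact]

/-- Orbit-stabilizer for the action on idempotents. -/
noncomputable def orbEquiv (F : Type*) [Field F] : G2 F ≃ zIdem F × stabE F where
  toFun g := (⟨gact g ze1, gact_mem_zIdem g ze1_mem⟩,
    ⟨(zrep ⟨gact g ze1, gact_mem_zIdem g ze1_mem⟩)⁻¹ * g, stab_of_eq _ _ (zrep_spec _)⟩)
  invFun p := zrep p.1 * p.2.1
  left_inv g := by
    show zrep ⟨gact g ze1, gact_mem_zIdem g ze1_mem⟩ *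
      ((zrep ⟨gact g ze1, gact_mem_zIdem g ze1_mem⟩)⁻¹ * g) = g
    rw [mul_inv_cancel_left]
  right_inv p := by
    have e : gact (zrep p.1 * p.2.1) ze1 = p.1.1 := by
      rw [gact_mul, show gact p.2.1 ze1 = ze1 from p.2.2, zrep_spec]
    have e' : (⟨gact (zrep p.1 * p.2.1) ze1, gact_mem_zIdem _ ze1_mem⟩ : zIdem F) = p.1 :=
      Subtype.ext e
    refine Prod.ext e' (Subtype.ext ?_)
    show (zrep ⟨gact (zrep p.1 * p.2.1) ze1, gact_mem_zIdem _ ze1_mem⟩)⁻¹ * (zrep p.1 * p.2.1) =
      p.2.1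
    rw [e', inv_mul_cancel_left]

theorem card_G2_eq : Nat.card (G2 F) = Nat.card (zIdem F) * Nat.card (stabE F) := by
  rw [Nat.card_congr (orbEquiv F), Nat.card_prod]

end card

end Cfsg.Agent.H48
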