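import Mathlib
import Cfsg.Agent.H48.G2Card

set_option autoImplicit false

namespace Cfsg.Agent.H48

open Matrix Cfsg.Lie

section count

variable {F : Type*} [Field F] [Fintype F] [DecidableEq F]

theorem card_dot_fiber (a : Fin 3 → F) (ha : a ≠ 0) (c : F) :
    (Finset.univ.filter (fun b : Fin 3 → F => a ⬝ᵥ b = c)).card = Fintype.card F ^ 2 := by
  obtain ⟨f, hf⟩ : ∃ f : (Fin 3 → F) →+ F, ∀ b, f b = a ⬝ᵥ b :=
    ⟨AddMonoidHom.mk' (fun b => a ⬝ᵥ b) (fun x y => dotProduct_add a x y), fun b => rfl⟩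
  have hsurj : ∀ c : F, c ∈ Set.range f := by
    intro c
    obtain ⟨i, hi⟩ := Function.ne_iff.mp ha
    have hi' : a i ≠ 0 := hi
    refine ⟨Pi.single i (c / a i), ?_⟩
    rw [hf, dotProduct_single]
    field_simp
  have hfib : ∀ c : F, (Finset.univ.filter (fun b : Fin 3 → F => f b = c)).card =
      (Finset.univ.filter (fun b : Fin 3 → F => f b = 0)).card :=
    fun c => AddMonoidHom.card_fiber_eq_of_mem_range f (hsurj c) (hsurj 0)
  have htot : Fintype.card (Fin 3 → F) =
      ∑ c : F, (Finset.univ.filter (fun b : Fin 3 → F => f b = c)).card := by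
    rw [← Finset.card_univ]
    exact Finset.card_eq_sum_card_fiberwise (fun x _ => Finset.mem_univ _)
  rw [Finset.sum_congr rfl (fun c _ => hfib c), Finset.sum_const, Finset.card_univ, smul_eq_mul,
    Fintype.card_fun, Fintype.card_fin] at htot
  have hq : 0 < Fintype.card F := Fintype.card_pos
  have h0 : (Finset.univ.filter (fun b : Fin 3 → F => f b = 0)).card = Fintype.card F ^ 2 := by
    have : Fintype.card F * (Finset.univ.filter (fun b : Fin 3 → F => f b = 0)).card =
        Fintype.card F * Fintype.card F ^ 2 := by rw [← htot]; ring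
    exact Nat.eq_of_mul_eq_mul_left hq this
  have := hfib c
  rw [h0] at this
  simpa only [hf] using this

theorem card_quadric :
    Fintype.card {p : F × (Fin 3 → F) × (Fin 3 → F) // p.2.1 ⬝ᵥ p.2.2 = p.1 * (1 - p.1)} =
      Fintype.card F ^ 6 + Fintype.card F ^ 3 := by
  obtain ⟨q, hq⟩ : ∃ q, q = Fintype.card F := ⟨_, rfl⟩
  have hq1 : 1 ≤ q ^ 3 := by rw [hq]; exact Nat.one_le_pow _ _ Fintype.card_pos
  have hV : Fintype.card (Fin 3 → F) = q ^ 3 := by rw [Fintype.card_fun, Fintype.card_fin, hq]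
  rw [Fintype.card_subtype, Finset.card_filter, Fintype.sum_prod_type]
  have inner : ∀ (α : F) (a : Fin 3 → F),
      (∑ b : Fin 3 → F, if a ⬝ᵥ b = α * (1 - α) then 1 else 0) =
        if a = 0 then (if α * (1 - α) = 0 then q ^ 3 else 0) else q ^ 2 := by
    intro α a
    rw [← Finset.card_filter]
    by_cases ha : a = 0
    · rw [if_pos ha, ha]
      by_cases hc : α * (1 - α) = 0
      · rw [if_pos hc, hc]
        simp [hV]
      · rw [if_neg hc, Finset.card_eq_zero, Finset.filter_eq_empty_iff]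
        intro b _ h
        rw [zero_dotProduct] at h
        exact hc h.symm
    · rw [if_neg ha, card_dot_fiber a ha, hq]
  have mid : ∀ α : F, (∑ a : Fin 3 → F,
      if a = 0 then (if α * (1 - α) = 0 then q ^ 3 else 0) else q ^ 2) =
        (if α * (1 - α) = 0 then q ^ 3 else 0) + (q ^ 3 - 1) * q ^ 2 := by
    intro α
    rw [← Finset.add_sum_erase Finset.univ _ (Finset.mem_univ (0 : Fin 3 → F)), if_pos rfl]
    congr 1
    rw [Finset.sum_congr rfl (fun a ha => if_neg (Finset.ne_of_mem_erase ha)), Finset.sum_const,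
      Finset.card_erase_of_mem (Finset.mem_univ _), Finset.card_univ, hV, smul_eq_mul]
  have outer : (∑ α : F, if α * (1 - α) = 0 then q ^ 3 else 0) = 2 * q ^ 3 := by
    rw [← Finset.sum_filter, Finset.sum_const, smul_eq_mul]
    congr 1
    have : (Finset.univ.filter (fun α : F => α * (1 - α) = 0)) = {0, 1} := by
      ext α
      simp only [Finset.mem_filter, Finset.mem_univ, true_and, Finset.mem_insert,
        Finset.mem_singleton, mul_eq_zero, sub_eq_zero]
      exact ⟨fun h => h.imp id Eq.symm, fun h => h.imp id Eq.symm⟩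
    rw [this, Finset.card_pair zero_ne_one]
  calc (∑ α : F, ∑ p : (Fin 3 → F) × (Fin 3 → F), if p.1 ⬝ᵥ p.2 = α * (1 - α) then 1 else 0)
      = ∑ α : F, ∑ a : Fin 3 → F, ∑ b : Fin 3 → F, if a ⬝ᵥ b = α * (1 - α) then 1 else 0 := by
        refine Finset.sum_congr rfl (fun α _ => ?_)
        rw [Fintype.sum_prod_type]
    _ = ∑ α : F, ((if α * (1 - α) = 0 then q ^ 3 else 0) + (q ^ 3 - 1) * q ^ 2) := by
        refine Finset.sum_congr rfl (fun α _ => ?_)
        rw [Finset.sum_congr rfl (fun a _ => inner α a), mid]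
    _ = 2 * q ^ 3 + q * ((q ^ 3 - 1) * q ^ 2) := by
        rw [Finset.sum_add_distrib, outer, Finset.sum_const, Finset.card_univ, smul_eq_mul, hq]
    _ = q ^ 6 + q ^ 3 := by
        obtain ⟨k, hk⟩ : ∃ k, q ^ 3 = k + 1 := ⟨q ^ 3 - 1, by omega⟩
        have h6 : q ^ 6 = q ^ 3 * q ^ 3 := by ring
        rw [h6, hk, Nat.add_sub_cancel]
        have : q * (k * q ^ 2) = k * q ^ 3 := by ring
        rw [this, hk]
        ring
    _ = Fintype.card F ^ 6 + Fintype.card F ^ 3 := by rw [hq]

/-- The idempotents as solutions of a quadric. -/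
def idemEquiv (F : Type*) [Field F] :
    zIdem F ≃ {p : F × (Fin 3 → F) × (Fin 3 → F) // p.2.1 ⬝ᵥ p.2.2 = p.1 * (1 - p.1)} where
  toFun x := ⟨(x.1 0, ![x.1 1, x.1 2, x.1 3], ![x.1 4, x.1 5, x.1 6]), by
    obtain ⟨hs, hd⟩ := (zIdem_iff x.1).mp x.2
    simp [dotProduct, Fin.sum_univ_three]
    linear_combination hd + x.1 0 * hs⟩
  invFun p := ⟨![p.1.1, p.1.2.1 0, p.1.2.1 1, p.1.2.1 2, p.1.2.2 0, p.1.2.2 1, p.1.2.2 2,
      1 - p.1.1], by
    rw [zIdem_iff]
    have h := p.2
    rw [dotProduct, Fin.sum_univ_three] at h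
    refine ⟨by simp, ?_⟩
    simp
    linear_combination h⟩
  left_inv x := by
    obtain ⟨hs, hd⟩ := (zIdem_iff x.1).mp x.2
    apply Subtype.ext
    ext i
    fin_cases i <;> simp
    linear_combination -hs
  right_inv p := by
    apply Subtype.ext
    refine Prod.ext rfl (Prod.ext ?_ ?_)
    · ext i
      fin_cases i <;> simp
    · ext i
      fin_cases i <;> simp

theorem card_zIdem : Nat.card (zIdem F) = Fintype.card F ^ 6 + Fintype.card F ^ 3 := by
  rw [Nat.card_congr (idemEquiv F), Nat.card_eq_fintype_card, card_quadric]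

end count

end Cfsg.Agent.H48
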