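import Mathlib
import Cfsg.Agent.H43.GLTwoPart
import Cfsg.Agent.H43.SpTwoPart
import Cfsg.Agent.H49.Disc
import Cfsg.Agent.H49.StdForms

set_option autoImplicit false

/-! Helper lemmas (helper48): `2`-adic valuations of the orders of the orthogonal groups. -/

namespace Cfsg.Agent.H48

open Nat

theorem val_two_mul_odd (m : ℕ) (hm : m % 2 = 1) : padicValNat 2 (2 * m) = 1 := by
  have hm0 : m ≠ 0 := by omega
  rw [padicValNat.mul (by norm_num) hm0, padicValNat.self (by norm_num),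
    padicValNat.eq_zero_of_not_dvd (by omega)]

theorem val_of_mod_four_two (X : ℕ) (h : X % 4 = 2) : padicValNat 2 X = 1 := by
  obtain ⟨m, hm1, hm2⟩ : ∃ m, X = 2 * m ∧ m % 2 = 1 := ⟨X / 2, by omega, by omega⟩
  rw [hm1]
  exact val_two_mul_odd m hm2

theorem val_odd (X : ℕ) (h : X % 2 = 1) : padicValNat 2 X = 0 :=
  padicValNat.eq_zero_of_not_dvd (by omega)

theorem val_factorial_succ (n : ℕ) :
    padicValNat 2 (n + 1)! = padicValNat 2 (n + 1) + padicValNat 2 n ! := by
  rw [Nat.factorial_succ, padicValNat.mul (by omega) (Nat.factorial_ne_zero n)]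

/-- `v₂(q^m + 1) = v₂(q + 1)` for `m` odd. -/
theorem val_pow_odd_add_one (q : ℕ) (hq : Odd q) (hq1 : 1 < q) (m : ℕ) (hm : Odd m) :
    padicValNat 2 (q ^ m + 1) = padicValNat 2 (q + 1) := by
  have h1 : q ^ (2 * m) - 1 = (q ^ m + 1) * (q ^ m - 1) := by
    have := Nat.sq_sub_sq (q ^ m) 1
    rw [one_pow, ← pow_mul, mul_comm m 2] at this
    exact this
  have hpos : 1 < q ^ m := Nat.one_lt_pow (by rcases hm with ⟨j, rfl⟩; omega) hq1
  have h2 := H43.padicValNat_two_pow_even_sub_one q hq hq1 m (by rcases hm with ⟨j, rfl⟩; omega)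
  rw [h1, padicValNat.mul (by omega) (by omega), H43.padicValNat_two_pow_odd_sub_one q hq hq1 m hm,
    H43.padicValNat_two_sq_sub_one q hq hq1, val_odd m (Nat.odd_iff.mp hm)] at h2
  omega

/-- The `2`-adic valuation of `2 q^e X ∏_{i<n} (q^{2(i+1)} - 1)`. -/
theorem val_orth_formula (q : ℕ) (hq : Odd q) (hq1 : 1 < q) (e n X : ℕ) (hX : X ≠ 0) :
    padicValNat 2 (2 * q ^ e * X * ∏ i ∈ Finset.range n, (q ^ (2 * (i + 1)) - 1)) =
      1 + padicValNat 2 X + (n * padicValNat 2 (q ^ 2 - 1) + padicValNat 2 n !) := by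
  have hne : ∏ i ∈ Finset.range n, (q ^ (2 * (i + 1)) - 1) ≠ 0 := by
    rw [Finset.prod_ne_zero_iff]
    intro i _
    have : 1 < q ^ (2 * (i + 1)) := Nat.one_lt_pow (by omega) hq1
    omega
  have hq0 : q ^ e ≠ 0 := pow_ne_zero _ (by omega)
  rw [padicValNat.mul (mul_ne_zero (mul_ne_zero (by norm_num) hq0) hX) hne,
    padicValNat.mul (mul_ne_zero (by norm_num) hq0) hX, padicValNat.mul (by norm_num) hq0,
    padicValNat.self (by norm_num), padicValNat.pow q e,
    val_odd q (Nat.odd_iff.mp hq), H43.padicValNat_two_prod_sp q hq hq1 n]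
  simp

/-- Odd dimension. -/
theorem val_orth_odd (q : ℕ) (hq : Odd q) (hq1 : 1 < q) (m : ℕ) :
    (2 * q ^ (m ^ 2) * ∏ i ∈ Finset.range m, (q ^ (2 * (i + 1)) - 1)).factorization 2 ≤
      m * padicValNat 2 (q ^ 2 - 1) + (m !).factorization 2 + 1 := by
  rw [Nat.factorization_def _ Nat.prime_two, Nat.factorization_def _ Nat.prime_two]
  have h := val_orth_formula q hq hq1 (m ^ 2) m 1 one_ne_zero
  rw [mul_one] at h
  rw [h, padicValNat.one]
  omega

/-- Plus type, discriminant a square. -/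
theorem val_orth_plus_A (q : ℕ) (hq : Odd q) (hq1 : 1 < q) (n : ℕ)
    (h : Even (n + 1) ∨ q % 4 = 1) :
    (2 * q ^ ((n + 1) * n) * (q ^ (n + 1) - 1) *
        ∏ i ∈ Finset.range n, (q ^ (2 * (i + 1)) - 1)).factorization 2 ≤
      (n + 1) * padicValNat 2 (q ^ 2 - 1) + ((n + 1)!).factorization 2 + 0 := by
  rw [Nat.factorization_def _ Nat.prime_two, Nat.factorization_def _ Nat.prime_two]
  have hpos : 1 < q ^ (n + 1) := Nat.one_lt_pow (by omega) hq1
  rw [val_orth_formula q hq hq1 ((n + 1) * n) n (q ^ (n + 1) - 1) (by omega), val_factorial_succ,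
    add_mul, one_mul]
  have hA := H43.padicValNat_two_sq_sub_one q hq hq1
  rcases Nat.even_or_odd (n + 1) with he | ho
  · obtain ⟨j, hj⟩ := he
    have hj0 : j ≠ 0 := by omega
    have h1 := H43.padicValNat_two_pow_even_sub_one q hq hq1 j hj0
    have h2 : padicValNat 2 (n + 1) = 1 + padicValNat 2 j := by
      rw [hj, ← two_mul, padicValNat.mul (by norm_num) hj0, padicValNat.self (by norm_num)]
    have h3 : q ^ (n + 1) = q ^ (2 * j) := by rw [hj, two_mul]
    rw [h3, h1, h2]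
    omega
  · have hq4 : q % 4 = 1 := by
      rcases h with h | h
      · exact absurd h (Nat.not_even_iff_odd.mpr ho)
      · exact h
    rw [H43.padicValNat_two_pow_odd_sub_one q hq hq1 (n + 1) ho]
    have h5 := val_of_mod_four_two (q + 1) (by omega)
    omega

/-- Plus type, discriminant a non-square. -/
theorem val_orth_plus_B (q : ℕ) (hq : Odd q) (hq1 : 1 < q) (n : ℕ) (hn : Odd (n + 1))
    (h : q % 4 = 3) :
    (2 * q ^ ((n + 1) * n) * (q ^ (n + 1) - 1) *
        ∏ i ∈ Finset.range n, (q ^ (2 * (i + 1)) - 1)).factorization 2 ≤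
      n * padicValNat 2 (q ^ 2 - 1) + (n !).factorization 2 + 2 := by
  rw [Nat.factorization_def _ Nat.prime_two, Nat.factorization_def _ Nat.prime_two]
  have hpos : 1 < q ^ (n + 1) := Nat.one_lt_pow (by omega) hq1
  rw [val_orth_formula q hq hq1 ((n + 1) * n) n (q ^ (n + 1) - 1) (by omega),
    H43.padicValNat_two_pow_odd_sub_one q hq hq1 (n + 1) hn,
    val_of_mod_four_two (q - 1) (by omega)]
  omega

/-- Minus type, discriminant a square. -/
theorem val_orth_minus_A (q : ℕ) (hq : Odd q) (hq1 : 1 < q) (n : ℕ) (hn : Odd (n + 1))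
    (h : q % 4 = 3) :
    (2 * q ^ ((n + 1) * n) * (q ^ (n + 1) + 1) *
        ∏ i ∈ Finset.range n, (q ^ (2 * (i + 1)) - 1)).factorization 2 ≤
      (n + 1) * padicValNat 2 (q ^ 2 - 1) + ((n + 1)!).factorization 2 + 0 := by
  rw [Nat.factorization_def _ Nat.prime_two, Nat.factorization_def _ Nat.prime_two]
  rw [val_orth_formula q hq hq1 ((n + 1) * n) n (q ^ (n + 1) + 1) (by omega), val_factorial_succ,
    add_mul, one_mul, val_pow_odd_add_one q hq hq1 (n + 1) hn]
  have hA := H43.padicValNat_two_sq_sub_one q hq hq1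
  have h5 := val_of_mod_four_two (q - 1) (by omega)
  omega

/-- Minus type, discriminant a non-square. -/
theorem val_orth_minus_B (q : ℕ) (hq : Odd q) (hq1 : 1 < q) (n : ℕ)
    (h : Even (n + 1) ∨ q % 4 = 1) :
    (2 * q ^ ((n + 1) * n) * (q ^ (n + 1) + 1) *
        ∏ i ∈ Finset.range n, (q ^ (2 * (i + 1)) - 1)).factorization 2 ≤
      n * padicValNat 2 (q ^ 2 - 1) + (n !).factorization 2 + 2 := by
  rw [Nat.factorization_def _ Nat.prime_two, Nat.factorization_def _ Nat.prime_two]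
  have h4 : q ^ (n + 1) % 4 = 1 := by
    rw [H49.pow_mod_four hq]
    rcases h with h | h
    · exact Or.inl h
    · exact Or.inr (by omega)
  rw [val_orth_formula q hq hq1 ((n + 1) * n) n (q ^ (n + 1) + 1) (by omega),
    val_of_mod_four_two (q ^ (n + 1) + 1) (by omega)]
  omega

end Cfsg.Agent.H48
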