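import Mathlib
import Cfsg.Agent.H48.EAb

set_option autoImplicit false

/-! Helper lemmas (helper48): an abstract criterion for `P ⊓ N` to have elementary abelian
abelianization, where `P = R × (D ≀ T)` sits in a group `G` and `N ⊇ G'`. -/

namespace Cfsg.Agent.H48

open scoped commutatorElement

section wreathInf

variable {D₀ : Type*} [Group D₀] {κ : Type*} [DecidableEq κ] [Fintype κ]

theorem wpair_apply (i j : κ) (hij : i ≠ j) (a : D₀) (k : κ) :
    (Pi.mulSingle i a * Pi.mulSingle j a⁻¹ : κ → D₀) k =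
      if k = i then a else if k = j then a⁻¹ else 1 := by
  rw [Pi.mul_apply, Pi.mulSingle_apply, Pi.mulSingle_apply]
  by_cases hki : k = i
  · have hkj : k ≠ j := fun h' => hij (hki.symm.trans h')
    simp [hki, hij]
  · simp [hki]

theorem comm_wpair (i j : κ) (hij : i ≠ j) (s y : D₀) (h : s * y * s⁻¹ = y⁻¹) :
    ⁅(Pi.mulSingle i s * Pi.mulSingle j s⁻¹ : κ → D₀), Pi.mulSingle i y * Pi.mulSingle j y⁻¹⁆
      = ((Pi.mulSingle i y * Pi.mulSingle j y⁻¹ : κ → D₀) ^ 2)⁻¹ := by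
  have h2 : s⁻¹ * y⁻¹ * s = y := by
    have h3 : y = s⁻¹ * y⁻¹ * s := by rw [← h]; group
    exact h3.symm
  funext k
  rw [commutatorElement_def, Pi.mul_apply, Pi.mul_apply, Pi.mul_apply, Pi.inv_apply, Pi.inv_apply,
    Pi.inv_apply, Pi.pow_apply, wpair_apply i j hij, wpair_apply i j hij]
  by_cases hki : k = i
  · rw [if_pos hki, if_pos hki, h, pow_two, mul_inv_rev]
  · rw [if_neg hki, if_neg hki]
    by_cases hkj : k = j
    · rw [if_pos hkj, if_pos hkj, inv_inv, h2, pow_two, mul_inv_rev, inv_inv]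
    · rw [if_neg hkj, if_neg hkj]
      simp

theorem comm_wpair_single (i j : κ) (hij : i ≠ j) (s x : D₀) (h : s * x * s⁻¹ = x⁻¹) :
    ⁅(Pi.mulSingle i s * Pi.mulSingle j s⁻¹ : κ → D₀), Pi.mulSingle i x⁆
      = ((Pi.mulSingle i x : κ → D₀) ^ 2)⁻¹ := by
  funext k
  rw [commutatorElement_def, Pi.mul_apply, Pi.mul_apply, Pi.mul_apply, Pi.inv_apply, Pi.inv_apply,
    Pi.inv_apply, Pi.pow_apply, wpair_apply i j hij, Pi.mulSingle_apply]
  by_cases hki : k = i
  · rw [if_pos hki, if_pos hki, h, pow_two, mul_inv_rev]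
  · rw [if_neg hki, if_neg hki]
    simp

variable {G : Type*} [Group G]

/-- Reduction of a block-diagonal element to its first coordinate modulo the elements
`e_i(a) e_j(a)⁻¹`. -/
theorem exists_reduce_single (D : Subgroup D₀) (β : (κ → D₀) →* G) (i₀ : κ) (A : Finset κ) :
    i₀ ∉ A → ∀ d : κ → D₀, (∀ i, d i ∈ D) → (∀ i, i ∉ A → i ≠ i₀ → d i = 1) →
      ∃ x ∈ D, ∃ l ∈ Subgroup.closure {g : G | ∃ i j : κ, i ≠ j ∧ ∃ a ∈ D,
        g = β (Pi.mulSingle i a * Pi.mulSingle j a⁻¹)}, β d = β (Pi.mulSingle i₀ x) * l := by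
  induction A using Finset.induction_on with
  | empty =>
    intro _ d hd h1
    refine ⟨d i₀, hd i₀, 1, Subgroup.one_mem _, ?_⟩
    rw [mul_one]
    congr 1
    funext k
    rw [Pi.mulSingle_apply]
    by_cases hk : k = i₀
    · rw [if_pos hk, hk]
    · rw [if_neg hk]
      exact h1 k (Finset.notMem_empty k) hk
  | insert j A hj ih =>
    intro hi₀ d hd h1
    have hji : j ≠ i₀ := fun h => hi₀ (by rw [h]; exact Finset.mem_insert_self _ _)
    have hi₀A : i₀ ∉ A := fun h => hi₀ (Finset.mem_insert_of_mem h)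
    obtain ⟨x', hx', l', hl', e'⟩ := ih hi₀A (Function.update d j 1)
      (by
        intro i
        by_cases hij : i = j
        · rw [hij, Function.update_self]; exact D.one_mem
        · rw [Function.update_of_ne hij]; exact hd i)
      (by
        intro i hiA hi0
        by_cases hij : i = j
        · rw [hij, Function.update_self]
        · rw [Function.update_of_ne hij]
          exact h1 i (fun h => (Finset.mem_insert.mp h).elim hij hiA) hi0)
    refine ⟨x' * d j, D.mul_mem hx' (hd j),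
      β (Pi.mulSingle i₀ (d j)⁻¹ * Pi.mulSingle j (d j)⁻¹⁻¹) * l',
      Subgroup.mul_mem _ (Subgroup.subset_closure
        ⟨i₀, j, hji.symm, (d j)⁻¹, D.inv_mem (hd j), rfl⟩) hl', ?_⟩
    have e1 : (Pi.mulSingle i₀ (x' * d j) * (Pi.mulSingle i₀ (d j)⁻¹ * Pi.mulSingle j (d j)⁻¹⁻¹)
        : κ → D₀) = Pi.mulSingle j (d j) * Pi.mulSingle i₀ x' := by
      funext k
      rw [Pi.mul_apply, wpair_apply i₀ j hji.symm, Pi.mul_apply, Pi.mulSingle_apply,
        Pi.mulSingle_apply, Pi.mulSingle_apply]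
      by_cases hk0 : k = i₀
      · simp [hk0, hji.symm, mul_assoc]
      · by_cases hkj : k = j
        · simp [hkj, hji]
        · simp [hk0, hkj]
    have e2 : d = Pi.mulSingle j (d j) * Function.update d j 1 := by
      funext k
      rw [Pi.mul_apply, Pi.mulSingle_apply]
      by_cases hkj : k = j
      · rw [if_pos hkj, hkj, Function.update_self, mul_one]
      · rw [if_neg hkj, Function.update_of_ne hkj, one_mul]
    calc β d = β (Pi.mulSingle j (d j)) * β (Function.update d j 1) := by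
          rw [← map_mul, ← e2]
      _ = β (Pi.mulSingle j (d j)) * (β (Pi.mulSingle i₀ x') * l') := by rw [e']
      _ = β (Pi.mulSingle j (d j) * Pi.mulSingle i₀ x') * l' := by rw [map_mul, mul_assoc]
      _ = _ := by rw [← e1, map_mul, mul_assoc]


/-- Abstract criterion: `P = R × (D ≀ T)` inside `G`, `N ⊇ G'`; then `P ⊓ N` has elementary
abelian abelianization. -/
theorem eab_wreath_inf (N : Subgroup G) (hN : commutator G ≤ N)
    (D : Subgroup D₀) (s : D₀) (hs : s ∈ D) (hD : ∀ x ∈ D, x ^ 2 = 1 ∨ s * x * s⁻¹ = x⁻¹)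
    (β : (κ → D₀) →* G) (τ : Equiv.Perm κ →* G)
    (hconj : ∀ (i j : κ) (x : D₀),
      τ (Equiv.swap i j) * β (Pi.mulSingle i x) * (τ (Equiv.swap i j))⁻¹ = β (Pi.mulSingle j x))
    (T : Subgroup (Equiv.Perm κ)) (hT : EAb 2 T) (hTN : ∀ t ∈ T, τ t ∈ N)
    (R : Subgroup G) (hR2 : ∀ r ∈ R, r ^ 2 = 1) (hRc : ∀ r ∈ R, ∀ d : κ → D₀, r * β d = β d * r)
    (P : Subgroup G)
    (hP : ∀ g ∈ P, ∃ r ∈ R, ∃ d : κ → D₀, (∀ i, d i ∈ D) ∧ ∃ t ∈ T, g = r * β d * τ t)
    (hP' : ∀ r ∈ R, ∀ d : κ → D₀, (∀ i, d i ∈ D) → ∀ t ∈ T, r * β d * τ t ∈ P)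
    (i₀ i₁ : κ) (h01 : i₀ ≠ i₁) :
    EAb 2 (P ⊓ N) := by
  classical
  have hβP : ∀ d : κ → D₀, (∀ i, d i ∈ D) → β d ∈ P := by
    intro d hd
    have := hP' 1 R.one_mem d hd 1 T.one_mem
    simpa using this
  have hτP : ∀ t ∈ T, τ t ∈ P := by
    intro t ht
    have := hP' 1 R.one_mem 1 (fun _ => D.one_mem) t ht
    simpa using this
  have hwD : ∀ (i j : κ), i ≠ j → ∀ a ∈ D, ∀ k,
      (Pi.mulSingle i a * Pi.mulSingle j a⁻¹ : κ → D₀) k ∈ D := by
    intro i j hij a ha k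
    rw [wpair_apply i j hij]
    split_ifs
    · exact ha
    · exact D.inv_mem ha
    · exact D.one_mem
  have hsD : ∀ (i : κ), ∀ a ∈ D, ∀ k, (Pi.mulSingle i a : κ → D₀) k ∈ D := by
    intro i a ha k
    rw [Pi.mulSingle_apply]
    split_ifs
    · exact ha
    · exact D.one_mem
  -- the elements `e_i(a) e_j(a)⁻¹` lie in `N`
  have h3N : ∀ (i j : κ) (a : D₀), β (Pi.mulSingle i a * Pi.mulSingle j a⁻¹) ∈ N := by
    intro i j a
    apply hN
    have e1 : β (Pi.mulSingle i a * Pi.mulSingle j a⁻¹)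
        = ⁅β (Pi.mulSingle i a), τ (Equiv.swap i j)⁆ := by
      rw [commutatorElement_def, map_mul, Pi.mulSingle_inv, map_inv, ← hconj i j a]
      group
    rw [e1, commutator_def]
    exact Subgroup.commutator_mem_commutator (Subgroup.mem_top _) (Subgroup.mem_top _)
  have h3K : ∀ (i j : κ), i ≠ j → ∀ a ∈ D,
      β (Pi.mulSingle i a * Pi.mulSingle j a⁻¹) ∈ P ⊓ N :=
    fun i j hij a ha => ⟨hβP _ (hwD i j hij a ha), h3N i j a⟩
  have hcomm : ∀ r ∈ R, ∀ a b : κ → D₀, ⁅β a, r * β b⁆ = β ⁅a, b⁆ := by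
    intro r hr a b
    rw [commutatorElement_def, commutatorElement_def]
    have h1 := hRc r hr a
    calc β a * (r * β b) * (β a)⁻¹ * (r * β b)⁻¹
        = (β a * r) * β b * (β a)⁻¹ * (β b)⁻¹ * r⁻¹ := by group
      _ = (r * β a) * β b * (β a)⁻¹ * (β b)⁻¹ * r⁻¹ := by rw [h1]
      _ = r * β (a * b * a⁻¹ * b⁻¹) * r⁻¹ := by simp [mul_assoc]
      _ = β (a * b * a⁻¹ * b⁻¹) * r * r⁻¹ := by rw [hRc r hr]
      _ = β (a * b * a⁻¹ * b⁻¹) := by simp
  obtain ⟨S₃, hS₃⟩ : ∃ S₃ : Set G, S₃ = {g : G | ∃ i j : κ, i ≠ j ∧ ∃ a ∈ D,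
      g = β (Pi.mulSingle i a * Pi.mulSingle j a⁻¹)} := ⟨_, rfl⟩
  have h3cl : Subgroup.closure S₃ ≤ P ⊓ N := by
    rw [Subgroup.closure_le, hS₃]
    rintro g ⟨i, j, hij, a, ha, rfl⟩
    exact h3K i j hij a ha
  apply EAb.of_gen ({g : G | ∃ t ∈ T, g = τ t} ∪ S₃ ∪
    {g : G | ∃ r ∈ R, ∃ x ∈ D, g = r * β (Pi.mulSingle i₀ x) ∧ g ∈ N})
  · -- generation
    rintro g ⟨hgP, hgN⟩
    obtain ⟨r, hr, d, hd, t, ht, rfl⟩ := hP g hgP
    obtain ⟨x, hx, l, hl, e⟩ := exists_reduce_single D β i₀ (Finset.univ.erase i₀)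
      (Finset.notMem_erase _ _) d hd (by
        intro i hi hi0
        exact absurd (Finset.mem_erase.mpr ⟨hi0, Finset.mem_univ i⟩) hi)
    rw [← hS₃] at hl
    have hlN : l ∈ N := (h3cl hl).2
    have htN : τ t ∈ N := hTN t ht
    have e2 : r * β d * τ t = (r * β (Pi.mulSingle i₀ x)) * l * τ t := by
      rw [e]; group
    have hrN : r * β (Pi.mulSingle i₀ x) ∈ N := by
      have e3 : r * β (Pi.mulSingle i₀ x) = (r * β d * τ t) * (τ t)⁻¹ * l⁻¹ := by
        rw [e2]; group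
      rw [e3]
      exact N.mul_mem (N.mul_mem hgN (N.inv_mem htN)) (N.inv_mem hlN)
    rw [e2]
    refine Subgroup.mul_mem _ (Subgroup.mul_mem _ ?_ ?_) ?_
    · exact Subgroup.subset_closure (Or.inr ⟨r, hr, x, hx, rfl, hrN⟩)
    · exact Subgroup.closure_mono (Set.subset_union_of_subset_left
        Set.subset_union_right _) hl
    · exact Subgroup.subset_closure (Or.inl (Or.inl ⟨t, ht, rfl⟩))
  · -- the generators
    rintro g ((⟨t, ht, rfl⟩ | hg) | ⟨r, hr, x, hx, rfl, hgN⟩)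
    · have hle : T.map τ ≤ P ⊓ N := by
        rintro _ ⟨t', ht', rfl⟩
        exact ⟨hτP t' ht', hTN t' ht'⟩
      exact ⟨hle ⟨t, ht, rfl⟩,
        Subgroup.commutator_mono hle hle ((hT.map τ) _ ⟨t, ht, rfl⟩)⟩
    · rw [hS₃] at hg
      obtain ⟨i, j, hij, a, ha, rfl⟩ := hg
      refine ⟨h3K i j hij a ha, ?_⟩
      rcases hD a ha with h1 | h1
      · have e1 : ((Pi.mulSingle i a * Pi.mulSingle j a⁻¹ : κ → D₀)) ^ 2 = 1 := by
          funext k
          rw [Pi.pow_apply, wpair_apply i j hij]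
          split_ifs
          · exact h1
          · rw [inv_pow, h1, inv_one]; rfl
          · exact one_pow 2
        rw [← map_pow, e1, map_one]
        exact Subgroup.one_mem _
      · have e1 := comm_wpair i j hij s a h1
        have e2 : β (Pi.mulSingle i a * Pi.mulSingle j a⁻¹) ^ 2
            = (⁅β (Pi.mulSingle i s * Pi.mulSingle j s⁻¹),
                β (Pi.mulSingle i a * Pi.mulSingle j a⁻¹)⁆)⁻¹ := by
          rw [← map_commutatorElement, e1, map_inv, inv_inv, map_pow]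
        rw [e2]
        exact Subgroup.inv_mem _ (Subgroup.commutator_mem_commutator (h3K i j hij s hs)
          (h3K i j hij a ha))
    · have hgP : r * β (Pi.mulSingle i₀ x) ∈ P := by
        have := hP' r hr (Pi.mulSingle i₀ x) (hsD i₀ x hx) 1 T.one_mem
        simpa using this
      refine ⟨⟨hgP, hgN⟩, ?_⟩
      have hsq : (r * β (Pi.mulSingle i₀ x)) ^ 2 = β ((Pi.mulSingle i₀ x : κ → D₀) ^ 2) := by
        rw [pow_two, map_pow, pow_two]
        calc r * β (Pi.mulSingle i₀ x) * (r * β (Pi.mulSingle i₀ x))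
            = r * (β (Pi.mulSingle i₀ x) * r) * β (Pi.mulSingle i₀ x) := by group
          _ = r * (r * β (Pi.mulSingle i₀ x)) * β (Pi.mulSingle i₀ x) := by
              rw [hRc r hr]
          _ = r ^ 2 * (β (Pi.mulSingle i₀ x) * β (Pi.mulSingle i₀ x)) := by
              rw [pow_two]; simp only [mul_assoc]
          _ = β (Pi.mulSingle i₀ x) * β (Pi.mulSingle i₀ x) := by rw [hR2 r hr, one_mul]
      rw [hsq]
      rcases hD x hx with h1 | h1
      · have e1 : (Pi.mulSingle i₀ x : κ → D₀) ^ 2 = 1 := by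
          rw [← Pi.mulSingle_pow, h1, Pi.mulSingle_one]
        rw [e1, map_one]
        exact Subgroup.one_mem _
      · have e1 := comm_wpair_single i₀ i₁ h01 s x h1
        have e2 : β ((Pi.mulSingle i₀ x : κ → D₀) ^ 2)
            = (⁅β (Pi.mulSingle i₀ s * Pi.mulSingle i₁ s⁻¹), r * β (Pi.mulSingle i₀ x)⁆)⁻¹ := by
          rw [hcomm r hr, e1, map_inv, inv_inv]
        rw [e2]
        exact Subgroup.inv_mem _ (Subgroup.commutator_mem_commutator (h3K i₀ i₁ h01 s hs)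
          ⟨hgP, hgN⟩)

end wreathInf

end Cfsg.Agent.H48
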