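import Mathlib
import Cfsg.Agent.H48.EAb
import Cfsg.Agent.H43.SpWreath
import Cfsg.Agent.H61.SL2Sylow

set_option autoImplicit false

namespace Cfsg.Agent.H48

open Cfsg.Agent.H43
open scoped MatrixGroups

section sp2

variable {F : Type*} [Field F]

/-- `Sp₂(F) → SL₂(F)`. -/
def sp2ToSL (F : Type*) [Field F] :
    Matrix.symplecticGroup (Fin 1) F →* Matrix.SpecialLinearGroup (Fin 2) F where
  toFun g := ⟨!![e11 g, e12 g; e21 g, e22 g], by
    rw [Matrix.det_fin_two_of]; linear_combination sp2_det g⟩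
  map_one' := by
    apply Subtype.ext
    ext i j
    fin_cases i <;> fin_cases j <;> simp [e11_one, e12_one, e21_one, e22_one]
  map_mul' g h := by
    apply Subtype.ext
    show !![e11 (g * h), e12 (g * h); e21 (g * h), e22 (g * h)] =
      !![e11 g, e12 g; e21 g, e22 g] * !![e11 h, e12 h; e21 h, e22 h]
    rw [Matrix.mul_fin_two, e11_mul, e12_mul, e21_mul, e22_mul]

theorem sp2ToSL_coe (g : Matrix.symplecticGroup (Fin 1) F) :
    ((sp2ToSL F g : Matrix.SpecialLinearGroup (Fin 2) F) : Matrix (Fin 2) (Fin 2) F) =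
      !![e11 g, e12 g; e21 g, e22 g] := rfl

theorem sp2ToSL_injective : Function.Injective (sp2ToSL F) := by
  intro g h hgh
  have h' : !![e11 g, e12 g; e21 g, e22 g] = !![e11 h, e12 h; e21 h, e22 h] := by
    rw [← sp2ToSL_coe, ← sp2ToSL_coe, hgh]
  apply sp2_ext
  · simpa using congrFun (congrFun h' 0) 0
  · simpa using congrFun (congrFun h' 0) 1
  · simpa using congrFun (congrFun h' 1) 0
  · simpa using congrFun (congrFun h' 1) 1

/-- The element of `Sp₂(F)` with given entries. -/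
def sp2Mk (a b c d : F) (h : a * d - c * b = 1) : Matrix.symplecticGroup (Fin 1) F :=
  ⟨Matrix.fromBlocks (Matrix.diagonal fun _ => a) (Matrix.diagonal fun _ => b)
      (Matrix.diagonal fun _ => c) (Matrix.diagonal fun _ => d), by
    rw [SymplecticGroup.fromBlocks_mem_iff]
    simp only [Matrix.diagonal_transpose, Matrix.diagonal_mul_diagonal]
    refine ⟨?_, ?_, ?_⟩
    · congr 1; funext i; exact mul_comm _ _
    · congr 1; funext i; exact mul_comm _ _
    · rw [Matrix.diagonal_sub, ← Matrix.diagonal_one]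
      congr 1; funext i; exact h⟩

theorem e11_sp2Mk (a b c d : F) (h : a * d - c * b = 1) : e11 (sp2Mk a b c d h) = a := by
  simp [e11, sp2Mk]

theorem e12_sp2Mk (a b c d : F) (h : a * d - c * b = 1) : e12 (sp2Mk a b c d h) = b := by
  simp [e12, sp2Mk]

theorem e21_sp2Mk (a b c d : F) (h : a * d - c * b = 1) : e21 (sp2Mk a b c d h) = c := by
  simp [e21, sp2Mk]

theorem e22_sp2Mk (a b c d : F) (h : a * d - c * b = 1) : e22 (sp2Mk a b c d h) = d := by
  simp [e22, sp2Mk]

theorem sp2ToSL_surjective : Function.Surjective (sp2ToSL F) := by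
  intro A
  have hdet : (A : Matrix (Fin 2) (Fin 2) F) 0 0 * (A : Matrix (Fin 2) (Fin 2) F) 1 1 -
      (A : Matrix (Fin 2) (Fin 2) F) 1 0 * (A : Matrix (Fin 2) (Fin 2) F) 0 1 = 1 := by
    have := A.2
    rw [Matrix.det_fin_two] at this
    linear_combination this
  refine ⟨sp2Mk _ _ _ _ hdet, ?_⟩
  apply Subtype.ext
  rw [sp2ToSL_coe, e11_sp2Mk, e12_sp2Mk, e21_sp2Mk, e22_sp2Mk]
  ext i j
  fin_cases i <;> fin_cases j <;> rfl

theorem quaternion_one_comm : ∀ u v : QuaternionGroup 1, u * v = v * u := by decide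

/-- A Sylow `2`-subgroup of `Sp₂(F)`, `F` finite of odd order, has elementary abelian
abelianization. -/
theorem eab_sylow_sp2 [Fintype F] (hF : Odd (Fintype.card F))
    (Q : Sylow 2 (Matrix.symplecticGroup (Fin 1) F)) :
    EAb 2 (Q : Subgroup (Matrix.symplecticGroup (Fin 1) F)) := by
  classical
  have hbij : Function.Bijective (sp2ToSL F) := ⟨sp2ToSL_injective, sp2ToSL_surjective⟩
  have hcard : Nat.card ((Q : Subgroup (Matrix.symplecticGroup (Fin 1) F)).map (sp2ToSL F)) =
      2 ^ (Nat.card (Matrix.SpecialLinearGroup (Fin 2) F)).factorization 2 := by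
    rw [Subgroup.card_map_of_injective sp2ToSL_injective, Sylow.card_eq_multiplicity,
      Nat.card_congr (Equiv.ofBijective _ hbij)]
  obtain ⟨S, hS⟩ : ∃ S : Sylow 2 (Matrix.SpecialLinearGroup (Fin 2) F),
      (S : Subgroup (Matrix.SpecialLinearGroup (Fin 2) F)) =
        (Q : Subgroup (Matrix.symplecticGroup (Fin 1) F)).map (sp2ToSL F) :=
    ⟨Sylow.ofCard _ hcard, Sylow.coe_ofCard _ _⟩
  apply EAb.of_map_injective (sp2ToSL F) sp2ToSL_injective
  rw [← hS]
  obtain ⟨n, ⟨e⟩⟩ := Cfsg.Agent.H61.sylow_sl2_quaternion hF S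
  obtain ⟨x, y, w, hxS, hyS, hx2, hx4, hyx, -, -⟩ := Cfsg.Agent.H61.exists_q8_in_sylow hF S
  have hn : n ≠ 0 := by
    rintro rfl
    have hcomm : ∀ u v : QuaternionGroup (2 ^ 0), u * v = v * u := quaternion_one_comm
    have h1 := hcomm (e ⟨x, hxS⟩) (e ⟨y, hyS⟩)
    rw [← map_mul, ← map_mul] at h1
    have hxy : x * y = y * x := congrArg Subtype.val (e.injective h1)
    apply hx2
    have h3 : y * x * y⁻¹ = x := by rw [← hxy, mul_inv_cancel_right]
    rw [h3] at hyx
    calc x * x = x * x⁻¹ := by rw [← hyx]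
      _ = 1 := mul_inv_cancel x
  rw [eab_subgroup_iff_top]
  exact EAb.of_mulEquiv e (eab_quaternion _ (Nat.even_pow.mpr ⟨even_two, hn⟩))

end sp2

end Cfsg.Agent.H48
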