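import Mathlib
import Cfsg.Agent.H48.EAb
import Cfsg.Agent.H48.Sp2Sylow
import Cfsg.Agent.H7.Basic

set_option autoImplicit false

namespace Cfsg.Agent.H48

open Matrix
open scoped MatrixGroups

theorem card_mul_relIndex' {G : Type*} [Group G] {H K : Subgroup G} (h : H ≤ K) :
    Nat.card H * H.relIndex K = Nat.card K := by
  rw [← Subgroup.relIndex_bot_left, Subgroup.relIndex_mul_relIndex _ _ _ bot_le h,
    Subgroup.relIndex_bot_left]

/-- The intersection of a Sylow `p`-subgroup with a normal subgroup `N` has the order of a Sylow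
`p`-subgroup of `N`. -/
theorem card_sylow_inf_normal {G : Type*} [Group G] [Finite G] {p : ℕ} [Fact p.Prime]
    (P : Sylow p G) (N : Subgroup G) [N.Normal] :
    Nat.card ↥((P : Subgroup G) ⊓ N) = p ^ (Nat.card N).factorization p := by
  have hp : p.Prime := Fact.out
  have hpk : ∀ j, (p ^ j).factorization p = j := fun j => by
    rw [hp.factorization_pow, Finsupp.single_eq_same]
  have h1 : Nat.card N * N.relIndex (P : Subgroup G) = Nat.card ↥((P : Subgroup G) ⊔ N) := by
    rw [← Subgroup.relIndex_sup_right (P : Subgroup G) N]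
    exact card_mul_relIndex' le_sup_right
  have h2 : Nat.card ↥((P : Subgroup G) ⊓ N) * N.relIndex (P : Subgroup G) =
      Nat.card (P : Subgroup G) := by
    rw [← Subgroup.inf_relIndex_left]
    exact card_mul_relIndex' inf_le_left
  obtain ⟨k, hk⟩ := (P.isPGroup'.to_le (inf_le_left : (P : Subgroup G) ⊓ N ≤ P)).exists_card_eq
  have hdvdN : Nat.card ↥((P : Subgroup G) ⊓ N) ∣ Nat.card N := Subgroup.card_dvd_of_le inf_le_right
  have hle1 : k ≤ (Nat.card N).factorization p :=
    (hp.pow_dvd_iff_le_factorization Nat.card_pos.ne').mp (hk ▸ hdvdN)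
  have hsup : Nat.card ↥((P : Subgroup G) ⊔ N) ∣ Nat.card G := Subgroup.card_subgroup_dvd_card _
  have hP : Nat.card (P : Subgroup G) = p ^ (Nat.card G).factorization p := P.card_eq_multiplicity
  have hrel_pos : N.relIndex (P : Subgroup G) ≠ 0 := by
    intro h
    rw [h, mul_zero] at h2
    exact Nat.card_pos.ne' h2.symm
  have e1 : (Nat.card N).factorization p + (N.relIndex (P : Subgroup G)).factorization p =
      (Nat.card ↥((P : Subgroup G) ⊔ N)).factorization p := by
    rw [← h1, Nat.factorization_mul Nat.card_pos.ne' hrel_pos]; rfl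
  have e2 : k + (N.relIndex (P : Subgroup G)).factorization p = (Nat.card G).factorization p := by
    have h3 : (Nat.card ↥((P : Subgroup G) ⊓ N) * N.relIndex (P : Subgroup G)).factorization p =
        (Nat.card (P : Subgroup G)).factorization p := by rw [h2]
    rw [Nat.factorization_mul Nat.card_pos.ne' hrel_pos, hk, hP, hpk] at h3
    rw [← h3, Finsupp.add_apply, hpk]
  have e3 : (Nat.card ↥((P : Subgroup G) ⊔ N)).factorization p ≤ (Nat.card G).factorization p :=
    (Nat.factorization_le_iff_dvd Nat.card_pos.ne' Nat.card_pos.ne').mpr hsup p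
  have hle2 : (Nat.card N).factorization p ≤ k := by omega
  rw [hk, le_antisymm hle1 hle2]

section sl

variable {F : Type*} [Field F] [Fintype F]

/-- The intersection of a `2`-subgroup of `GL_n` of Sylow order with `ker det` is the image of a
Sylow `2`-subgroup of `SL_n`. -/
theorem exists_sylow_sl_map {n : ℕ} (W : Subgroup (GL (Fin n) F))
    (hcard : Nat.card W = 2 ^ (Nat.card (GL (Fin n) F)).factorization 2) :
    ∃ S : Sylow 2 (Matrix.SpecialLinearGroup (Fin n) F),
      (S : Subgroup (Matrix.SpecialLinearGroup (Fin n) F)).map Matrix.SpecialLinearGroup.toGL =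
        W ⊓ (Matrix.GeneralLinearGroup.det : GL (Fin n) F →* Fˣ).ker := by
  classical
  obtain ⟨P₂, hP₂⟩ : ∃ P₂ : Subgroup (Matrix.SpecialLinearGroup (Fin n) F),
      P₂ = W.comap Matrix.SpecialLinearGroup.toGL := ⟨_, rfl⟩
  have hmap : P₂.map Matrix.SpecialLinearGroup.toGL =
      W ⊓ (Matrix.GeneralLinearGroup.det : GL (Fin n) F →* Fˣ).ker := by
    rw [hP₂, Subgroup.map_comap_eq, Cfsg.Agent.H7.range_toGL_eq_ker_det, inf_comm]
  have hcard2 : Nat.card P₂ =
      2 ^ (Nat.card (Matrix.SpecialLinearGroup (Fin n) F)).factorization 2 := by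
    have hc : Nat.card (P₂.map Matrix.SpecialLinearGroup.toGL) = Nat.card P₂ :=
      Subgroup.card_map_of_injective Matrix.SpecialLinearGroup.toGL_injective
    rw [← hc, hmap]
    have h := card_sylow_inf_normal (Sylow.ofCard W hcard)
      (Matrix.GeneralLinearGroup.det : GL (Fin n) F →* Fˣ).ker
    rw [Sylow.coe_ofCard] at h
    rw [h, Cfsg.Agent.H7.card_SL_eq_card_ker_det]
  exact ⟨Sylow.ofCard P₂ hcard2, by rw [Sylow.coe_ofCard]; exact hmap⟩

/-- Transfer of `EAb` from the determinant-one part of a Sylow-order `2`-subgroup of `GL_n` to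
every Sylow `2`-subgroup of `SL_n`. -/
theorem eab_sylow_sl_of_gl {n : ℕ} (W : Subgroup (GL (Fin n) F))
    (hcard : Nat.card W = 2 ^ (Nat.card (GL (Fin n) F)).factorization 2)
    (hW : EAb 2 (W ⊓ (Matrix.GeneralLinearGroup.det : GL (Fin n) F →* Fˣ).ker))
    (P : Sylow 2 (Matrix.SpecialLinearGroup (Fin n) F)) :
    EAb 2 (P : Subgroup (Matrix.SpecialLinearGroup (Fin n) F)) := by
  obtain ⟨S, hS⟩ := exists_sylow_sl_map W hcard
  have hSe : EAb 2 (S : Subgroup (Matrix.SpecialLinearGroup (Fin n) F)) :=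
    EAb.of_map_injective _ Matrix.SpecialLinearGroup.toGL_injective (by rw [hS]; exact hW)
  exact EAb.sylow_all S P hSe

/-- A Sylow `2`-subgroup of `SL₂(F)`, `F` finite of odd order, has elementary abelian
abelianization. -/
theorem eab_sylow_sl2 (hF : Odd (Fintype.card F)) (S : Sylow 2 (Matrix.SpecialLinearGroup (Fin 2) F)) :
    EAb 2 (S : Subgroup (Matrix.SpecialLinearGroup (Fin 2) F)) := by
  classical
  obtain ⟨n, ⟨e⟩⟩ := Cfsg.Agent.H61.sylow_sl2_quaternion hF S
  obtain ⟨x, y, w, hxS, hyS, hx2, hx4, hyx, -, -⟩ := Cfsg.Agent.H61.exists_q8_in_sylow hF S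
  have hn : n ≠ 0 := by
    rintro rfl
    have hcomm : ∀ u v : QuaternionGroup (2 ^ 0), u * v = v * u := quaternion_one_comm
    have h1 := hcomm (e ⟨x, hxS⟩) (e ⟨y, hyS⟩)
    rw [← map_mul, ← map_mul] at h1
    have hxy : x * y = y * x := congrArg Subtype.val (e.injective h1)
    apply hx2
    have h3 : y * x * y⁻¹ = x := by rw [← hxy, mul_inv_cancel_right]
    rw [h3] at hyx
    calc x * x = x * x⁻¹ := by rw [← hyx]
      _ = 1 := mul_inv_cancel x
  rw [eab_subgroup_iff_top]
  exact EAb.of_mulEquiv e (eab_quaternion _ (Nat.even_pow.mpr ⟨even_two, hn⟩))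

/-- The determinant-one part of a Sylow `2`-subgroup of `GL₂(F)` has elementary abelian
abelianization. -/
theorem eab_sylow_gl2_inf_ker (hF : Odd (Fintype.card F)) (D : Sylow 2 (GL (Fin 2) F)) :
    EAb 2 ((D : Subgroup (GL (Fin 2) F)) ⊓
      (Matrix.GeneralLinearGroup.det : GL (Fin 2) F →* Fˣ).ker) := by
  obtain ⟨S, hS⟩ := exists_sylow_sl_map (D : Subgroup (GL (Fin 2) F)) D.card_eq_multiplicity
  rw [← hS]
  exact (eab_sylow_sl2 hF S).map _

end sl

end Cfsg.Agent.H48
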