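import Mathlib
import Cfsg.Prelude.Def_Classical
import Cfsg.Agent.H43.GLWreath
import Cfsg.Agent.H43.OrthSign
import Cfsg.Agent.H49.NegOne
import Cfsg.Agent.H48.OmEAb
import Cfsg.Agent.H48.SylowInf

set_option autoImplicit false

/-! Helper lemmas (helper48): diagonal model forms `Σ (x² + y²) + Σ c_j z_j²` and the subgroup
`(D ≀ T) × {±1}^r` of their isometry groups. -/

namespace Cfsg.Agent.H48

open Matrix

section wss

variable {F : Type*} [Field F] {ι : Type} [Fintype ι] [DecidableEq ι]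

/-- Weighted sum of squares as a quadratic form. -/
noncomputable def wsq (w : ι → F) : QuadraticForm F (ι → F) :=
  QuadraticMap.weightedSumSquares F w

theorem wsq_apply (w : ι → F) (v : ι → F) : wsq w v = ∑ i, w i * v i ^ 2 := by
  rw [wsq, QuadraticMap.weightedSumSquares_apply]
  refine Finset.sum_congr rfl fun i _ => ?_
  rw [smul_eq_mul, pow_two]

theorem polar_wsq (w : ι → F) (x y : ι → F) :
    QuadraticMap.polar (⇑(wsq w)) x y = ∑ i, 2 * w i * x i * y i := by
  simp only [QuadraticMap.polar, wsq_apply, Pi.add_apply, ← Finset.sum_sub_distrib]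
  refine Finset.sum_congr rfl fun i _ => ?_
  ring

theorem polar_wsq_single (w : ι → F) (x : ι → F) (i : ι) :
    QuadraticMap.polar (⇑(wsq w)) x (Pi.single i 1) = 2 * w i * x i := by
  rw [polar_wsq, Finset.sum_eq_single i]
  · rw [Pi.single_eq_same, mul_one]
  · intro j _ hj
    rw [Pi.single_eq_of_ne hj, mul_zero]
  · intro h; exact absurd (Finset.mem_univ i) h

theorem wsq_nondeg (h2 : (2 : F) ≠ 0) (w : ι → F) (hw : ∀ i, w i ≠ 0) :
    (QuadraticMap.polarBilin (wsq w)).Nondegenerate := by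
  have key : ∀ x : ι → F, (∀ y, QuadraticMap.polar (⇑(wsq w)) x y = 0) → x = 0 := by
    intro x hx
    funext i
    have h := hx (Pi.single i 1)
    rw [polar_wsq_single] at h
    exact (mul_eq_zero.mp h).resolve_left (mul_ne_zero h2 (hw i))
  constructor
  · intro x hx
    exact key x hx
  · intro y hy
    apply key y
    intro x
    rw [QuadraticMap.polar_comm]
    exact hy x

theorem stdGram_wsq (w : ι → F) :
    H49.stdGram (wsq w) = Matrix.diagonal (fun i => 2 * w i) := by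
  ext i j
  rw [H49.stdGram, Matrix.of_apply, polar_wsq_single, Matrix.diagonal_apply]
  by_cases hij : i = j
  · rw [if_pos hij, hij, Pi.single_eq_same, mul_one]
  · rw [if_neg hij, Pi.single_eq_of_ne (Ne.symm hij), mul_zero]

theorem det_stdGram_wsq (w : ι → F) : (H49.stdGram (wsq w)).det = ∏ i, (2 * w i) := by
  rw [stdGram_wsq, Matrix.det_diagonal]

end wss

section model

variable {F : Type*} [Field F] {k r : ℕ}

/-- The weights of the model form. -/
def mw (F : Type*) [Field F] (k : ℕ) {r : ℕ} (c : Fin r → F) : (Fin 2 × Fin k) ⊕ Fin r → F :=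
  Sum.elim (fun _ => 1) c

/-- The plane form `x² + y²`. -/
noncomputable def planeQ (F : Type*) [Field F] : QuadraticForm F (Fin 2 → F) :=
  wsq (fun _ : Fin 2 => (1 : F))

theorem planeQ_apply (u : Fin 2 → F) : planeQ F u = u 0 ^ 2 + u 1 ^ 2 := by
  rw [planeQ, wsq_apply, Fin.sum_univ_two, one_mul, one_mul]

/-- The model form. -/
noncomputable def modelQ (F : Type*) [Field F] (k : ℕ) {r : ℕ} (c : Fin r → F) :
    QuadraticForm F ((Fin 2 × Fin k) ⊕ Fin r → F) :=
  wsq (mw F k c)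

theorem modelQ_apply (c : Fin r → F) (v : (Fin 2 × Fin k) ⊕ Fin r → F) :
    modelQ F k c v = ∑ i : Fin k, planeQ F (fun b => v (Sum.inl (b, i)))
      + ∑ j : Fin r, c j * v (Sum.inr j) ^ 2 := by
  rw [modelQ, wsq_apply, Fintype.sum_sum_type, Fintype.sum_prod_type_right]
  congr 1
  · refine Finset.sum_congr rfl fun i _ => ?_
    rw [planeQ_apply, Fin.sum_univ_two]
    simp [mw]

theorem blockDiagonal_mulVec' {κ β : Type*} [Fintype κ] [DecidableEq κ] [Fintype β]
    (K : κ → Matrix β β F) (u : β × κ → F) (b : β) (i : κ) :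
    (Matrix.blockDiagonal K *ᵥ u) (b, i) = (K i *ᵥ fun b' => u (b', i)) b := by
  rw [Matrix.mulVec, dotProduct, Fintype.sum_prod_type_right, Finset.sum_eq_single i]
  · rw [Matrix.mulVec, dotProduct]
    refine Finset.sum_congr rfl fun b' _ => ?_
    rw [Matrix.blockDiagonal_apply, if_pos rfl]
  · intro j _ hj
    apply Finset.sum_eq_zero
    intro b' _
    rw [Matrix.blockDiagonal_apply, if_neg (Ne.symm hj), zero_mul]
  · intro h; exact absurd (Finset.mem_univ i) h

theorem bdMat_mulVec_inl (K : Fin k → Matrix (Fin 2) (Fin 2) F) (d : Fin r → F)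
    (v : (Fin 2 × Fin k) ⊕ Fin r → F) (b : Fin 2) (i : Fin k) :
    (H43.bdMat K d *ᵥ v) (Sum.inl (b, i)) = (K i *ᵥ fun b' => v (Sum.inl (b', i))) b := by
  conv_lhs => rw [← Sum.elim_comp_inl_inr v]
  rw [H43.bdMat, Matrix.fromBlocks_mulVec]
  simp only [Sum.elim_inl, Matrix.zero_mulVec, add_zero]
  rw [blockDiagonal_mulVec']
  rfl

theorem bdMat_mulVec_inr (K : Fin k → Matrix (Fin 2) (Fin 2) F) (d : Fin r → F)
    (v : (Fin 2 × Fin k) ⊕ Fin r → F) (j : Fin r) :
    (H43.bdMat K d *ᵥ v) (Sum.inr j) = d j * v (Sum.inr j) := by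
  conv_lhs => rw [← Sum.elim_comp_inl_inr v]
  rw [H43.bdMat, Matrix.fromBlocks_mulVec]
  simp only [Sum.elim_inr, Matrix.zero_mulVec, zero_add]
  rw [Matrix.mulVec_diagonal]
  rfl

theorem permMat_mulVec {ι : Type*} [Fintype ι] [DecidableEq ι] (τ : Equiv.Perm ι) (u : ι → F)
    (x : ι) : (H43.permMat F τ *ᵥ u) x = u (τ⁻¹ x) := by
  rw [Matrix.mulVec, dotProduct, Finset.sum_eq_single (τ⁻¹ x)]
  · rw [H43.permMat_apply, if_pos (by simp), one_mul]
  · intro y _ hy
    rw [H43.permMat_apply, if_neg, zero_mul]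
    intro h
    apply hy
    rw [h]
    simp
  · intro h; exact absurd (Finset.mem_univ _) h

theorem pmMat_mulVec_inl (σ : Equiv.Perm (Fin k)) (v : (Fin 2 × Fin k) ⊕ Fin r → F)
    (b : Fin 2) (i : Fin k) :
    (H43.pmMat F (Fin 2) (Fin r) σ *ᵥ v) (Sum.inl (b, i)) = v (Sum.inl (b, σ⁻¹ i)) := by
  conv_lhs => rw [← Sum.elim_comp_inl_inr v]
  rw [H43.pmMat, Matrix.fromBlocks_mulVec]
  simp only [Sum.elim_inl, Matrix.zero_mulVec, add_zero]
  rw [permMat_mulVec, H43.ptau_inv_apply]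
  rfl

theorem pmMat_mulVec_inr (σ : Equiv.Perm (Fin k)) (v : (Fin 2 × Fin k) ⊕ Fin r → F)
    (j : Fin r) :
    (H43.pmMat F (Fin 2) (Fin r) σ *ᵥ v) (Sum.inr j) = v (Sum.inr j) := by
  conv_lhs => rw [← Sum.elim_comp_inl_inr v]
  rw [H43.pmMat, Matrix.fromBlocks_mulVec]
  simp only [Sum.elim_inr, Matrix.zero_mulVec, zero_add, Matrix.one_mulVec]
  rfl

theorem modelQ_bdMat (c : Fin r → F) (K : Fin k → Matrix (Fin 2) (Fin 2) F) (d : Fin r → F)
    (hK : ∀ i u, planeQ F (K i *ᵥ u) = planeQ F u) (hd : ∀ j, d j ^ 2 = 1)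
    (v : (Fin 2 × Fin k) ⊕ Fin r → F) :
    modelQ F k c (H43.bdMat K d *ᵥ v) = modelQ F k c v := by
  rw [modelQ_apply, modelQ_apply]
  congr 1
  · refine Finset.sum_congr rfl fun i _ => ?_
    rw [← hK i (fun b => v (Sum.inl (b, i)))]
    congr 1
    funext b
    rw [bdMat_mulVec_inl]
  · refine Finset.sum_congr rfl fun j _ => ?_
    rw [bdMat_mulVec_inr, mul_pow, hd j, one_mul]

theorem modelQ_pmMat (c : Fin r → F) (σ : Equiv.Perm (Fin k))
    (v : (Fin 2 × Fin k) ⊕ Fin r → F) :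
    modelQ F k c (H43.pmMat F (Fin 2) (Fin r) σ *ᵥ v) = modelQ F k c v := by
  rw [modelQ_apply, modelQ_apply]
  congr 1
  · rw [← Equiv.sum_comp σ⁻¹ (fun i => planeQ F (fun b => v (Sum.inl (b, i))))]
    refine Finset.sum_congr rfl fun i _ => ?_
    congr 1
    funext b
    rw [pmMat_mulVec_inl]
  · refine Finset.sum_congr rfl fun j _ => ?_
    rw [pmMat_mulVec_inr]

end model

end Cfsg.Agent.H48
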