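import Mathlib
import Cfsg.Agent.H48.OmModel

set_option autoImplicit false

/-! Helper lemmas (helper48): the homomorphisms `O(E)^k × {±1}^r → O(Q₀)`, `Sym_k → O(Q₀)`
and `Sym(2k) → O(Q₀)` for the model form `Q₀`; the plane group `O(x² + y²)`. -/

namespace Cfsg.Agent.H48

open Matrix
open scoped commutatorElement

section plane

variable {F : Type*} [Field F]

theorem mat2_eq {a b c d a' b' c' d' : F} (h1 : a = a') (h2 : b = b') (h3 : c = c')
    (h4 : d = d') : (!![a, b; c, d] : Matrix (Fin 2) (Fin 2) F) = !![a', b'; c', d'] := by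
  rw [h1, h2, h3, h4]

/-- The coordinate swap in `O(x² + y²)`. -/
noncomputable def flipE (F : Type*) [Field F] : ↥(Cfsg.isometryGroup F ⇑(planeQ F)) :=
  ⟨⟨!![0, 1; 1, 0], !![0, 1; 1, 0], by simp [Matrix.mul_fin_two, Matrix.one_fin_two],
      by simp [Matrix.mul_fin_two, Matrix.one_fin_two]⟩, by
    rw [H43.mem_isometryGroup_iff]
    intro u
    rw [planeQ_apply, planeQ_apply]
    simp only [Matrix.mulVec, dotProduct, Fin.sum_univ_two, Matrix.of_apply, Matrix.cons_val',
      Matrix.cons_val_zero, Matrix.cons_val_one, Matrix.cons_val_fin_one]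
    ring⟩

theorem flipE_coe : (((flipE F : ↥(Cfsg.isometryGroup F ⇑(planeQ F))) : GL (Fin 2) F) :
    Matrix (Fin 2) (Fin 2) F) = !![0, 1; 1, 0] := rfl

theorem flipE_mul_self : flipE F * flipE F = 1 := by
  apply Subtype.ext
  apply Units.ext
  show (!![0, 1; 1, 0] : Matrix (Fin 2) (Fin 2) F) * !![0, 1; 1, 0] = 1
  simp [Matrix.mul_fin_two, Matrix.one_fin_two]

theorem flipE_inv : (flipE F)⁻¹ = flipE F := inv_eq_of_mul_eq_one_left flipE_mul_self

/-- Every element of `O(x² + y²)` is an involution or is inverted by the coordinate swap. -/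
theorem plane_dichotomy (h2 : (2 : F) ≠ 0) (x : ↥(Cfsg.isometryGroup F ⇑(planeQ F))) :
    x ^ 2 = 1 ∨ flipE F * x * (flipE F)⁻¹ = x⁻¹ := by
  obtain ⟨M, hM⟩ : ∃ M : Matrix (Fin 2) (Fin 2) F, M = ((x : GL (Fin 2) F) : Matrix _ _ F) :=
    ⟨_, rfl⟩
  have hx := (H43.mem_isometryGroup_iff _ _).mp x.2
  rw [← hM] at hx
  obtain ⟨a, ha⟩ : ∃ a, a = M 0 0 := ⟨_, rfl⟩
  obtain ⟨b, hb⟩ : ∃ b, b = M 0 1 := ⟨_, rfl⟩
  obtain ⟨c, hc⟩ : ∃ c, c = M 1 0 := ⟨_, rfl⟩
  obtain ⟨d, hd⟩ : ∃ d, d = M 1 1 := ⟨_, rfl⟩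
  have hMe : M = !![a, b; c, d] := by
    rw [ha, hb, hc, hd]; exact Matrix.eta_fin_two M
  have e1 : a ^ 2 + c ^ 2 = 1 := by
    have h := hx ![1, 0]
    rw [planeQ_apply, planeQ_apply, hMe] at h
    simpa [Matrix.mulVec, dotProduct, Fin.sum_univ_two] using h
  have e2 : b ^ 2 + d ^ 2 = 1 := by
    have h := hx ![0, 1]
    rw [planeQ_apply, planeQ_apply, hMe] at h
    simpa [Matrix.mulVec, dotProduct, Fin.sum_univ_two] using h
  have e3 : a * b + c * d = 0 := by
    have h := hx ![1, 1]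
    rw [planeQ_apply, planeQ_apply, hMe] at h
    simp only [Matrix.mulVec, dotProduct, Fin.sum_univ_two, Matrix.of_apply, Matrix.cons_val',
      Matrix.cons_val_zero, Matrix.cons_val_one, Matrix.cons_val_fin_one, mul_one] at h
    have h' : 2 * (a * b + c * d) = 0 := by linear_combination h - e1 - e2
    exact (mul_eq_zero.mp h').resolve_left h2
  have e4 : (a * d - b * c - 1) * (a * d - b * c + 1) = 0 := by
    linear_combination (b ^ 2 + d ^ 2) * e1 + e2 - (a * b + c * d) * e3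
  rcases mul_eq_zero.mp e4 with h | h
  · right
    have hda : d = a := by linear_combination (-d) * e1 + a * h + c * e3
    have hbc : b = -c := by linear_combination (-b) * e1 + a * e3 - c * h
    rw [flipE_inv]
    apply eq_inv_of_mul_eq_one_left
    apply Subtype.ext
    apply Units.ext
    show (!![0, 1; 1, 0] : Matrix (Fin 2) (Fin 2) F) * ((x : GL (Fin 2) F) : Matrix _ _ F)
      * !![0, 1; 1, 0] * ((x : GL (Fin 2) F) : Matrix _ _ F) = 1
    rw [← hM, hMe, hda, hbc]
    simp only [Matrix.mul_fin_two, Matrix.one_fin_two]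
    apply mat2_eq <;> first | ring1 | linear_combination e1
  · left
    have hda : d = -a := by linear_combination (-d) * e1 + a * h + c * e3
    have hbc : b = c := by linear_combination (-b) * e1 + a * e3 - c * h
    apply Subtype.ext
    apply Units.ext
    rw [Subgroup.coe_pow, Units.val_pow_eq_pow_val, Subgroup.coe_one, Units.val_one, ← hM, hMe,
      hda, hbc, pow_two]
    simp only [Matrix.mul_fin_two, Matrix.one_fin_two]
    apply mat2_eq <;> first | ring1 | linear_combination e1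

end plane

section homs

variable {F : Type*} [Field F] {k r : ℕ}

/-- The sign character `ℤˣ → Fˣ`. -/
noncomputable def sgnU (F : Type*) [Field F] : ℤˣ →* Fˣ :=
  Units.map (Int.castRingHom F).toMonoidHom

theorem sgnU_one : ((sgnU F 1 : Fˣ) : F) = 1 := by simp [sgnU]

theorem sgnU_neg_one : ((sgnU F (-1) : Fˣ) : F) = -1 := by simp [sgnU]

theorem sgnU_sq (ε : ℤˣ) : ((sgnU F ε : Fˣ) : F) ^ 2 = 1 := by
  rcases Int.units_eq_one_or ε with h | h
  · rw [h, sgnU_one, one_pow]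
  · rw [h, sgnU_neg_one]; ring

theorem sgnU_injective (h2 : (2 : F) ≠ 0) : Function.Injective (sgnU F) := by
  intro a b hab
  have h : ((sgnU F a : Fˣ) : F) = ((sgnU F b : Fˣ) : F) := by rw [hab]
  rcases Int.units_eq_one_or a with ha | ha <;> rcases Int.units_eq_one_or b with hb | hb
  · rw [ha, hb]
  · exfalso
    rw [ha, hb, sgnU_one, sgnU_neg_one] at h
    apply h2
    linear_combination h
  · exfalso
    rw [ha, hb, sgnU_one, sgnU_neg_one] at h
    apply h2
    linear_combination -h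
  · rw [ha, hb]

/-- The inner map `O(E)^k × {±1}^r → GL₂^k × (Fˣ)^r`. -/
noncomputable def baseIn (F : Type*) [Field F] (k r : ℕ) :
    (Fin k → ↥(Cfsg.isometryGroup F ⇑(planeQ F))) × (Fin r → ℤˣ) →*
      (Fin k → GL (Fin 2) F) × (Fin r → Fˣ) :=
  MonoidHom.prodMap (MonoidHom.compLeft (Subgroup.subtype _) (Fin k))
    (MonoidHom.compLeft (sgnU F) (Fin r))

theorem baseIn_apply (g : (Fin k → ↥(Cfsg.isometryGroup F ⇑(planeQ F))) × (Fin r → ℤˣ)) :
    baseIn F k r g = (fun i => ((g.1 i : ↥(Cfsg.isometryGroup F ⇑(planeQ F))) : GL (Fin 2) F),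
      fun j => sgnU F (g.2 j)) := rfl

theorem baseIn_injective (h2 : (2 : F) ≠ 0) : Function.Injective (baseIn F k r) := by
  intro a b hab
  rw [baseIn_apply, baseIn_apply, Prod.mk.injEq] at hab
  apply Prod.ext
  · funext i; exact Subtype.ext (congrFun hab.1 i)
  · funext j; exact sgnU_injective h2 (congrFun hab.2 j)

/-- The base homomorphism `O(E)^k × {±1}^r → O(Q₀)`. -/
noncomputable def baseHom (F : Type*) [Field F] (k : ℕ) {r : ℕ} (c : Fin r → F) :
    (Fin k → ↥(Cfsg.isometryGroup F ⇑(planeQ F))) × (Fin r → ℤˣ) →*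
      ↥(Cfsg.isometryGroup F ⇑(modelQ F k c)) :=
  MonoidHom.codRestrict ((H43.bdHom F (Fin k) (Fin 2) (Fin r)).comp (baseIn F k r)) _ (fun g => by
    rw [H43.mem_isometryGroup_iff]
    intro u
    rw [MonoidHom.comp_apply, H43.bdHom_coe]
    apply modelQ_bdMat
    · intro i v
      exact (H43.mem_isometryGroup_iff _ _).mp (g.1 i).2 v
    · intro j
      exact sgnU_sq _)

theorem baseHom_coe (c : Fin r → F)
    (g : (Fin k → ↥(Cfsg.isometryGroup F ⇑(planeQ F))) × (Fin r → ℤˣ)) :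
    ((baseHom F k c g : ↥(Cfsg.isometryGroup F ⇑(modelQ F k c))) :
      GL ((Fin 2 × Fin k) ⊕ Fin r) F) =
      H43.bdHom F (Fin k) (Fin 2) (Fin r) (baseIn F k r g) := rfl

/-- The block permutation homomorphism `Sym_k → O(Q₀)`. -/
noncomputable def permHom (F : Type*) [Field F] (k : ℕ) {r : ℕ} (c : Fin r → F) :
    Equiv.Perm (Fin k) →* ↥(Cfsg.isometryGroup F ⇑(modelQ F k c)) :=
  MonoidHom.codRestrict (H43.pmHom F (Fin k) (Fin 2) (Fin r)) _ (fun σ => by
    rw [H43.mem_isometryGroup_iff]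
    intro u
    rw [H43.pmHom_coe]
    exact modelQ_pmMat c σ u)

theorem permHom_coe (c : Fin r → F) (σ : Equiv.Perm (Fin k)) :
    ((permHom F k c σ : ↥(Cfsg.isometryGroup F ⇑(modelQ F k c))) :
      GL ((Fin 2 × Fin k) ⊕ Fin r) F) = H43.pmHom F (Fin k) (Fin 2) (Fin r) σ := rfl

theorem permHom_mul_baseHom (c : Fin r → F) (σ : Equiv.Perm (Fin k))
    (g : (Fin k → ↥(Cfsg.isometryGroup F ⇑(planeQ F))) × (Fin r → ℤˣ)) :
    permHom F k c σ * baseHom F k c g =
      baseHom F k c (fun i => g.1 (σ⁻¹ i), g.2) * permHom F k c σ := by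
  apply Subtype.ext
  rw [Subgroup.coe_mul, Subgroup.coe_mul, permHom_coe, baseHom_coe, baseHom_coe]
  exact H43.pmHom_mul_bdHom σ (baseIn F k r g)

theorem baseHom_injective (h2 : (2 : F) ≠ 0) (c : Fin r → F) :
    Function.Injective (baseHom F k c) := by
  intro a b hab
  have h := congrArg (fun x : ↥(Cfsg.isometryGroup F ⇑(modelQ F k c)) =>
    (x : GL ((Fin 2 × Fin k) ⊕ Fin r) F)) hab
  simp only [baseHom_coe] at h
  exact baseIn_injective h2 (H43.bdHom_injective h)

theorem permHom_injective (c : Fin r → F) : Function.Injective (permHom F k c) := by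
  intro a b hab
  have h := congrArg (fun x : ↥(Cfsg.isometryGroup F ⇑(modelQ F k c)) =>
    (x : GL ((Fin 2 × Fin k) ⊕ Fin r) F)) hab
  simp only [permHom_coe] at h
  exact H43.pmHom_injective h

/-- The product map `(b, t) ↦ baseHom b * permHom t` is injective. -/
theorem base_perm_injective (h2 : (2 : F) ≠ 0) (c : Fin r → F)
    (b b' : (Fin k → ↥(Cfsg.isometryGroup F ⇑(planeQ F))) × (Fin r → ℤˣ))
    (t t' : Equiv.Perm (Fin k))
    (h : baseHom F k c b * permHom F k c t = baseHom F k c b' * permHom F k c t') :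
    b = b' ∧ t = t' := by
  have h1 : permHom F k c (t * t'⁻¹) = baseHom F k c (b⁻¹ * b') := by
    rw [map_mul, map_mul, map_inv, map_inv]
    have : permHom F k c t = (baseHom F k c b)⁻¹ * baseHom F k c b' * permHom F k c t' := by
      rw [mul_assoc, ← h]; group
    rw [this]; group
  have h3 := congrArg (fun x : ↥(Cfsg.isometryGroup F ⇑(modelQ F k c)) =>
    (x : GL ((Fin 2 × Fin k) ⊕ Fin r) F)) h1
  simp only [permHom_coe, baseHom_coe] at h3
  have h4 : H43.pmHom F (Fin k) (Fin 2) (Fin r) (t * t'⁻¹) ∈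
      (H43.pmHom F (Fin k) (Fin 2) (Fin r)).range ⊓ (H43.bdHom F (Fin k) (Fin 2) (Fin r)).range :=
    ⟨⟨_, rfl⟩, ⟨_, h3.symm⟩⟩
  rw [H43.range_pmHom_inf_range_bdHom, Subgroup.mem_bot] at h4
  have h5 : t * t'⁻¹ = 1 := H43.pmHom_injective (by rw [h4, map_one])
  have ht : t = t' := by
    rw [mul_inv_eq_one] at h5; exact h5
  refine ⟨?_, ht⟩
  rw [ht] at h
  exact baseHom_injective h2 c (mul_right_cancel h)

/-- General coordinate permutations of the block part. -/
def gpMat (F : Type*) [Field F] (k r : ℕ) (ρ : Equiv.Perm (Fin 2 × Fin k)) :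
    Matrix ((Fin 2 × Fin k) ⊕ Fin r) ((Fin 2 × Fin k) ⊕ Fin r) F :=
  Matrix.fromBlocks (H43.permMat F ρ) 0 0 1

theorem gpMat_one : gpMat F k r 1 = 1 := by
  unfold gpMat
  rw [H43.permMat_one, Matrix.fromBlocks_one]

theorem gpMat_mul (ρ ρ' : Equiv.Perm (Fin 2 × Fin k)) :
    gpMat F k r (ρ * ρ') = gpMat F k r ρ * gpMat F k r ρ' := by
  unfold gpMat
  rw [Matrix.fromBlocks_multiply, H43.permMat_mul]
  simp

/-- General coordinate permutations as a homomorphism to `GL`. -/
noncomputable def gpGL (F : Type*) [Field F] (k r : ℕ) :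
    Equiv.Perm (Fin 2 × Fin k) →* GL ((Fin 2 × Fin k) ⊕ Fin r) F :=
  MonoidHom.toHomUnits
    { toFun := gpMat F k r
      map_one' := gpMat_one
      map_mul' := gpMat_mul }

theorem gpGL_coe (ρ : Equiv.Perm (Fin 2 × Fin k)) :
    ((gpGL F k r ρ : GL ((Fin 2 × Fin k) ⊕ Fin r) F) : Matrix _ _ F) = gpMat F k r ρ := rfl

theorem gpMat_mulVec_inl (ρ : Equiv.Perm (Fin 2 × Fin k)) (v : (Fin 2 × Fin k) ⊕ Fin r → F)
    (x : Fin 2 × Fin k) : (gpMat F k r ρ *ᵥ v) (Sum.inl x) = v (Sum.inl (ρ⁻¹ x)) := by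
  conv_lhs => rw [← Sum.elim_comp_inl_inr v]
  rw [gpMat, Matrix.fromBlocks_mulVec]
  simp only [Sum.elim_inl, Matrix.zero_mulVec, add_zero]
  rw [permMat_mulVec]
  rfl

theorem gpMat_mulVec_inr (ρ : Equiv.Perm (Fin 2 × Fin k)) (v : (Fin 2 × Fin k) ⊕ Fin r → F)
    (j : Fin r) : (gpMat F k r ρ *ᵥ v) (Sum.inr j) = v (Sum.inr j) := by
  conv_lhs => rw [← Sum.elim_comp_inl_inr v]
  rw [gpMat, Matrix.fromBlocks_mulVec]
  simp only [Sum.elim_inr, Matrix.zero_mulVec, zero_add, Matrix.one_mulVec]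
  rfl

theorem modelQ_apply' (c : Fin r → F) (v : (Fin 2 × Fin k) ⊕ Fin r → F) :
    modelQ F k c v = ∑ x : Fin 2 × Fin k, v (Sum.inl x) ^ 2
      + ∑ j : Fin r, c j * v (Sum.inr j) ^ 2 := by
  rw [modelQ, wsq_apply, Fintype.sum_sum_type]
  simp [mw]

theorem modelQ_gpMat (c : Fin r → F) (ρ : Equiv.Perm (Fin 2 × Fin k))
    (v : (Fin 2 × Fin k) ⊕ Fin r → F) :
    modelQ F k c (gpMat F k r ρ *ᵥ v) = modelQ F k c v := by
  rw [modelQ_apply', modelQ_apply']
  congr 1
  · rw [← Equiv.sum_comp ρ⁻¹ (fun x => v (Sum.inl x) ^ 2)]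
    refine Finset.sum_congr rfl fun x _ => ?_
    rw [gpMat_mulVec_inl]
  · refine Finset.sum_congr rfl fun j _ => ?_
    rw [gpMat_mulVec_inr]

/-- General coordinate permutations of the block part as isometries. -/
noncomputable def gpHom (F : Type*) [Field F] (k : ℕ) {r : ℕ} (c : Fin r → F) :
    Equiv.Perm (Fin 2 × Fin k) →* ↥(Cfsg.isometryGroup F ⇑(modelQ F k c)) :=
  MonoidHom.codRestrict (gpGL F k r) _ (fun ρ => by
    rw [H43.mem_isometryGroup_iff]
    intro u
    rw [gpGL_coe]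
    exact modelQ_gpMat c ρ u)

theorem permHom_eq_gpHom (c : Fin r → F) (σ : Equiv.Perm (Fin k)) :
    permHom F k c σ = gpHom F k c (H43.ptau (Fin 2) σ) := by
  apply Subtype.ext
  apply Units.ext
  rfl

theorem ptau_swap_eq (i j : Fin k) :
    H43.ptau (Fin 2) (Equiv.swap i j) = ⁅Equiv.swap ((0 : Fin 2), i) ((0 : Fin 2), j),
      (Equiv.prodCongr (Equiv.swap (0 : Fin 2) 1) (Equiv.refl (Fin k)) :
        Equiv.Perm (Fin 2 × Fin k))⁆ := by
  rw [commutatorElement_def, Equiv.swap_inv, mul_assoc, mul_assoc,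
    ← mul_assoc _ (Equiv.swap ((0 : Fin 2), i) ((0 : Fin 2), j)), ← Equiv.swap_apply_apply]
  have hf : ∀ x : Fin k, (Equiv.prodCongr (Equiv.swap (0 : Fin 2) 1) (Equiv.refl (Fin k)))
      ((0 : Fin 2), x) = ((1 : Fin 2), x) := by
    intro x
    simp [Equiv.prodCongr_apply]
  rw [hf, hf]
  apply Equiv.ext
  rintro ⟨e, l⟩
  rw [H43.ptau_apply, Equiv.Perm.mul_apply]
  show (e, Equiv.swap i j l) = _
  have h01 : ∀ a b : Fin k, ((0 : Fin 2), a) ≠ ((1 : Fin 2), b) := by
    intro a b h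
    have h' : (0 : Fin 2) = 1 := congrArg Prod.fst h
    exact absurd h' (by decide)
  have h10 : ∀ a b : Fin k, ((1 : Fin 2), a) ≠ ((0 : Fin 2), b) := fun a b h => h01 b a h.symm
  have hne : ∀ (e' : Fin 2) (a b : Fin k), a ≠ b → (e', a) ≠ (e', b) := by
    intro e' a b hab h
    exact hab (congrArg Prod.snd h)
  revert e
  rw [Fin.forall_fin_two]
  constructor
  · rw [Equiv.swap_apply_of_ne_of_ne (h01 l i) (h01 l j)]
    by_cases hli : l = i
    · rw [hli, Equiv.swap_apply_left, Equiv.swap_apply_left]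
    · by_cases hlj : l = j
      · rw [hlj, Equiv.swap_apply_right, Equiv.swap_apply_right]
      · rw [Equiv.swap_apply_of_ne_of_ne hli hlj,
          Equiv.swap_apply_of_ne_of_ne (hne 0 l i hli) (hne 0 l j hlj)]
  · by_cases hli : l = i
    · rw [hli, Equiv.swap_apply_left, Equiv.swap_apply_left,
        Equiv.swap_apply_of_ne_of_ne (h10 j i) (h10 j j)]
    · by_cases hlj : l = j
      · rw [hlj, Equiv.swap_apply_right, Equiv.swap_apply_right,
          Equiv.swap_apply_of_ne_of_ne (h10 i i) (h10 i j)]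
      · rw [Equiv.swap_apply_of_ne_of_ne hli hlj,
          Equiv.swap_apply_of_ne_of_ne (hne 1 l i hli) (hne 1 l j hlj),
          Equiv.swap_apply_of_ne_of_ne (h10 l i) (h10 l j)]

/-- Block permutations lie in the commutator subgroup. -/
theorem permHom_mem_commutator (c : Fin r → F) (σ : Equiv.Perm (Fin k)) :
    permHom F k c σ ∈ commutator ↥(Cfsg.isometryGroup F ⇑(modelQ F k c)) := by
  induction σ using Equiv.Perm.swap_induction_on with
  | one => rw [map_one]; exact Subgroup.one_mem _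
  | swap_mul f x y _ ih =>
    rw [map_mul]
    refine Subgroup.mul_mem _ ?_ ih
    rw [permHom_eq_gpHom, ptau_swap_eq, map_commutatorElement, commutator_def]
    exact Subgroup.commutator_mem_commutator (Subgroup.mem_top _) (Subgroup.mem_top _)

end homs

end Cfsg.Agent.H48
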