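import Mathlib
import Cfsg.Agent.H48.OmModel2
import Cfsg.Agent.H69.SymSylowC

set_option autoImplicit false

/-! Helper lemmas (helper48): the subgroup `(D ≀ T) × {±1}^r` of the isometry group of the model
form, its order, and the resulting statement on Sylow `2`-subgroups of `Ω`. -/

namespace Cfsg.Agent.H48

open Matrix
open scoped commutatorElement

/-- Transfer of `EAb` from `W ⊓ N` (with `W` of Sylow order) to all Sylow `2`-subgroups of the
normal subgroup `N`. -/
theorem eab_sylow_of_inf_normal {G : Type*} [Group G] [Finite G] (N : Subgroup G) [N.Normal]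
    (W : Subgroup G) (hcard : Nat.card W = 2 ^ (Nat.card G).factorization 2)
    (hW : EAb 2 (W ⊓ N)) (P : Sylow 2 N) : EAb 2 (P : Subgroup N) := by
  obtain ⟨P₂, hP₂⟩ : ∃ P₂ : Subgroup N, P₂ = W.comap N.subtype := ⟨_, rfl⟩
  have hmap : P₂.map N.subtype = W ⊓ N := by
    rw [hP₂, Subgroup.map_comap_eq, Subgroup.range_subtype, inf_comm]
  have hcard2 : Nat.card P₂ = 2 ^ (Nat.card N).factorization 2 := by
    have hc : Nat.card (P₂.map N.subtype) = Nat.card P₂ :=
      Subgroup.card_map_of_injective N.subtype_injective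
    rw [← hc, hmap]
    have h := card_sylow_inf_normal (Sylow.ofCard W hcard) N
    rwa [Sylow.coe_ofCard] at h
  have hSe : EAb 2 (Sylow.ofCard P₂ hcard2 : Subgroup N) :=
    EAb.of_map_injective N.subtype N.subtype_injective (by
      rw [Sylow.coe_ofCard, hmap]; exact hW)
  exact EAb.sylow_all _ P hSe

section sub

variable {F : Type*} [Field F] {k r : ℕ}

/-- The subgroup `(D ≀ T) × {±1}^r` of `O(Q₀)`. -/
noncomputable def modelSub (c : Fin r → F) (D : Subgroup ↥(Cfsg.isometryGroup F ⇑(planeQ F)))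
    (T : Subgroup (Equiv.Perm (Fin k))) : Subgroup ↥(Cfsg.isometryGroup F ⇑(modelQ F k c)) where
  carrier := {g | ∃ b : (Fin k → ↥(Cfsg.isometryGroup F ⇑(planeQ F))) × (Fin r → ℤˣ),
    (∀ i, b.1 i ∈ D) ∧ ∃ t ∈ T, g = baseHom F k c b * permHom F k c t}
  mul_mem' := by
    rintro _ _ ⟨b, hb, t, ht, rfl⟩ ⟨b', hb', t', ht', rfl⟩
    refine ⟨b * (fun i => b'.1 (t⁻¹ i), b'.2), ?_, t * t', T.mul_mem ht ht', ?_⟩
    · intro i
      exact D.mul_mem (hb i) (hb' _)
    · rw [map_mul, map_mul]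
      calc baseHom F k c b * permHom F k c t * (baseHom F k c b' * permHom F k c t')
          = baseHom F k c b * (permHom F k c t * baseHom F k c b') * permHom F k c t' := by
            group
        _ = _ := by rw [permHom_mul_baseHom]; group
  one_mem' := ⟨1, fun _ => D.one_mem, 1, T.one_mem, by rw [map_one, map_one, mul_one]⟩
  inv_mem' := by
    rintro _ ⟨b, hb, t, ht, rfl⟩
    refine ⟨(fun i => b⁻¹.1 (t⁻¹⁻¹ i), b⁻¹.2), ?_, t⁻¹, T.inv_mem ht, ?_⟩
    · intro i
      exact D.inv_mem (hb _)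
    · rw [_root_.mul_inv_rev, ← map_inv, ← map_inv, permHom_mul_baseHom]

theorem mem_modelSub (c : Fin r → F) (D : Subgroup ↥(Cfsg.isometryGroup F ⇑(planeQ F)))
    (T : Subgroup (Equiv.Perm (Fin k))) (g : ↥(Cfsg.isometryGroup F ⇑(modelQ F k c))) :
    g ∈ modelSub c D T ↔ ∃ b : (Fin k → ↥(Cfsg.isometryGroup F ⇑(planeQ F))) × (Fin r → ℤˣ),
      (∀ i, b.1 i ∈ D) ∧ ∃ t ∈ T, g = baseHom F k c b * permHom F k c t := Iff.rfl

theorem card_modelSub [Fintype F] (h2 : (2 : F) ≠ 0) (c : Fin r → F)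
    (D : Subgroup ↥(Cfsg.isometryGroup F ⇑(planeQ F))) (T : Subgroup (Equiv.Perm (Fin k))) :
    Nat.card (modelSub c D T) = Nat.card D ^ k * 2 ^ r * Nat.card T := by
  have hbij : Function.Bijective (fun x : ((Fin k → D) × (Fin r → ℤˣ)) × T =>
      (⟨baseHom F k c (fun i => (x.1.1 i : ↥(Cfsg.isometryGroup F ⇑(planeQ F))), x.1.2)
        * permHom F k c x.2,
        ⟨(fun i => (x.1.1 i : ↥(Cfsg.isometryGroup F ⇑(planeQ F))), x.1.2),
          fun i => (x.1.1 i).2, x.2.1, x.2.2, rfl⟩⟩ : modelSub c D T)) := by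
    constructor
    · rintro ⟨⟨d, ε⟩, t⟩ ⟨⟨d', ε'⟩, t'⟩ h
      have h' := congrArg Subtype.val h
      simp only at h'
      obtain ⟨hb, ht⟩ := base_perm_injective h2 c _ _ _ _ h'
      rw [Prod.mk.injEq] at hb
      refine Prod.ext (Prod.ext ?_ hb.2) (Subtype.ext ht)
      funext i
      exact Subtype.ext (congrFun hb.1 i)
    · rintro ⟨g, b, hb, t, ht, rfl⟩
      exact ⟨((fun i => ⟨b.1 i, hb i⟩, b.2), ⟨t, ht⟩), rfl⟩
  rw [← Nat.card_congr (Equiv.ofBijective _ hbij), Nat.card_prod, Nat.card_prod, Nat.card_fun,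
    Nat.card_fun]
  simp [Nat.card_eq_fintype_card]

/-- The derived part of `(D ≀ T) × {±1}^r` has elementary abelian abelianization. -/
theorem eab_model_inf (h2 : (2 : F) ≠ 0) (hk : 2 ≤ k) (c : Fin r → F)
    (D : Subgroup ↥(Cfsg.isometryGroup F ⇑(planeQ F))) (hD : flipE F ∈ D)
    (T : Subgroup (Equiv.Perm (Fin k))) (hT : EAb 2 T) :
    EAb 2 (modelSub c D T ⊓ commutator ↥(Cfsg.isometryGroup F ⇑(modelQ F k c))) := by
  refine eab_wreath_inf (commutator _) le_rfl D (flipE F) hD (fun x _ => plane_dichotomy h2 x)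
    ((baseHom F k c).comp (MonoidHom.inl _ _)) (permHom F k c) ?_ T hT
    (fun t _ => permHom_mem_commutator c t)
    ((baseHom F k c).comp (MonoidHom.inr _ _)).range ?_ ?_ (modelSub c D T) ?_ ?_
    (⟨0, by omega⟩ : Fin k) (⟨1, by omega⟩ : Fin k) (by simp [Fin.ext_iff])
  · intro i j x
    rw [MonoidHom.comp_apply, MonoidHom.comp_apply, MonoidHom.inl_apply, MonoidHom.inl_apply,
      permHom_mul_baseHom, mul_inv_cancel_right]
    congr 1
    apply Prod.ext
    · funext l
      show (Pi.mulSingle i x : Fin k → ↥(Cfsg.isometryGroup F ⇑(planeQ F)))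
        ((Equiv.swap i j)⁻¹ l) =
        (Pi.mulSingle j x : Fin k → ↥(Cfsg.isometryGroup F ⇑(planeQ F))) l
      rw [Equiv.swap_inv, Pi.mulSingle_apply, Pi.mulSingle_apply]
      by_cases hl : l = j
      · rw [if_pos hl, hl, Equiv.swap_apply_right, if_pos rfl]
      · rw [if_neg hl, if_neg]
        intro h
        apply hl
        rw [Equiv.swap_apply_eq_iff, Equiv.swap_apply_left] at h
        exact h
    · rfl
  · rintro _ ⟨ε, rfl⟩
    rw [← map_pow]
    have : ε ^ 2 = 1 := by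
      funext j
      simp [pow_two]
    rw [this, map_one]
  · rintro _ ⟨ε, rfl⟩ d
    rw [MonoidHom.comp_apply, MonoidHom.comp_apply, ← map_mul, ← map_mul]
    congr 1
    apply Prod.ext <;> simp
  · rintro g ⟨b, hb, t, ht, rfl⟩
    refine ⟨_, ⟨b.2, rfl⟩, b.1, hb, t, ht, ?_⟩
    rw [MonoidHom.comp_apply, MonoidHom.comp_apply, ← map_mul]
    congr 2
    apply Prod.ext <;> simp
  · rintro _ ⟨ε, rfl⟩ d hd t ht
    refine ⟨(d, ε), hd, t, ht, ?_⟩
    rw [MonoidHom.comp_apply, MonoidHom.comp_apply, ← map_mul]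
    congr 2
    apply Prod.ext <;> simp

end sub

section main

variable {F : Type*} [Field F] [Fintype F]

/-- Sylow `2`-subgroups of `Ω` of the model form have elementary abelian abelianization,
provided the order of the isometry group has the expected `2`-part. -/
theorem eab_sylow_model (hF : Odd (Fintype.card F)) (k r : ℕ) (hk : 2 ≤ k) (c : Fin r → F)
    (hcard : (Nat.card ↥(Cfsg.isometryGroup F ⇑(modelQ F k c))).factorization 2 ≤
      k * (Nat.card ↥(Cfsg.isometryGroup F ⇑(planeQ F))).factorization 2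
        + (k.factorial).factorization 2 + r)
    (P : Sylow 2 ↥(Cfsg.Omega F ⇑(modelQ F k c))) :
    EAb 2 (P : Subgroup ↥(Cfsg.Omega F ⇑(modelQ F k c))) := by
  have h2 : (2 : F) ≠ 0 := H49.two_ne_zero_of_odd_card hF
  have hpg : IsPGroup 2 (Subgroup.zpowers (flipE F)) := by
    rintro ⟨g, hg⟩
    obtain ⟨n, rfl⟩ := Subgroup.mem_zpowers_iff.mp hg
    refine ⟨1, ?_⟩
    apply Subtype.ext
    rw [Subgroup.coe_pow, Subgroup.coe_one, pow_one, ← zpow_natCast, ← _root_.zpow_mul, mul_comm,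
      _root_.zpow_mul, zpow_natCast, pow_two, flipE_mul_self, _root_.one_zpow]
  obtain ⟨D, hD⟩ := hpg.exists_le_sylow
  obtain ⟨T⟩ : Nonempty (Sylow 2 (Equiv.Perm (Fin k))) := inferInstance
  have hT : EAb 2 (T : Subgroup (Equiv.Perm (Fin k))) := by
    rw [eab_iff]
    exact fun x => (Cfsg.Agent.H69.genP_sylow_perm 2 k T).pow_mem_commutator x
  have hW := eab_model_inf h2 hk c (D : Subgroup _) (hD (Subgroup.mem_zpowers _))
    (T : Subgroup _) hT
  have hcardW : Nat.card (modelSub c (D : Subgroup ↥(Cfsg.isometryGroup F ⇑(planeQ F)))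
      (T : Subgroup (Equiv.Perm (Fin k)))) =
      2 ^ (Nat.card ↥(Cfsg.isometryGroup F ⇑(modelQ F k c))).factorization 2 := by
    have h1 := card_modelSub h2 c (D : Subgroup ↥(Cfsg.isometryGroup F ⇑(planeQ F)))
      (T : Subgroup (Equiv.Perm (Fin k)))
    rw [D.card_eq_multiplicity, T.card_eq_multiplicity, Nat.card_perm, Nat.card_fin, ← pow_mul,
      ← pow_add, ← pow_add] at h1
    have hdvd := Subgroup.card_subgroup_dvd_card (modelSub c
      (D : Subgroup ↥(Cfsg.isometryGroup F ⇑(planeQ F))) (T : Subgroup (Equiv.Perm (Fin k))))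
    rw [h1] at hdvd
    have hle := (Nat.prime_two.pow_dvd_iff_le_factorization Nat.card_pos.ne').mp hdvd
    rw [h1]
    congr 1
    have e : (Nat.card ↥(Cfsg.isometryGroup F ⇑(planeQ F))).factorization 2 * k
        = k * (Nat.card ↥(Cfsg.isometryGroup F ⇑(planeQ F))).factorization 2 := mul_comm _ _
    omega
  exact eab_sylow_of_inf_normal (commutator _) _ hcardW hW P

end main

end Cfsg.Agent.H48
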