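import Mathlib
import Cfsg.Agent.H48.OmModel3
import Cfsg.Agent.H48.OmTransfer
import Cfsg.Agent.H48.OmArith
import Cfsg.Agent.H49.SimInst
import Cfsg.Agent.H49.SimpleForms
import Cfsg.Agent.H49.MinusForm
import Cfsg.Agent.S0286
import Cfsg.Agent.S0287
import Cfsg.Agent.S0288

set_option autoImplicit false

/-! Helper lemmas (helper48): Sylow `2`-subgroups of `Ω` of the standard orthogonal forms over a
finite field of odd order have elementary abelian abelianization. -/

namespace Cfsg.Agent.H48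

open Matrix

section gram

variable {F : Type*} [Field F] {ι₁ ι₂ : Type} [Fintype ι₁] [DecidableEq ι₁] [Fintype ι₂]
  [DecidableEq ι₂]

theorem single_inl_comp_inl (i : ι₁) :
    (Pi.single (Sum.inl i) (1 : F) : ι₁ ⊕ ι₂ → F) ∘ Sum.inl = Pi.single i 1 := by
  funext x
  simp [Pi.single_apply]

theorem single_inl_comp_inr (i : ι₁) :
    (Pi.single (Sum.inl i) (1 : F) : ι₁ ⊕ ι₂ → F) ∘ Sum.inr = 0 := by
  funext x
  simp [Pi.single_apply]

theorem single_inr_comp_inl (i : ι₂) :
    (Pi.single (Sum.inr i) (1 : F) : ι₁ ⊕ ι₂ → F) ∘ Sum.inl = 0 := by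
  funext x
  simp [Pi.single_apply]

theorem single_inr_comp_inr (i : ι₂) :
    (Pi.single (Sum.inr i) (1 : F) : ι₁ ⊕ ι₂ → F) ∘ Sum.inr = Pi.single i 1 := by
  funext x
  simp [Pi.single_apply]

theorem stdGram_sumQ (Q₁ : QuadraticForm F (ι₁ → F)) (Q₂ : QuadraticForm F (ι₂ → F)) :
    H49.stdGram (H49.sumQ Q₁ Q₂) = Matrix.fromBlocks (H49.stdGram Q₁) 0 0 (H49.stdGram Q₂) := by
  ext i j
  rw [H49.stdGram, Matrix.of_apply, H49.polar_sumQ]
  rcases i with i | i <;> rcases j with j | j
  · rw [single_inl_comp_inl, single_inl_comp_inl, single_inl_comp_inr, single_inl_comp_inr,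
      QuadraticMap.polar_zero_left, add_zero, Matrix.fromBlocks_apply₁₁]
    rfl
  · rw [single_inl_comp_inl, single_inr_comp_inl, single_inl_comp_inr, single_inr_comp_inr,
      QuadraticMap.polar_zero_left, QuadraticMap.polar_zero_right, add_zero,
      Matrix.fromBlocks_apply₁₂]
    rfl
  · rw [single_inr_comp_inl, single_inl_comp_inl, single_inr_comp_inr, single_inl_comp_inr,
      QuadraticMap.polar_zero_left, QuadraticMap.polar_zero_right, add_zero,
      Matrix.fromBlocks_apply₂₁]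
    rfl
  · rw [single_inr_comp_inl, single_inr_comp_inl, single_inr_comp_inr, single_inr_comp_inr,
      QuadraticMap.polar_zero_left, zero_add, Matrix.fromBlocks_apply₂₂]
    rfl

theorem det_stdGram_QOdd [Fintype F] (m : ℕ) :
    (H49.stdGram (H49.QOdd m F)).det = 2 * (-1) ^ m := by
  classical
  rw [H49.QOdd, stdGram_sumQ, Matrix.det_fromBlocks_zero₁₂, H49.stdGram_QP, H49.det_hypGram,
    Matrix.det_unique]
  congr 1
  rw [H49.stdGram, Matrix.of_apply, H49.polar_sqQ]
  simp

theorem det_stdGram_model (k : ℕ) {r : ℕ} (c : Fin r → F) :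
    (H49.stdGram (modelQ F k c)).det = 2 ^ (2 * k) * ∏ j, (2 * c j) := by
  rw [modelQ, det_stdGram_wsq, Fintype.prod_sum_type]
  congr 1
  simp [mw]

end gram

section plane

variable {F : Type*} [Field F] [Fintype F]

/-- The `2`-part of the order of `O(x² + y²)`. -/
theorem plane_val_ge (hF : Odd (Fintype.card F)) :
    padicValNat 2 (Fintype.card F ^ 2 - 1) ≤
      (Nat.card ↥(Cfsg.isometryGroup F ⇑(planeQ F))).factorization 2 := by
  classical
  have h2 : (2 : F) ≠ 0 := H49.two_ne_zero_of_odd_card hF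
  have hq1 : 1 < Fintype.card F := Fintype.one_lt_card
  have hA := H43.padicValNat_two_sq_sub_one (Fintype.card F) hF hq1
  have hpl : (QuadraticMap.polarBilin (planeQ F)).Nondegenerate :=
    wsq_nondeg h2 _ (fun _ => one_ne_zero)
  have hdet : (H49.stdGram (planeQ F)).det = 4 := by
    rw [planeQ, det_stdGram_wsq, Fin.prod_univ_two]
    norm_num
  by_cases h4 : Fintype.card F % 4 = 3
  · -- anisotropic plane
    have hns : ¬ IsSquare (-1 : F) := by
      rw [FiniteField.isSquare_neg_one_iff]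
      omega
    have hab : ∀ z₁ z₂ : F, z₁ ^ 2 + 0 * z₁ * z₂ + 1 * z₂ ^ 2 = 0 → z₁ = 0 ∧ z₂ = 0 := by
      intro z₁ z₂ h
      by_contra hne
      have hz2 : z₂ ≠ 0 := by
        rintro rfl
        apply hne
        refine ⟨?_, rfl⟩
        have : z₁ ^ 2 = 0 := by linear_combination h
        exact pow_eq_zero_iff (by norm_num) |>.mp this
      apply hns
      refine ⟨z₁ / z₂, ?_⟩
      field_simp
      linear_combination -h
    have hd : (0 : F) ^ 2 - 4 * 1 ≠ 0 := by
      intro h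
      apply h2
      have h' : (2 : F) * 2 = 0 := by linear_combination -h
      exact mul_self_eq_zero.mp h'
    obtain ⟨g, hg⟩ := exists_linIso_of_disc h2 (by simp) (planeQ F) (H49.QMin 0 F 0 1) hpl
      (H49.QMin_nondeg 0 0 1 hd)
      (by
        rw [hdet, H49.stdGram_QMin, H49.det_minusGram]
        exact ⟨4, by ring⟩)
    have hc : Nat.card ↥(Cfsg.isometryGroup F ⇑(planeQ F)) =
        Nat.card ↥(Cfsg.isometryGroup F (Cfsg.quadFormMinus (1 - 1) F 0 1)) :=
      Nat.card_congr (isoEquiv _ _ g hg).toEquiv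
    rw [hc, Cfsg.Agent.S0288.result rfl 1 le_rfl 0 1 hab, Nat.factorization_def _ Nat.prime_two,
      val_orth_formula _ hF hq1 _ _ _ (by omega), hA, val_of_mod_four_two (Fintype.card F - 1)
        (by omega)]
    simp
  · have h41 : Fintype.card F % 4 = 1 := by
      have := Nat.odd_iff.mp hF
      omega
    obtain ⟨s, hs⟩ : IsSquare (-1 : F) := by
      rw [FiniteField.isSquare_neg_one_iff]
      omega
    obtain ⟨g, hg⟩ := exists_linIso_of_disc h2 (by simp) (planeQ F) (H49.QP 1 F) hpl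
      (H49.QP_nondeg 1 F)
      (by
        rw [hdet, H49.stdGram_QP, H49.det_hypGram]
        exact ⟨2 * s, by linear_combination (4 : F) * hs⟩)
    have hc : Nat.card ↥(Cfsg.isometryGroup F ⇑(planeQ F)) =
        Nat.card ↥(Cfsg.isometryGroup F (Cfsg.quadFormPlus 1 F)) :=
      Nat.card_congr (isoEquiv _ _ g hg).toEquiv
    have hpos : 1 < Fintype.card F ^ 1 := by rw [pow_one]; exact hq1
    rw [hc, Cfsg.Agent.S0287.result rfl 1 le_rfl, Nat.factorization_def _ Nat.prime_two,
      val_orth_formula _ hF hq1 _ _ _ (by omega), hA, val_of_mod_four_two (Fintype.card F + 1)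
        (by omega)]
    simp

end plane

section final

variable {F : Type*} [Field F] [Fintype F]

/-- General reduction to the model form. -/
theorem eab_sylow_of_model (hF : Odd (Fintype.card F)) {ι : Type} [Fintype ι] [DecidableEq ι]
    (Q : QuadraticForm F (ι → F)) (hQ : (QuadraticMap.polarBilin Q).Nondegenerate)
    (k r : ℕ) (hk : 2 ≤ k) (c : Fin r → F) (hc : ∀ j, c j ≠ 0)
    (hdim : Fintype.card ι = 2 * k + r)
    (hsq : IsSquare ((H49.stdGram Q).det * (2 ^ (2 * k) * ∏ j, (2 * c j))))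
    (hval : (Nat.card ↥(Cfsg.isometryGroup F ⇑Q)).factorization 2 ≤
      k * padicValNat 2 (Fintype.card F ^ 2 - 1) + (k.factorial).factorization 2 + r)
    (P : Sylow 2 ↥(Cfsg.Omega F ⇑Q)) : EAb 2 (P : Subgroup ↥(Cfsg.Omega F ⇑Q)) := by
  classical
  have h2 : (2 : F) ≠ 0 := H49.two_ne_zero_of_odd_card hF
  have hmod : (QuadraticMap.polarBilin (modelQ F k c)).Nondegenerate := by
    apply wsq_nondeg h2
    rintro (x | j)
    · exact one_ne_zero
    · exact hc j
  obtain ⟨g, hg⟩ := exists_linIso_of_disc h2 (by rw [hdim]; simp) Q (modelQ F k c) hQ hmod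
    (by rw [det_stdGram_model]; exact hsq)
  obtain ⟨e, -⟩ : ∃ e : ↥(Cfsg.isometryGroup F ⇑Q) ≃* ↥(Cfsg.isometryGroup F ⇑(modelQ F k c)),
      True := ⟨isoEquiv _ _ g hg, trivial⟩
  refine sylow_comm_eab_of_equiv e (fun P' => eab_sylow_model hF k r hk c ?_ P') P
  rw [← Nat.card_congr e.toEquiv]
  have h1 := Nat.mul_le_mul_left k (plane_val_ge hF)
  omega

/-- Odd dimension. -/
theorem eab_sylow_omega_odd (hF : Odd (Fintype.card F)) (m : ℕ) (hm : 2 ≤ m)
    (P : Sylow 2 ↥(Cfsg.Omega F (Cfsg.quadFormOdd m F))) :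
    EAb 2 (P : Subgroup ↥(Cfsg.Omega F (Cfsg.quadFormOdd m F))) := by
  have h2 : (2 : F) ≠ 0 := H49.two_ne_zero_of_odd_card hF
  have hq1 : 1 < Fintype.card F := Fintype.one_lt_card
  refine eab_sylow_of_model hF (H49.QOdd m F) (H49.QOdd_nondeg m h2) m 1 hm
    (fun _ => (-1 : F) ^ m) (fun _ => pow_ne_zero _ (neg_ne_zero.mpr one_ne_zero))
    (by simp; ring) ?_ ?_ P
  · rw [det_stdGram_QOdd, Fin.prod_univ_one]
    exact ⟨2 ^ (m + 1) * (-1) ^ m, by ring⟩
  · have h := Cfsg.Agent.S0286.result (F := F) rfl hF m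
    rw [H49.QOdd_coe, h]
    exact val_orth_odd _ hF hq1 m

/-- Plus type. -/
theorem eab_sylow_omega_plus (hF : Odd (Fintype.card F)) (m : ℕ) (hm : 1 ≤ m)
    (hm' : Even m ∨ 4 ≤ m) (P : Sylow 2 ↥(Cfsg.Omega F (Cfsg.quadFormPlus m F))) :
    EAb 2 (P : Subgroup ↥(Cfsg.Omega F (Cfsg.quadFormPlus m F))) := by
  classical
  have h2 : (2 : F) ≠ 0 := H49.two_ne_zero_of_odd_card hF
  have hq1 : 1 < Fintype.card F := Fintype.one_lt_card
  have hqodd := Nat.odd_iff.mp hF
  obtain ⟨n, rfl⟩ : ∃ n, m = n + 1 := ⟨m - 1, by omega⟩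
  have hcard := Cfsg.Agent.S0287.result (F := F) rfl (n + 1) hm
  rw [Nat.add_sub_cancel] at hcard
  by_cases hA : Even (n + 1) ∨ Fintype.card F % 4 ≠ 3
  · -- discriminant a square
    obtain ⟨s, hs⟩ := (H49.isSquare_neg_one_pow_iff (F := F) (n + 1)).mpr hA
    have hk : 2 ≤ n + 1 := by
      rcases hm' with ⟨j, hj⟩ | h
      · omega
      · omega
    refine eab_sylow_of_model hF (H49.QP (n + 1) F) (H49.QP_nondeg (n + 1) F) (n + 1) 0 hk
      (fun j => j.elim0) (fun j => j.elim0) (by simp; ring) ?_ ?_ P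
    · rw [H49.stdGram_QP, H49.det_hypGram, Finset.univ_eq_empty, Finset.prod_empty, mul_one, hs]
      exact ⟨s * 2 ^ (n + 1), by ring⟩
    · rw [H49.QP_coe, hcard]
      exact val_orth_plus_A _ hF hq1 n (by
        rcases hA with h | h
        · exact Or.inl h
        · exact Or.inr (by omega))
  · -- discriminant a non-square
    have hodd : Odd (n + 1) := by
      rw [← Nat.not_even_iff_odd]
      exact fun h => hA (Or.inl h)
    have h43 : Fintype.card F % 4 = 3 := by
      by_contra h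
      exact hA (Or.inr h)
    have hk : 2 ≤ n := by
      rcases hm' with h | h
      · exact absurd h (Nat.not_even_iff_odd.mpr hodd)
      · omega
    refine eab_sylow_of_model hF (H49.QP (n + 1) F) (H49.QP_nondeg (n + 1) F) n 2 hk
      ![1, -1] ?_ (by simp; ring) ?_ ?_ P
    · intro j
      fin_cases j
      · exact one_ne_zero
      · exact neg_ne_zero.mpr one_ne_zero
    · rw [H49.stdGram_QP, H49.det_hypGram, Fin.prod_univ_two, hodd.neg_one_pow]
      refine ⟨2 ^ (n + 1), ?_⟩
      simp only [Matrix.cons_val_zero, Matrix.cons_val_one, Matrix.cons_val_fin_one]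
      ring
    · rw [H49.QP_coe, hcard]
      exact val_orth_plus_B _ hF hq1 n hodd h43

/-- Minus type. -/
theorem eab_sylow_omega_minus (hF : Odd (Fintype.card F)) (n : ℕ) (hn : 3 ≤ n) (a b : F)
    (hab : ∀ z₁ z₂ : F, z₁ ^ 2 + a * z₁ * z₂ + b * z₂ ^ 2 = 0 → z₁ = 0 ∧ z₂ = 0)
    (P : Sylow 2 ↥(Cfsg.Omega F (Cfsg.quadFormMinus n F a b))) :
    EAb 2 (P : Subgroup ↥(Cfsg.Omega F (Cfsg.quadFormMinus n F a b))) := by
  classical
  have h2 : (2 : F) ≠ 0 := H49.two_ne_zero_of_odd_card hF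
  have hq1 : 1 < Fintype.card F := Fintype.one_lt_card
  have hqodd := Nat.odd_iff.mp hF
  have hcard := Cfsg.Agent.S0288.result (F := F) rfl (n + 1) (by omega) a b hab
  rw [Nat.add_sub_cancel] at hcard
  have hΔ : ¬ IsSquare (a ^ 2 - 4 * b) := H49.aniso_not_isSquare h2 hab
  have hΔ0 : a ^ 2 - 4 * b ≠ 0 := by
    intro h
    apply hΔ
    rw [h]
    exact ⟨0, by ring⟩
  by_cases hA : Even (n + 1) ∨ Fintype.card F % 4 ≠ 3
  · -- (-1)^(n+1) is a square: two blocks fewer
    obtain ⟨s, hs⟩ := (H49.isSquare_neg_one_pow_iff (F := F) (n + 1)).mpr hA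
    refine eab_sylow_of_model hF (H49.QMin n F a b) (H49.QMin_nondeg n a b hΔ0) n 2 (by omega)
      ![1, a ^ 2 - 4 * b] ?_ (by simp; ring) ?_ ?_ P
    · intro j
      fin_cases j
      · exact one_ne_zero
      · exact hΔ0
    · rw [H49.stdGram_QMin, H49.det_minusGram, Fin.prod_univ_two]
      refine ⟨s * 2 ^ (n + 1) * (a ^ 2 - 4 * b), ?_⟩
      simp only [Matrix.cons_val_zero, Matrix.cons_val_one, Matrix.cons_val_fin_one]
      linear_combination (2 ^ (2 * n + 2) * (a ^ 2 - 4 * b) ^ 2) * hs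
    · rw [H49.QMin_coe, hcard]
      exact val_orth_minus_B _ hF hq1 n (by
        rcases hA with h | h
        · exact Or.inl h
        · exact Or.inr (by omega))
  · have hodd : Odd (n + 1) := by
      rw [← Nat.not_even_iff_odd]
      exact fun h => hA (Or.inl h)
    have h43 : Fintype.card F % 4 = 3 := by
      by_contra h
      exact hA (Or.inr h)
    have hev : Even n := by
      rcases hodd with ⟨j, hj⟩
      exact ⟨j, by omega⟩
    have hns : ¬ IsSquare (-1 : F) := by
      rw [FiniteField.isSquare_neg_one_iff]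
      omega
    obtain ⟨s, hs⟩ := (H49.isSquare_mul_nonsquare_iff (x := (-1 : F))
      (neg_ne_zero.mpr one_ne_zero) hΔ).mpr hns
    refine eab_sylow_of_model hF (H49.QMin n F a b) (H49.QMin_nondeg n a b hΔ0) (n + 1) 0
      (by omega) (fun j => j.elim0) (fun j => j.elim0) (by simp; ring) ?_ ?_ P
    · rw [H49.stdGram_QMin, H49.det_minusGram, Finset.univ_eq_empty, Finset.prod_empty, mul_one,
        hev.neg_one_pow]
      refine ⟨s * 2 ^ (n + 1), ?_⟩
      linear_combination (2 ^ (2 * n + 2)) * hs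
    · rw [H49.QMin_coe, hcard]
      exact val_orth_minus_A _ hF hq1 n hodd h43

end final

end Cfsg.Agent.H48
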