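import Mathlib
import Cfsg.Prelude.Def_Classical

set_option autoImplicit false

/-!
Helper lemmas (helper48): quadratic forms over the field with two elements polarizing to the
polar form of the plus-type form, via the character sum `S(q) = Σ_v (-1)^(q v)`.
-/

namespace Cfsg.Agent.H48

/-- The polar form of `quadFormPlus m (ZMod 2)`. -/
def pol (m : ℕ) (u v : Fin m ⊕ Fin m → ZMod 2) : ZMod 2 :=
  Cfsg.quadFormPlus m (ZMod 2) (u + v) - Cfsg.quadFormPlus m (ZMod 2) u -
    Cfsg.quadFormPlus m (ZMod 2) v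

theorem pol_eq (m : ℕ) (u v : Fin m ⊕ Fin m → ZMod 2) :
    pol m u v = ∑ i : Fin m, (u (Sum.inl i) * v (Sum.inr i) + v (Sum.inl i) * u (Sum.inr i)) := by
  unfold pol Cfsg.quadFormPlus
  rw [← Finset.sum_sub_distrib, ← Finset.sum_sub_distrib]
  refine Finset.sum_congr rfl fun i _ => ?_
  simp only [Pi.add_apply]
  ring

theorem pol_add_left (m : ℕ) (u u' v : Fin m ⊕ Fin m → ZMod 2) :
    pol m (u + u') v = pol m u v + pol m u' v := by
  simp only [pol_eq, ← Finset.sum_add_distrib, Pi.add_apply]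
  refine Finset.sum_congr rfl fun i _ => ?_
  ring

theorem pol_comm (m : ℕ) (u v : Fin m ⊕ Fin m → ZMod 2) : pol m u v = pol m v u := by
  simp only [pol_eq]
  refine Finset.sum_congr rfl fun i _ => ?_
  ring

theorem pol_add_right (m : ℕ) (u v v' : Fin m ⊕ Fin m → ZMod 2) :
    pol m u (v + v') = pol m u v + pol m u v' := by
  rw [pol_comm, pol_add_left, pol_comm m v u, pol_comm m v' u]

theorem zmod2_add_self (a : ZMod 2) : a + a = 0 := by
  revert a; decide

theorem zmod2_mul_self (a : ZMod 2) : a * a = a := by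
  revert a; decide

theorem zmod2_eq_zero_or_one (a : ZMod 2) : a = 0 ∨ a = 1 := by
  revert a; decide

theorem pol_self (m : ℕ) (u : Fin m ⊕ Fin m → ZMod 2) : pol m u u = 0 := by
  simp only [pol_eq]
  refine Finset.sum_eq_zero fun i _ => ?_
  exact zmod2_add_self _

theorem pol_zero_left (m : ℕ) (v : Fin m ⊕ Fin m → ZMod 2) : pol m 0 v = 0 := by
  simp [pol_eq]

theorem pol_zero_right (m : ℕ) (v : Fin m ⊕ Fin m → ZMod 2) : pol m v 0 = 0 := by
  simp [pol_eq]

theorem pol_smul_right (m : ℕ) (c : ZMod 2) (u v : Fin m ⊕ Fin m → ZMod 2) :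
    pol m u (c • v) = c * pol m u v := by
  simp only [pol_eq, Finset.mul_sum, Pi.smul_apply, smul_eq_mul]
  refine Finset.sum_congr rfl fun i _ => ?_
  ring

theorem pol_smul_left (m : ℕ) (c : ZMod 2) (u v : Fin m ⊕ Fin m → ZMod 2) :
    pol m (c • u) v = c * pol m u v := by
  rw [pol_comm, pol_smul_right, pol_comm]

/-- Non-degeneracy of the polar form. -/
theorem pol_nondeg (m : ℕ) (t : Fin m ⊕ Fin m → ZMod 2) (ht : t ≠ 0) :
    ∃ u : Fin m ⊕ Fin m → ZMod 2, pol m u t = 1 := by
  classical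
  have : ∃ j, t j ≠ 0 := by
    by_contra h
    exact ht (funext fun j => by_contra fun hj => h ⟨j, hj⟩)
  obtain ⟨j, hj⟩ := this
  have hj1 : t j = 1 := by
    rcases zmod2_eq_zero_or_one (t j) with h | h
    · exact absurd h hj
    · exact h
  rcases j with i | i
  · refine ⟨Pi.single (Sum.inr i) 1, ?_⟩
    rw [pol_eq]
    rw [Finset.sum_eq_single i]
    · simp [hj1]
    · intro b _ hb
      simp [hb]
    · simp
  · refine ⟨Pi.single (Sum.inl i) 1, ?_⟩
    rw [pol_eq]
    rw [Finset.sum_eq_single i]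
    · simp [hj1]
    · intro b _ hb
      simp [hb]
    · simp

/-- The sign character of `ZMod 2`. -/
def chi (a : ZMod 2) : ℤ := if a = 0 then 1 else -1

theorem chi_add (a b : ZMod 2) : chi (a + b) = chi a * chi b := by
  revert a b; decide

theorem chi_zero : chi 0 = 1 := by decide

theorem chi_one : chi 1 = -1 := by decide

theorem chi_mul_self (a : ZMod 2) : chi a * chi a = 1 := by
  revert a; decide

/-- Orthogonality: the sum of `chi (pol u t)` over `u` vanishes for `t ≠ 0`. -/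
theorem sum_chi_pol (m : ℕ) (t : Fin m ⊕ Fin m → ZMod 2) (ht : t ≠ 0) :
    ∑ u : Fin m ⊕ Fin m → ZMod 2, chi (pol m u t) = 0 := by
  obtain ⟨u₀, hu₀⟩ := pol_nondeg m t ht
  have h1 : ∑ u : Fin m ⊕ Fin m → ZMod 2, chi (pol m u t)
      = ∑ u : Fin m ⊕ Fin m → ZMod 2, chi (pol m (u + u₀) t) :=
    (Fintype.sum_equiv (Equiv.addRight u₀) _ _ (fun u => rfl)).symm
  have h2 : ∑ u : Fin m ⊕ Fin m → ZMod 2, chi (pol m (u + u₀) t)
      = - ∑ u : Fin m ⊕ Fin m → ZMod 2, chi (pol m u t) := by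
    rw [← Finset.sum_neg_distrib]
    refine Finset.sum_congr rfl fun u _ => ?_
    rw [pol_add_left, hu₀, chi_add, chi_one]; ring
  omega

/-- `q` polarizes to the polar form of the plus-type form. -/
def Polarizes (m : ℕ) (q : (Fin m ⊕ Fin m → ZMod 2) → ZMod 2) : Prop :=
  ∀ u v : Fin m ⊕ Fin m → ZMod 2, q (u + v) = q u + q v + pol m u v

theorem Polarizes.map_zero {m : ℕ} {q : (Fin m ⊕ Fin m → ZMod 2) → ZMod 2} (hq : Polarizes m q) :
    q 0 = 0 := by
  have h := hq 0 0
  rw [pol_zero_left, add_zero, add_zero] at h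
  have h2 := zmod2_add_self (q 0)
  rw [← h] at h2
  exact h2

/-- The character sum of a function. -/
def charSum (m : ℕ) (q : (Fin m ⊕ Fin m → ZMod 2) → ZMod 2) : ℤ :=
  ∑ v : Fin m ⊕ Fin m → ZMod 2, chi (q v)

theorem charSum_sq {m : ℕ} {q : (Fin m ⊕ Fin m → ZMod 2) → ZMod 2} (hq : Polarizes m q) :
    charSum m q * charSum m q = 2 ^ (2 * m) := by
  classical
  unfold charSum
  rw [Finset.sum_mul_sum]
  have h1 : ∀ u : Fin m ⊕ Fin m → ZMod 2,
      ∑ v : Fin m ⊕ Fin m → ZMod 2, chi (q u) * chi (q v)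
        = ∑ t : Fin m ⊕ Fin m → ZMod 2, chi (q t) * chi (pol m u t) := by
    intro u
    rw [← Fintype.sum_equiv (Equiv.addLeft u) (fun t => chi (q u) * chi (q (u + t)))
      (fun v => chi (q u) * chi (q v)) (fun t => rfl)]
    refine Finset.sum_congr rfl fun t _ => ?_
    rw [hq u t, chi_add, chi_add]
    have := chi_mul_self (q u)
    linear_combination (chi (q t) * chi (pol m u t)) * this
  rw [Finset.sum_congr rfl (fun u _ => h1 u), Finset.sum_comm]
  have h2 : ∀ t : Fin m ⊕ Fin m → ZMod 2,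
      ∑ u : Fin m ⊕ Fin m → ZMod 2, chi (q t) * chi (pol m u t)
        = if t = 0 then (2 : ℤ) ^ (2 * m) else 0 := by
    intro t
    rw [← Finset.mul_sum]
    split_ifs with ht
    · subst ht
      simp only [pol_zero_right, chi_zero, hq.map_zero, one_mul, Finset.sum_const,
        Finset.card_univ, nsmul_eq_mul, mul_one]
      simp
      ring
    · rw [sum_chi_pol m t ht, mul_zero]
  rw [Finset.sum_congr rfl (fun t _ => h2 t)]
  simp

theorem charSum_ne_zero {m : ℕ} {q : (Fin m ⊕ Fin m → ZMod 2) → ZMod 2} (hq : Polarizes m q) :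
    charSum m q ≠ 0 := by
  intro h
  have h2 := charSum_sq hq
  rw [h] at h2
  simp at h2
  exact absurd h2.symm (by positivity)

theorem charSum_comp_equiv (m : ℕ) (q : (Fin m ⊕ Fin m → ZMod 2) → ZMod 2)
    (g : (Fin m ⊕ Fin m → ZMod 2) ≃ (Fin m ⊕ Fin m → ZMod 2)) :
    charSum m (fun v => q (g v)) = charSum m q := by
  unfold charSum
  exact Fintype.sum_equiv g _ _ (fun v => rfl)

/-- scalar multiples -/
theorem Polarizes.map_smul {m : ℕ} {q : (Fin m ⊕ Fin m → ZMod 2) → ZMod 2} (hq : Polarizes m q)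
    (c : ZMod 2) (w : Fin m ⊕ Fin m → ZMod 2) : q (c • w) = c * q w := by
  rcases zmod2_eq_zero_or_one c with h | h
  · subst h; simp [hq.map_zero]
  · subst h; simp

/-- The transvection `v ↦ v + f(v, b) b` as a linear equivalence. -/
def transv (m : ℕ) (b : Fin m ⊕ Fin m → ZMod 2) :
    (Fin m ⊕ Fin m → ZMod 2) ≃ₗ[ZMod 2] (Fin m ⊕ Fin m → ZMod 2) :=
  LinearEquiv.ofInvolutive
    { toFun := fun v => v + pol m v b • b
      map_add' := fun u v => by
        rw [pol_add_left, add_smul]; abel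
      map_smul' := fun c v => by
        rw [pol_smul_left, RingHom.id_apply, smul_add, mul_smul] }
    (fun v => by
      show (v + pol m v b • b) + pol m (v + pol m v b • b) b • b = v
      rw [pol_add_left, pol_smul_left, pol_self, mul_zero, add_zero, add_assoc, ← add_smul,
        zmod2_add_self, zero_smul, add_zero])

theorem transv_apply (m : ℕ) (b v : Fin m ⊕ Fin m → ZMod 2) :
    transv m b v = v + pol m v b • b := rfl

/-- If `q b = 0` then `q ∘ τ_b = q + f(·, b)`. -/
theorem Polarizes.comp_transv {m : ℕ} {q : (Fin m ⊕ Fin m → ZMod 2) → ZMod 2} (hq : Polarizes m q)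
    (b : Fin m ⊕ Fin m → ZMod 2) (hb : q b = 0) (v : Fin m ⊕ Fin m → ZMod 2) :
    q (transv m b v) = q v + pol m v b := by
  rw [transv_apply, hq, hq.map_smul, hb, mul_zero, add_zero, pol_smul_right, zmod2_mul_self]

theorem Polarizes.add_pol {m : ℕ} {q : (Fin m ⊕ Fin m → ZMod 2) → ZMod 2} (hq : Polarizes m q)
    (w : Fin m ⊕ Fin m → ZMod 2) : Polarizes m (fun v => q v + pol m v w) := by
  intro u v
  show q (u + v) + pol m (u + v) w = (q u + pol m u w) + (q v + pol m v w) + pol m u v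
  rw [hq u v, pol_add_left]
  ring

end Cfsg.Agent.H48
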