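import Cfsg.Agent.H48.QuadF2

set_option autoImplicit false

/-!
Helper lemmas (helper48): totally singular subspaces over the field with two elements, via
character sums.
-/

namespace Cfsg.Agent.H48

open Classical

theorem charSum_add_pol_of_one {m : ℕ} {q : (Fin m ⊕ Fin m → ZMod 2) → ZMod 2} (hq : Polarizes m q)
    (w : Fin m ⊕ Fin m → ZMod 2) (hw1 : q w = 1) :
    charSum m (fun v => q v + pol m v w) = - charSum m q := by
  have e : ∀ v, q v + pol m v w = q (v + w) + 1 := by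
    intro v
    rw [hq v w, hw1]
    have := zmod2_add_self (1 : ZMod 2)
    linear_combination (-1 : ZMod 2) * this
  unfold charSum
  rw [← Fintype.sum_equiv (Equiv.addRight w) (fun v => chi (q (v + w)))
    (fun v => chi (q v)) (fun v => rfl), ← Finset.sum_neg_distrib]
  refine Finset.sum_congr rfl fun v _ => ?_
  show chi (q v + pol m v w) = -chi (q (v + w))
  rw [e v, chi_add, chi_one]; ring

theorem charSum_add_pol_of_zero {m : ℕ} {q : (Fin m ⊕ Fin m → ZMod 2) → ZMod 2} (hq : Polarizes m q)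
    (w : Fin m ⊕ Fin m → ZMod 2) (hw : q w = 0) :
    charSum m (fun v => q v + pol m v w) = charSum m q := by
  have : (fun v => q v + pol m v w) = fun v => q ((transv m w).toEquiv v) := by
    funext v
    exact (hq.comp_transv w hw v).symm
  rw [this]
  exact charSum_comp_equiv m q (transv m w).toEquiv

/-- The finite set of elements of a subspace. -/
noncomputable def subFin {m : ℕ} (U : Submodule (ZMod 2) (Fin m ⊕ Fin m → ZMod 2)) :
    Finset (Fin m ⊕ Fin m → ZMod 2) :=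
  Finset.univ.filter (fun v => v ∈ U)

theorem mem_subFin {m : ℕ} (U : Submodule (ZMod 2) (Fin m ⊕ Fin m → ZMod 2))
    (v : Fin m ⊕ Fin m → ZMod 2) : v ∈ subFin U ↔ v ∈ U := by
  simp [subFin]

theorem card_subFin {m : ℕ} (U : Submodule (ZMod 2) (Fin m ⊕ Fin m → ZMod 2)) :
    (subFin U).card = 2 ^ Module.finrank (ZMod 2) U := by
  have h1 : Fintype.card U = (subFin U).card := by
    unfold subFin
    rw [Fintype.card_subtype]
  rw [← h1, Module.card_eq_pow_finrank (K := ZMod 2) (V := U), ZMod.card]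

/-- `h(v) = Σ_{u ∈ U} χ(f(v, u))`. -/
noncomputable def hSum {m : ℕ} (U : Submodule (ZMod 2) (Fin m ⊕ Fin m → ZMod 2))
    (v : Fin m ⊕ Fin m → ZMod 2) : ℤ :=
  ∑ u ∈ subFin U, chi (pol m v u)

theorem hSum_of_orth {m : ℕ} (U : Submodule (ZMod 2) (Fin m ⊕ Fin m → ZMod 2))
    (v : Fin m ⊕ Fin m → ZMod 2) (hv : ∀ u ∈ U, pol m v u = 0) :
    hSum U v = (subFin U).card := by
  unfold hSum
  rw [Finset.sum_congr rfl (fun u hu => by rw [hv u ((mem_subFin U u).mp hu), chi_zero])]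
  simp

theorem hSum_of_not_orth {m : ℕ} (U : Submodule (ZMod 2) (Fin m ⊕ Fin m → ZMod 2))
    (v : Fin m ⊕ Fin m → ZMod 2) (hv : ¬ ∀ u ∈ U, pol m v u = 0) :
    hSum U v = 0 := by
  have hv' : ∃ u₀ ∈ U, pol m v u₀ ≠ 0 := by
    by_contra h
    exact hv (fun u hu => by_contra fun h0 => h ⟨u, hu, h0⟩)
  obtain ⟨u₀, hu₀, h0⟩ := hv'
  have h1 : pol m v u₀ = 1 := by
    rcases zmod2_eq_zero_or_one (pol m v u₀) with h | h
    · exact absurd h h0
    · exact h
  unfold hSum
  have h2 : ∑ u ∈ subFin U, chi (pol m v u) = ∑ u ∈ subFin U, chi (pol m v (u + u₀)) := by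
    symm
    refine Finset.sum_equiv (Equiv.addRight u₀) ?_ (fun u _ => rfl)
    intro u
    rw [mem_subFin, mem_subFin]
    show u ∈ U ↔ u + u₀ ∈ U
    constructor
    · intro h; exact U.add_mem h hu₀
    · intro h
      have := U.sub_mem h hu₀
      simpa using this
  have h3 : ∑ u ∈ subFin U, chi (pol m v (u + u₀)) = - ∑ u ∈ subFin U, chi (pol m v u) := by
    rw [← Finset.sum_neg_distrib]
    refine Finset.sum_congr rfl fun u _ => ?_
    rw [pol_add_right, h1, chi_add, chi_one]; ring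
  omega

theorem hSum_nonneg {m : ℕ} (U : Submodule (ZMod 2) (Fin m ⊕ Fin m → ZMod 2))
    (v : Fin m ⊕ Fin m → ZMod 2) : 0 ≤ hSum U v := by
  by_cases hv : ∀ u ∈ U, pol m v u = 0
  · rw [hSum_of_orth U v hv]; positivity
  · rw [hSum_of_not_orth U v hv]

theorem sum_hSum {m : ℕ} (U : Submodule (ZMod 2) (Fin m ⊕ Fin m → ZMod 2)) :
    ∑ v : Fin m ⊕ Fin m → ZMod 2, hSum U v = 2 ^ (2 * m) := by
  unfold hSum
  rw [Finset.sum_comm]
  have h2 : ∀ t : Fin m ⊕ Fin m → ZMod 2,
      ∑ v : Fin m ⊕ Fin m → ZMod 2, chi (pol m v t)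
        = if t = 0 then (2 : ℤ) ^ (2 * m) else 0 := by
    intro t
    split_ifs with ht
    · subst ht
      simp only [pol_zero_right, chi_zero, Finset.sum_const,
        Finset.card_univ, nsmul_eq_mul, mul_one]
      simp
      ring
    · exact sum_chi_pol m t ht
  rw [Finset.sum_congr rfl (fun t _ => h2 t)]
  rw [Finset.sum_ite_eq' (subFin U) 0]
  rw [if_pos ((mem_subFin U 0).mpr U.zero_mem)]

/-- A totally isotropic subspace has at most `2^m` elements: `|U|² ≤ 2^(2m)`. -/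
theorem card_sq_le_of_isotropic {m : ℕ} (U : Submodule (ZMod 2) (Fin m ⊕ Fin m → ZMod 2))
    (hU : ∀ u ∈ U, ∀ u' ∈ U, pol m u u' = 0) :
    ((subFin U).card : ℤ) * (subFin U).card ≤ 2 ^ (2 * m) := by
  rw [← sum_hSum U]
  have h1 : ∑ v ∈ subFin U, hSum U v = ((subFin U).card : ℤ) * (subFin U).card := by
    rw [Finset.sum_congr rfl (fun v hv => hSum_of_orth U v (hU v ((mem_subFin U v).mp hv)))]
    simp
  rw [← h1]
  exact Finset.sum_le_sum_of_subset_of_nonneg (Finset.subset_univ _) (fun v _ _ => hSum_nonneg U v)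

theorem finrank_le_of_isotropic {m : ℕ} (U : Submodule (ZMod 2) (Fin m ⊕ Fin m → ZMod 2))
    (hU : ∀ u ∈ U, ∀ u' ∈ U, pol m u u' = 0) :
    Module.finrank (ZMod 2) U ≤ m := by
  have h := card_sq_le_of_isotropic U hU
  rw [card_subFin] at h
  have h2 : (2 : ℤ) ^ (2 * Module.finrank (ZMod 2) U) ≤ 2 ^ (2 * m) := by
    calc (2 : ℤ) ^ (2 * Module.finrank (ZMod 2) U)
        = ((2 ^ Module.finrank (ZMod 2) U : ℕ) : ℤ) * ((2 ^ Module.finrank (ZMod 2) U : ℕ) : ℤ) := by
          push_cast; ring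
      _ ≤ 2 ^ (2 * m) := h
  have h3 : 2 * Module.finrank (ZMod 2) U ≤ 2 * m := by
    by_contra hlt
    have hlt' : 2 * m < 2 * Module.finrank (ZMod 2) U := by omega
    have : (2 : ℤ) ^ (2 * m) < 2 ^ (2 * Module.finrank (ZMod 2) U) :=
      pow_lt_pow_right₀ (by norm_num) hlt'
    omega
  omega

/-- Key identity: `|U| · S(q) = Σ_v χ(q v) h(v)` for `U` totally singular. -/
theorem card_mul_charSum {m : ℕ} {q : (Fin m ⊕ Fin m → ZMod 2) → ZMod 2} (hq : Polarizes m q)
    (U : Submodule (ZMod 2) (Fin m ⊕ Fin m → ZMod 2)) (hU : ∀ u ∈ U, q u = 0) :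
    ((subFin U).card : ℤ) * charSum m q = ∑ v : Fin m ⊕ Fin m → ZMod 2, chi (q v) * hSum U v := by
  have h1 : ∀ u ∈ subFin U, charSum m q = ∑ v : Fin m ⊕ Fin m → ZMod 2, chi (q v) * chi (pol m v u) := by
    intro u hu
    have hu' := hU u ((mem_subFin U u).mp hu)
    unfold charSum
    rw [← Fintype.sum_equiv (Equiv.addRight u) (fun v => chi (q (v + u)))
      (fun v => chi (q v)) (fun v => rfl)]
    refine Finset.sum_congr rfl fun v _ => ?_
    rw [hq v u, hu', add_zero, chi_add]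
  have h2 : ((subFin U).card : ℤ) * charSum m q = ∑ u ∈ subFin U, charSum m q := by
    simp
  rw [h2, Finset.sum_congr rfl h1, Finset.sum_comm]
  refine Finset.sum_congr rfl fun v _ => ?_
  unfold hSum
  rw [Finset.mul_sum]

theorem isotropic_of_singular {m : ℕ} {q : (Fin m ⊕ Fin m → ZMod 2) → ZMod 2} (hq : Polarizes m q)
    (U : Submodule (ZMod 2) (Fin m ⊕ Fin m → ZMod 2)) (hU : ∀ u ∈ U, q u = 0) :
    ∀ u ∈ U, ∀ u' ∈ U, pol m u u' = 0 := by
  intro u hu u' hu'
  have h := hq u u'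
  rw [hU u hu, hU u' hu', hU _ (U.add_mem hu hu'), zero_add, zero_add] at h
  exact h.symm

/-- Lower bound: `|U| · S(q) ≥ 2 |U|² - 2^(2m)` for `U` totally singular. -/
theorem card_mul_charSum_ge {m : ℕ} {q : (Fin m ⊕ Fin m → ZMod 2) → ZMod 2} (hq : Polarizes m q)
    (U : Submodule (ZMod 2) (Fin m ⊕ Fin m → ZMod 2)) (hU : ∀ u ∈ U, q u = 0) :
    2 * (((subFin U).card : ℤ) * (subFin U).card) - 2 ^ (2 * m)
      ≤ ((subFin U).card : ℤ) * charSum m q := by
  rw [card_mul_charSum hq U hU]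
  have hiso := isotropic_of_singular hq U hU
  have hsplit : ∀ g : (Fin m ⊕ Fin m → ZMod 2) → ℤ,
      ∑ v : Fin m ⊕ Fin m → ZMod 2, g v
        = ∑ v ∈ subFin U, g v + ∑ v ∈ (subFin U)ᶜ, g v := by
    intro g
    rw [Finset.sum_add_sum_compl]
  have h1 : ∑ v ∈ subFin U, chi (q v) * hSum U v = ((subFin U).card : ℤ) * (subFin U).card := by
    rw [Finset.sum_congr rfl (fun v hv => by
      rw [hU v ((mem_subFin U v).mp hv), chi_zero, one_mul,
        hSum_of_orth U v (hiso v ((mem_subFin U v).mp hv))])]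
    simp
  have h1' : ∑ v ∈ subFin U, hSum U v = ((subFin U).card : ℤ) * (subFin U).card := by
    rw [Finset.sum_congr rfl (fun v hv => hSum_of_orth U v (hiso v ((mem_subFin U v).mp hv)))]
    simp
  have h2 : - ∑ v ∈ (subFin U)ᶜ, hSum U v ≤ ∑ v ∈ (subFin U)ᶜ, chi (q v) * hSum U v := by
    rw [← Finset.sum_neg_distrib]
    refine Finset.sum_le_sum fun v _ => ?_
    have hn := hSum_nonneg U v
    have hc : -1 ≤ chi (q v) := by
      unfold chi; split_ifs <;> norm_num
    nlinarith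
  have h3 := hsplit (fun v => hSum U v)
  rw [sum_hSum U, h1'] at h3
  rw [hsplit (fun v => chi (q v) * hSum U v), h1]
  linarith

/-- If `S(q) < 0` then every totally singular subspace has dimension `< m`. -/
theorem finrank_lt_of_charSum_neg {m : ℕ} {q : (Fin m ⊕ Fin m → ZMod 2) → ZMod 2}
    (hq : Polarizes m q) (hneg : charSum m q < 0)
    (U : Submodule (ZMod 2) (Fin m ⊕ Fin m → ZMod 2)) (hU : ∀ u ∈ U, q u = 0) :
    Module.finrank (ZMod 2) U < m := by
  have h := card_mul_charSum_ge hq U hU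
  have hpos : (0 : ℤ) < (subFin U).card := by
    rw [card_subFin]; positivity
  have h1 : ((subFin U).card : ℤ) * charSum m q < 0 := mul_neg_of_pos_of_neg hpos hneg
  have h2 : 2 * (((subFin U).card : ℤ) * (subFin U).card) < 2 ^ (2 * m) := by linarith
  rw [card_subFin] at h2
  have h3 : (2 : ℤ) ^ (2 * Module.finrank (ZMod 2) U + 1) < 2 ^ (2 * m) := by
    calc (2 : ℤ) ^ (2 * Module.finrank (ZMod 2) U + 1)
        = 2 * (((2 ^ Module.finrank (ZMod 2) U : ℕ) : ℤ) * ((2 ^ Module.finrank (ZMod 2) U : ℕ) : ℤ)) := by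
          push_cast; ring
      _ < 2 ^ (2 * m) := h2
  by_contra hlt
  have hle : 2 * m ≤ 2 * Module.finrank (ZMod 2) U + 1 := by omega
  have : (2 : ℤ) ^ (2 * m) ≤ 2 ^ (2 * Module.finrank (ZMod 2) U + 1) :=
    pow_le_pow_right₀ (by norm_num) hle
  omega

/-- If `q` has a totally singular subspace of dimension `≥ m` then `S(q) > 0`. -/
theorem charSum_pos_of_singular {m : ℕ} {q : (Fin m ⊕ Fin m → ZMod 2) → ZMod 2}
    (hq : Polarizes m q)
    (U : Submodule (ZMod 2) (Fin m ⊕ Fin m → ZMod 2)) (hU : ∀ u ∈ U, q u = 0)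
    (hdim : m ≤ Module.finrank (ZMod 2) U) : 0 < charSum m q := by
  by_contra hneg
  have hne := charSum_ne_zero hq
  have hneg' : charSum m q < 0 := by omega
  have := finrank_lt_of_charSum_neg hq hneg' U hU
  omega

end Cfsg.Agent.H48
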