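import Cfsg.Agent.H48.QuadF2b

set_option autoImplicit false

/-!
Helper lemmas (helper48): the plus-type and minus-type forms over the field with two elements.
-/

namespace Cfsg.Agent.H48

theorem polarizes_plus (m : ℕ) : Polarizes m (Cfsg.quadFormPlus m (ZMod 2)) := by
  intro u v
  unfold pol
  ring

/-- The inclusion of the first `m` coordinates. -/
def inlMap (m : ℕ) : (Fin m → ZMod 2) →ₗ[ZMod 2] (Fin m ⊕ Fin m → ZMod 2) where
  toFun x := Sum.elim x 0
  map_add' x y := by
    funext j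
    rcases j with i | i <;> simp
  map_smul' c x := by
    funext j
    rcases j with i | i <;> simp

theorem inlMap_injective (m : ℕ) : Function.Injective (inlMap m) := by
  intro x y h
  funext i
  have := congrFun h (Sum.inl i)
  simpa [inlMap] using this

theorem quadFormPlus_inlMap (m : ℕ) (x : Fin m → ZMod 2) :
    Cfsg.quadFormPlus m (ZMod 2) (inlMap m x) = 0 := by
  unfold Cfsg.quadFormPlus
  simp [inlMap]

theorem finrank_range_inlMap (m : ℕ) :
    Module.finrank (ZMod 2) (LinearMap.range (inlMap m)) = m := by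
  rw [LinearMap.finrank_range_of_inj (inlMap_injective m)]
  simp

theorem charSum_plus_pos (m : ℕ) : 0 < charSum m (Cfsg.quadFormPlus m (ZMod 2)) := by
  refine charSum_pos_of_singular (polarizes_plus m) (LinearMap.range (inlMap m)) ?_ ?_
  · rintro _ ⟨x, rfl⟩
    exact quadFormPlus_inlMap m x
  · rw [finrank_range_inlMap]

theorem charSum_plus (m : ℕ) : charSum m (Cfsg.quadFormPlus m (ZMod 2)) = 2 ^ m := by
  have h1 := charSum_sq (polarizes_plus m)
  have h2 := charSum_plus_pos m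
  have h3 : (charSum m (Cfsg.quadFormPlus m (ZMod 2)) - 2 ^ m) *
      (charSum m (Cfsg.quadFormPlus m (ZMod 2)) + 2 ^ m) = 0 := by
    have : (2 : ℤ) ^ (2 * m) = 2 ^ m * 2 ^ m := by rw [two_mul, pow_add]
    linear_combination h1 - this
  rcases mul_eq_zero.mp h3 with h | h
  · linarith
  · have : (0 : ℤ) < 2 ^ m := by positivity
    linarith

/-- Index bijection between the coordinates of the minus-type form in dimension `2k+2` and the
coordinates of the plus-type form in dimension `2(k+1)`. -/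
def sigmaEquiv (k : ℕ) : (Fin k ⊕ Fin k) ⊕ Fin 2 ≃ Fin (k + 1) ⊕ Fin (k + 1) where
  toFun := Sum.elim (Sum.map Fin.castSucc Fin.castSucc)
    (fun j => if j = 0 then Sum.inl (Fin.last k) else Sum.inr (Fin.last k))
  invFun := Sum.elim (Fin.lastCases (Sum.inr 0) (fun i => Sum.inl (Sum.inl i)))
    (Fin.lastCases (Sum.inr 1) (fun i => Sum.inl (Sum.inr i)))
  left_inv := by
    rintro ((i | i) | j)
    · simp
    · simp
    · fin_cases j <;> simp
  right_inv := by
    rintro (i | i)
    · refine Fin.lastCases ?_ (fun i => ?_) i <;> simp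
    · refine Fin.lastCases ?_ (fun i => ?_) i <;> simp

/-- The coordinate change as a linear equivalence. -/
def sigmaLin (k : ℕ) :
    (Fin (k + 1) ⊕ Fin (k + 1) → ZMod 2) ≃ₗ[ZMod 2] ((Fin k ⊕ Fin k) ⊕ Fin 2 → ZMod 2) :=
  LinearEquiv.funCongrLeft (ZMod 2) (ZMod 2) (sigmaEquiv k)

theorem sigmaLin_apply (k : ℕ) (v : Fin (k + 1) ⊕ Fin (k + 1) → ZMod 2)
    (j : (Fin k ⊕ Fin k) ⊕ Fin 2) : sigmaLin k v j = v (sigmaEquiv k j) := rfl

/-- The special vector `w₀ = e_last + f_last`. -/
def w0 (k : ℕ) : Fin (k + 1) ⊕ Fin (k + 1) → ZMod 2 :=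
  Sum.elim (Pi.single (Fin.last k) 1) (Pi.single (Fin.last k) 1)

theorem pol_w0 (k : ℕ) (v : Fin (k + 1) ⊕ Fin (k + 1) → ZMod 2) :
    pol (k + 1) v (w0 k) = v (Sum.inl (Fin.last k)) + v (Sum.inr (Fin.last k)) := by
  rw [pol_eq, Fin.sum_univ_castSucc]
  simp [w0, Fin.castSucc_ne_last]

theorem quadFormPlus_w0 (k : ℕ) : Cfsg.quadFormPlus (k + 1) (ZMod 2) (w0 k) = 1 := by
  unfold Cfsg.quadFormPlus
  rw [Fin.sum_univ_castSucc]
  simp [w0, Fin.castSucc_ne_last]

/-- The minus-type form transported to the coordinates of the plus-type form. -/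
def minusT (k : ℕ) (v : Fin (k + 1) ⊕ Fin (k + 1) → ZMod 2) : ZMod 2 :=
  Cfsg.quadFormMinus k (ZMod 2) 1 1 (sigmaLin k v)

theorem minusT_eq (k : ℕ) (v : Fin (k + 1) ⊕ Fin (k + 1) → ZMod 2) :
    minusT k v = Cfsg.quadFormPlus (k + 1) (ZMod 2) v + pol (k + 1) v (w0 k) := by
  rw [pol_w0]
  unfold minusT Cfsg.quadFormMinus Cfsg.quadFormPlus
  rw [Fin.sum_univ_castSucc]
  simp only [sigmaLin_apply]
  have e1 : ∀ i : Fin k, sigmaEquiv k (Sum.inl (Sum.inl i)) = Sum.inl i.castSucc := fun i => rfl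
  have e2 : ∀ i : Fin k, sigmaEquiv k (Sum.inl (Sum.inr i)) = Sum.inr i.castSucc := fun i => rfl
  have e3 : sigmaEquiv k (Sum.inr 0) = Sum.inl (Fin.last k) := rfl
  have e4 : sigmaEquiv k (Sum.inr 1) = Sum.inr (Fin.last k) := rfl
  simp only [e1, e2, e3, e4]
  have s1 := zmod2_mul_self (v (Sum.inl (Fin.last k)))
  have s2 := zmod2_mul_self (v (Sum.inr (Fin.last k)))
  linear_combination s1 + s2

theorem polarizes_minusT (k : ℕ) : Polarizes (k + 1) (minusT k) := by
  have h := (polarizes_plus (k + 1)).add_pol (w0 k)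
  have e : minusT k = fun v => Cfsg.quadFormPlus (k + 1) (ZMod 2) v + pol (k + 1) v (w0 k) := by
    funext v; exact minusT_eq k v
  rw [e]; exact h

theorem charSum_minusT (k : ℕ) : charSum (k + 1) (minusT k) = - 2 ^ (k + 1) := by
  have e : minusT k = fun v => Cfsg.quadFormPlus (k + 1) (ZMod 2) v + pol (k + 1) v (w0 k) := by
    funext v; exact minusT_eq k v
  rw [e, charSum_add_pol_of_one (polarizes_plus (k + 1)) (w0 k) (quadFormPlus_w0 k), charSum_plus]

end Cfsg.Agent.H48
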