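import Cfsg.Agent.H48.QuadF2c

set_option autoImplicit false

/-!
Helper lemmas (helper48): classification and count of the quadratic forms over the field with
two elements polarizing to the standard alternating form.
-/

namespace Cfsg.Agent.H48

/-- The form `Q₀ + f(·, w)`. -/
def qw (m : ℕ) (w : Fin m ⊕ Fin m → ZMod 2) : (Fin m ⊕ Fin m → ZMod 2) → ZMod 2 :=
  fun v => Cfsg.quadFormPlus m (ZMod 2) v + pol m v w

theorem polarizes_qw (m : ℕ) (w : Fin m ⊕ Fin m → ZMod 2) : Polarizes m (qw m w) :=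
  (polarizes_plus m).add_pol w

theorem qw_injective (m : ℕ) : Function.Injective (qw m) := by
  intro w w' h
  by_contra hne
  have hne' : w + w' ≠ 0 := by
    intro h0
    apply hne
    have h1 : w = w + (w' + w') := by
      have : w' + w' = 0 := by
        funext j; exact zmod2_add_self _
      rw [this, add_zero]
    rw [h1, ← add_assoc, h0, zero_add]
  obtain ⟨u, hu⟩ := pol_nondeg m (w + w') hne'
  have h2 := congrFun h u
  unfold qw at h2
  rw [pol_add_right] at hu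
  have h3 : pol m u w = pol m u w' := add_left_cancel h2
  rw [h3, zmod2_add_self] at hu
  exact zero_ne_one hu

theorem exists_qw_eq {m : ℕ} {q : (Fin m ⊕ Fin m → ZMod 2) → ZMod 2} (hq : Polarizes m q) :
    ∃ w, q = qw m w := by
  classical
  -- the additive difference
  let a : (Fin m ⊕ Fin m → ZMod 2) →+ ZMod 2 :=
    AddMonoidHom.mk' (fun v => q v - Cfsg.quadFormPlus m (ZMod 2) v) (by
      intro u v
      have h1 := hq u v
      have h2 := polarizes_plus m u v
      rw [h1, h2]; ring)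
  let aL : (Fin m ⊕ Fin m → ZMod 2) →ₗ[ZMod 2] ZMod 2 := a.toZModLinearMap 2
  have haL : ∀ v, aL v = q v - Cfsg.quadFormPlus m (ZMod 2) v := fun v => rfl
  refine ⟨Sum.elim (fun i => aL (Pi.single (Sum.inr i) 1)) (fun i => aL (Pi.single (Sum.inl i) 1)), ?_⟩
  funext v
  have h1 := LinearMap.pi_apply_eq_sum_univ aL v
  have hs : ∀ j : Fin m ⊕ Fin m, (fun j' => if j = j' then (1 : ZMod 2) else 0) = Pi.single j 1 := by
    intro j
    funext j'
    simp [Pi.single_apply, eq_comm]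
  simp only [hs] at h1
  rw [Fintype.sum_sum_type] at h1
  unfold qw
  rw [pol_eq]
  simp only [Sum.elim_inl, Sum.elim_inr]
  have h2 : q v = Cfsg.quadFormPlus m (ZMod 2) v + aL v := by rw [haL]; ring
  rw [h2, h1, ← Finset.sum_add_distrib]
  congr 1
  refine Finset.sum_congr rfl fun i _ => ?_
  simp only [smul_eq_mul]
  ring

theorem transv_transv (m : ℕ) (b v : Fin m ⊕ Fin m → ZMod 2) :
    transv m b (transv m b v) = v := by
  rw [transv_apply, transv_apply]
  rw [pol_add_left, pol_smul_left, pol_self, mul_zero, add_zero, add_assoc, ← add_smul,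
    zmod2_add_self, zero_smul, add_zero]

/-- Equivalent to the plus-type form. -/
def IsPlusType (m : ℕ) (q : (Fin m ⊕ Fin m → ZMod 2) → ZMod 2) : Prop :=
  ∃ g : (Fin m ⊕ Fin m → ZMod 2) ≃ₗ[ZMod 2] (Fin m ⊕ Fin m → ZMod 2),
    ∀ v, q v = Cfsg.quadFormPlus m (ZMod 2) (g v)

/-- Equivalent to the minus-type form. -/
def IsMinusType (k : ℕ) (q : (Fin (k + 1) ⊕ Fin (k + 1) → ZMod 2) → ZMod 2) : Prop :=
  ∃ g : (Fin (k + 1) ⊕ Fin (k + 1) → ZMod 2) ≃ₗ[ZMod 2] ((Fin k ⊕ Fin k) ⊕ Fin 2 → ZMod 2),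
    ∀ v, q v = Cfsg.quadFormMinus k (ZMod 2) 1 1 (g v)

theorem qw_plus_of_zero (m : ℕ) (w : Fin m ⊕ Fin m → ZMod 2)
    (hw : Cfsg.quadFormPlus m (ZMod 2) w = 0) : IsPlusType m (qw m w) :=
  ⟨transv m w, fun v => ((polarizes_plus m).comp_transv w hw v).symm⟩

theorem qw_minus_of_one (k : ℕ) (w : Fin (k + 1) ⊕ Fin (k + 1) → ZMod 2)
    (hw : Cfsg.quadFormPlus (k + 1) (ZMod 2) w = 1) : IsMinusType k (qw (k + 1) w) := by
  have hb : qw (k + 1) w (w + w0 k) = 0 := by
    unfold qw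
    rw [polarizes_plus (k + 1) w (w0 k), hw, quadFormPlus_w0, pol_add_left, pol_self, zero_add,
      pol_comm (k + 1) (w0 k) w]
    have h1 := zmod2_add_self (1 : ZMod 2)
    have h2 := zmod2_add_self (pol (k + 1) w (w0 k))
    linear_combination h1 + h2
  have h1 : ∀ v, qw (k + 1) w (transv (k + 1) (w + w0 k) v) = minusT k v := by
    intro v
    rw [(polarizes_qw (k + 1) w).comp_transv (w + w0 k) hb v, minusT_eq]
    unfold qw
    rw [pol_add_right]
    have h2 := zmod2_add_self (pol (k + 1) v w)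
    linear_combination h2
  refine ⟨(transv (k + 1) (w + w0 k)).trans (sigmaLin k), fun v => ?_⟩
  have h2 := h1 (transv (k + 1) (w + w0 k) v)
  rw [transv_transv] at h2
  rw [h2]
  rfl

theorem charSum_of_plus {m : ℕ} {q : (Fin m ⊕ Fin m → ZMod 2) → ZMod 2} (hq : IsPlusType m q) :
    charSum m q = 2 ^ m := by
  obtain ⟨g, hg⟩ := hq
  have : q = fun v => Cfsg.quadFormPlus m (ZMod 2) (g.toEquiv v) := by
    funext v; exact hg v
  rw [this, charSum_comp_equiv, charSum_plus]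

theorem charSum_of_minus {k : ℕ} {q : (Fin (k + 1) ⊕ Fin (k + 1) → ZMod 2) → ZMod 2}
    (hq : IsMinusType k q) : charSum (k + 1) q = - 2 ^ (k + 1) := by
  obtain ⟨g, hg⟩ := hq
  rw [← charSum_minusT]
  unfold charSum
  have h1 : ∑ v : Fin (k + 1) ⊕ Fin (k + 1) → ZMod 2, chi (q v)
      = ∑ v' : (Fin k ⊕ Fin k) ⊕ Fin 2 → ZMod 2, chi (Cfsg.quadFormMinus k (ZMod 2) 1 1 v') :=
    Fintype.sum_equiv g.toEquiv _ _ (fun v => by rw [hg v]; rfl)
  have h2 : ∑ v : Fin (k + 1) ⊕ Fin (k + 1) → ZMod 2, chi (minusT k v)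
      = ∑ v' : (Fin k ⊕ Fin k) ⊕ Fin 2 → ZMod 2, chi (Cfsg.quadFormMinus k (ZMod 2) 1 1 v') :=
    Fintype.sum_equiv (sigmaLin k).toEquiv _ _ (fun v => rfl)
  rw [h1, h2]

theorem charSum_qw_of_zero (m : ℕ) (w : Fin m ⊕ Fin m → ZMod 2)
    (hw : Cfsg.quadFormPlus m (ZMod 2) w = 0) : charSum m (qw m w) = 2 ^ m := by
  unfold qw
  rw [charSum_add_pol_of_zero (polarizes_plus m) w hw, charSum_plus]

theorem charSum_qw_of_one (m : ℕ) (w : Fin m ⊕ Fin m → ZMod 2)
    (hw : Cfsg.quadFormPlus m (ZMod 2) w = 1) : charSum m (qw m w) = - 2 ^ m := by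
  unfold qw
  rw [charSum_add_pol_of_one (polarizes_plus m) w hw, charSum_plus]

theorem qw_plus_iff (m : ℕ) (w : Fin m ⊕ Fin m → ZMod 2) :
    IsPlusType m (qw m w) ↔ Cfsg.quadFormPlus m (ZMod 2) w = 0 := by
  constructor
  · intro h
    rcases zmod2_eq_zero_or_one (Cfsg.quadFormPlus m (ZMod 2) w) with h0 | h1
    · exact h0
    · have e1 := charSum_of_plus h
      have e2 := charSum_qw_of_one m w h1
      have : (0 : ℤ) < 2 ^ m := by positivity
      omega
  · exact qw_plus_of_zero m w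

theorem qw_minus_iff (k : ℕ) (w : Fin (k + 1) ⊕ Fin (k + 1) → ZMod 2) :
    IsMinusType k (qw (k + 1) w) ↔ Cfsg.quadFormPlus (k + 1) (ZMod 2) w = 1 := by
  constructor
  · intro h
    rcases zmod2_eq_zero_or_one (Cfsg.quadFormPlus (k + 1) (ZMod 2) w) with h0 | h1
    · have e1 := charSum_of_minus h
      have e2 := charSum_qw_of_zero (k + 1) w h0
      have : (0 : ℤ) < 2 ^ (k + 1) := by positivity
      omega
    · exact h1
  · exact qw_minus_of_one k w

/-- Counting forms with a property through the parametrization `w ↦ Q₀ + f(·, w)`. -/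
theorem card_polarizes_and (m : ℕ) (T : ((Fin m ⊕ Fin m → ZMod 2) → ZMod 2) → Prop)
    (R : (Fin m ⊕ Fin m → ZMod 2) → Prop) (h : ∀ w, T (qw m w) ↔ R w) :
    Nat.card {q : (Fin m ⊕ Fin m → ZMod 2) → ZMod 2 // Polarizes m q ∧ T q}
      = Nat.card {w : Fin m ⊕ Fin m → ZMod 2 // R w} := by
  symm
  refine Nat.card_congr (Equiv.ofBijective
    (fun w : {w : Fin m ⊕ Fin m → ZMod 2 // R w} =>
      (⟨qw m w.1, polarizes_qw m w.1, (h w.1).mpr w.2⟩ :
        {q : (Fin m ⊕ Fin m → ZMod 2) → ZMod 2 // Polarizes m q ∧ T q})) ⟨?_, ?_⟩)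
  · intro w w' hww
    apply Subtype.ext
    apply qw_injective m
    exact congrArg Subtype.val hww
  · rintro ⟨q, hq, hT⟩
    obtain ⟨w, rfl⟩ := exists_qw_eq hq
    exact ⟨⟨w, (h w).mp hT⟩, rfl⟩

theorem card_polarizes (m : ℕ) :
    Nat.card {q : (Fin m ⊕ Fin m → ZMod 2) → ZMod 2 // Polarizes m q} = 2 ^ (2 * m) := by
  have h := card_polarizes_and m (fun _ => True) (fun _ => True) (fun _ => Iff.rfl)
  have e1 : Nat.card {q : (Fin m ⊕ Fin m → ZMod 2) → ZMod 2 // Polarizes m q}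
      = Nat.card {q : (Fin m ⊕ Fin m → ZMod 2) → ZMod 2 // Polarizes m q ∧ True} :=
    Nat.card_congr (Equiv.subtypeEquivRight (fun q => by simp))
  rw [e1, h]
  rw [Nat.card_congr (Equiv.subtypeUnivEquiv (fun _ => trivial))]
  rw [Nat.card_eq_fintype_card]
  simp
  ring

theorem card_zeros_ones (m : ℕ) :
    (Nat.card {w : Fin m ⊕ Fin m → ZMod 2 // Cfsg.quadFormPlus m (ZMod 2) w = 0} : ℤ)
        - Nat.card {w : Fin m ⊕ Fin m → ZMod 2 // Cfsg.quadFormPlus m (ZMod 2) w = 1} = 2 ^ m ∧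
    (Nat.card {w : Fin m ⊕ Fin m → ZMod 2 // Cfsg.quadFormPlus m (ZMod 2) w = 0} : ℤ)
        + Nat.card {w : Fin m ⊕ Fin m → ZMod 2 // Cfsg.quadFormPlus m (ZMod 2) w = 1}
        = 2 ^ (2 * m) := by
  classical
  have hc0 : Nat.card {w : Fin m ⊕ Fin m → ZMod 2 // Cfsg.quadFormPlus m (ZMod 2) w = 0}
      = (Finset.univ.filter (fun w : Fin m ⊕ Fin m → ZMod 2 =>
          Cfsg.quadFormPlus m (ZMod 2) w = 0)).card := by
    rw [Nat.card_eq_fintype_card, Fintype.card_subtype]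
  have hc1 : Nat.card {w : Fin m ⊕ Fin m → ZMod 2 // Cfsg.quadFormPlus m (ZMod 2) w = 1}
      = (Finset.univ.filter (fun w : Fin m ⊕ Fin m → ZMod 2 =>
          ¬ Cfsg.quadFormPlus m (ZMod 2) w = 0)).card := by
    rw [Nat.card_eq_fintype_card, Fintype.card_subtype]
    congr 1
    ext w
    simp only [Finset.mem_filter, Finset.mem_univ, true_and]
    rcases zmod2_eq_zero_or_one (Cfsg.quadFormPlus m (ZMod 2) w) with h | h <;> simp [h]
  have hsum := Finset.card_filter_add_card_filter_not (s := (Finset.univ : Finset (Fin m ⊕ Fin m → ZMod 2)))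
    (fun w : Fin m ⊕ Fin m → ZMod 2 => Cfsg.quadFormPlus m (ZMod 2) w = 0)
  have hS := charSum_plus m
  unfold charSum chi at hS
  rw [Finset.sum_ite] at hS
  simp only [Finset.sum_const, nsmul_eq_mul, mul_one, mul_neg] at hS
  have hcard : (Finset.univ : Finset (Fin m ⊕ Fin m → ZMod 2)).card = 2 ^ (2 * m) := by
    simp
    ring
  rw [hcard] at hsum
  rw [hc0, hc1]
  constructor
  · linarith
  · exact_mod_cast hsum

end Cfsg.Agent.H48
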