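import Mathlib
import Cfsg.Agent.H48.Sp2Sylow
import Cfsg.Agent.H43.SpTwoPart
import Cfsg.Agent.H50.SpCard
import Cfsg.Agent.H69.SymSylowC

set_option autoImplicit false

namespace Cfsg.Agent.H48

open Cfsg.Agent.H43

section wr

variable {F : Type*} [Field F] {n : ℕ}

/-- The subgroup `Q ≀ T` of `Sp₂ ≀ Sₙ`. -/
def wrSub2 (Q : Subgroup (Matrix.symplecticGroup (Fin 1) F))
    (T : Subgroup (Equiv.Perm (Fin n))) :
    Subgroup ((Fin n → Matrix.symplecticGroup (Fin 1) F) ⋊[spAut F n] Equiv.Perm (Fin n)) where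
  carrier := {k | (∀ i, k.left i ∈ Q) ∧ k.right ∈ T}
  one_mem' := ⟨fun i => Q.one_mem, T.one_mem⟩
  mul_mem' := by
    rintro a b ⟨ha1, ha2⟩ ⟨hb1, hb2⟩
    refine ⟨fun i => ?_, ?_⟩
    · rw [SemidirectProduct.mul_left]
      exact Q.mul_mem (ha1 i) (hb1 _)
    · rw [SemidirectProduct.mul_right]; exact T.mul_mem ha2 hb2
  inv_mem' := by
    rintro a ⟨ha1, ha2⟩
    refine ⟨fun i => ?_, ?_⟩
    · rw [SemidirectProduct.inv_left]
      exact Q.inv_mem (ha1 _)
    · rw [SemidirectProduct.inv_right]; exact T.inv_mem ha2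

theorem mem_wrSub2 (Q : Subgroup (Matrix.symplecticGroup (Fin 1) F))
    (T : Subgroup (Equiv.Perm (Fin n)))
    (k : (Fin n → Matrix.symplecticGroup (Fin 1) F) ⋊[spAut F n] Equiv.Perm (Fin n)) :
    k ∈ wrSub2 Q T ↔ (∀ i, k.left i ∈ Q) ∧ k.right ∈ T := Iff.rfl

theorem card_wrSub2 (Q : Subgroup (Matrix.symplecticGroup (Fin 1) F))
    (T : Subgroup (Equiv.Perm (Fin n))) :
    Nat.card (wrSub2 Q T) = Nat.card Q ^ n * Nat.card T := by
  have e : wrSub2 Q T ≃ (Fin n → Q) × T :=
    { toFun := fun k => (fun i => ⟨k.1.left i, k.2.1 i⟩, ⟨k.1.right, k.2.2⟩)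
      invFun := fun x => ⟨⟨fun i => (x.1 i).1, x.2.1⟩, ⟨fun i => (x.1 i).2, x.2.2⟩⟩
      left_inv := fun k => rfl
      right_inv := fun x => rfl }
  rw [Nat.card_congr e, Nat.card_prod, Nat.card_fun, Nat.card_fin]

theorem eab_wrSub2 {p : ℕ} (Q : Subgroup (Matrix.symplecticGroup (Fin 1) F))
    (T : Subgroup (Equiv.Perm (Fin n))) (hQ : EAb p Q) (hT : EAb p T) :
    EAb p (wrSub2 Q T) := by
  classical
  apply EAb.of_gen ({k | ∃ i, ∃ q ∈ Q, k = SemidirectProduct.inl (Pi.mulSingle i q)} ∪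
    {k | ∃ t ∈ T, k = SemidirectProduct.inr t})
  · intro k hk
    rw [← SemidirectProduct.inl_left_mul_inr_right k]
    apply Subgroup.mul_mem
    · have : k.left ∈ (Subgroup.closure
          ({k : (Fin n → Matrix.symplecticGroup (Fin 1) F) ⋊[spAut F n] Equiv.Perm (Fin n) |
            ∃ i, ∃ q ∈ Q, k = SemidirectProduct.inl (Pi.mulSingle i q)} ∪
          {k | ∃ t ∈ T, k = SemidirectProduct.inr t})).comap SemidirectProduct.inl := by
        apply Subgroup.pi_mem_of_mulSingle_mem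
        intro i
        rw [Subgroup.mem_comap]
        exact Subgroup.subset_closure (Or.inl ⟨i, k.left i, hk.1 i, rfl⟩)
      exact this
    · exact Subgroup.subset_closure (Or.inr ⟨k.right, hk.2, rfl⟩)
  · rintro s (⟨i, q, hq, rfl⟩ | ⟨t, ht, rfl⟩)
    · have hle : Q.map ((SemidirectProduct.inl (φ := spAut F n)).comp
          (MonoidHom.mulSingle (fun _ : Fin n => Matrix.symplecticGroup (Fin 1) F) i)) ≤
          wrSub2 Q T := by
        rintro _ ⟨q', hq', rfl⟩
        refine ⟨fun j => ?_, T.one_mem⟩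
        show (Pi.mulSingle i q' : Fin n → Matrix.symplecticGroup (Fin 1) F) j ∈ Q
        by_cases hj : j = i
        · subst hj; rw [Pi.mulSingle_eq_same]; exact hq'
        · rw [Pi.mulSingle_eq_of_ne hj]; exact Q.one_mem
      exact ⟨hle ⟨q, hq, rfl⟩,
        Subgroup.commutator_mono hle hle ((hQ.map _) _ ⟨q, hq, rfl⟩)⟩
    · have hle : T.map (SemidirectProduct.inr (φ := spAut F n)) ≤ wrSub2 Q T := by
        rintro _ ⟨t', ht', rfl⟩
        exact ⟨fun j => Q.one_mem, ht'⟩
      exact ⟨hle ⟨t, ht, rfl⟩,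
        Subgroup.commutator_mono hle hle ((hT.map _) _ ⟨t, ht, rfl⟩)⟩

/-- A Sylow `2`-subgroup of `Sp_{2n}(F)`, `F` finite of odd order, has elementary abelian
abelianization. -/
theorem eab_sylow_sp [Fintype F] (hF : Odd (Fintype.card F)) (n : ℕ)
    (P : Sylow 2 (Matrix.symplecticGroup (Fin n) F)) :
    EAb 2 (P : Subgroup (Matrix.symplecticGroup (Fin n) F)) := by
  classical
  obtain ⟨Q⟩ : Nonempty (Sylow 2 (Matrix.symplecticGroup (Fin 1) F)) := inferInstance
  obtain ⟨T⟩ : Nonempty (Sylow 2 (Equiv.Perm (Fin n))) := inferInstance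
  have hQ := eab_sylow_sp2 hF Q
  have hT : EAb 2 (T : Subgroup (Equiv.Perm (Fin n))) := by
    rw [eab_iff]
    exact fun x => (Cfsg.Agent.H69.genP_sylow_perm 2 n T).pow_mem_commutator x
  have hW := (eab_wrSub2 (Q : Subgroup _) (T : Subgroup _) hQ hT).map (spWreath F n)
  have hq1 : 1 < Fintype.card F := Fintype.one_lt_card
  have hc1 := Cfsg.Agent.H50.SpCard.card_sp (F := F) rfl 1
  have hcn := Cfsg.Agent.H50.SpCard.card_sp (F := F) rfl n
  have hdvd := sp_two_part_dvd (Fintype.card F) hF hq1 n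
  rw [← hc1, ← hcn] at hdvd
  have hcP : Nat.card (Equiv.Perm (Fin n)) = n.factorial := by
    rw [Nat.card_eq_fintype_card, Fintype.card_perm, Fintype.card_fin]
  have hc1pos : Nat.card (Matrix.symplecticGroup (Fin 1) F) ≠ 0 := Nat.card_pos.ne'
  have hcnpos : Nat.card (Matrix.symplecticGroup (Fin n) F) ≠ 0 := Nat.card_pos.ne'
  have hcard0 : Nat.card ((wrSub2 (Q : Subgroup (Matrix.symplecticGroup (Fin 1) F))
      (T : Subgroup (Equiv.Perm (Fin n)))).map (spWreath F n)) =
      2 ^ (n * (Nat.card (Matrix.symplecticGroup (Fin 1) F)).factorization 2 +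
        (n.factorial).factorization 2) := by
    rw [Subgroup.card_map_of_injective spWreath_injective, card_wrSub2,
      Sylow.card_eq_multiplicity, Sylow.card_eq_multiplicity, hcP, ← pow_mul, ← pow_add,
      mul_comm]
  have hle1 : (Nat.card (Matrix.symplecticGroup (Fin n) F)).factorization 2 ≤
      n * (Nat.card (Matrix.symplecticGroup (Fin 1) F)).factorization 2 +
        (n.factorial).factorization 2 := by
    have h1 := (Nat.prime_two.pow_dvd_iff_le_factorization
      (mul_ne_zero (pow_ne_zero n hc1pos) (Nat.factorial_ne_zero n))).mp hdvd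
    rw [Nat.factorization_mul (pow_ne_zero n hc1pos) (Nat.factorial_ne_zero n),
      Nat.factorization_pow] at h1
    simpa using h1
  have hle2 : n * (Nat.card (Matrix.symplecticGroup (Fin 1) F)).factorization 2 +
        (n.factorial).factorization 2 ≤
      (Nat.card (Matrix.symplecticGroup (Fin n) F)).factorization 2 := by
    rw [← Nat.prime_two.pow_dvd_iff_le_factorization hcnpos, ← hcard0]
    exact Subgroup.card_subgroup_dvd_card _
  have hcard : Nat.card ((wrSub2 (Q : Subgroup (Matrix.symplecticGroup (Fin 1) F))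
      (T : Subgroup (Equiv.Perm (Fin n)))).map (spWreath F n)) =
      2 ^ (Nat.card (Matrix.symplecticGroup (Fin n) F)).factorization 2 := by
    rw [hcard0, le_antisymm hle1 hle2]
  exact EAb.sylow_all (Sylow.ofCard _ hcard) P (by rw [Sylow.coe_ofCard]; exact hW)

end wr

end Cfsg.Agent.H48
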