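import Mathlib
import Cfsg.Prelude.Def_Classical
import Cfsg.Prelude.Def_Characters
import Cfsg.Agent.S0305
import Cfsg.Agent.H4.PaQb

/-!
helper48: piece S2548-ONE for helper78: `PΩ⁺_2(q)` is trivial, hence has the (trivial) Steinberg
character.
-/

set_option autoImplicit false

namespace Cfsg.Agent.H48.StO

open Matrix

/-- the sign homomorphism of a dihedral group -/
def dihSign (n : ℕ) : DihedralGroup n →* ℤˣ where
  toFun x := match x with
    | DihedralGroup.r _ => 1
    | DihedralGroup.sr _ => -1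
  map_one' := rfl
  map_mul' a b := by
    rcases a with i | i <;> rcases b with j | j <;> rfl

theorem dih_comm_of_sign (n : ℕ) (a b : DihedralGroup n) (ha : dihSign n a = 1)
    (hb : dihSign n b = 1) : a * b = b * a := by
  rcases a with i | i
  · rcases b with j | j
    · show DihedralGroup.r (i + j) = DihedralGroup.r (j + i)
      rw [add_comm]
    · exact absurd hb (by show ¬ ((-1 : ℤˣ) = 1); decide)
  · exact absurd ha (by show ¬ ((-1 : ℤˣ) = 1); decide)

/-- a group isomorphic to a dihedral group has commutative commutator subgroup -/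
theorem commutator_comm_of_dihedral {G : Type*} [Group G] (n : ℕ) (e : G ≃* DihedralGroup n)
    (x y : G) (hx : x ∈ commutator G) (hy : y ∈ commutator G) : x * y = y * x := by
  have hker := Abelianization.commutator_subset_ker ((dihSign n).comp e.toMonoidHom)
  have h1 : dihSign n (e x) = 1 := hker hx
  have h2 : dihSign n (e y) = 1 := hker hy
  apply e.injective
  rw [map_mul, map_mul]
  exact dih_comm_of_sign n _ _ h1 h2

theorem pomega_one_subsingleton {F : Type*} [Field F] [Fintype F] :
    Subsingleton (Cfsg.POmega F (Cfsg.quadFormPlus 1 F)) := by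
  obtain ⟨e⟩ := Cfsg.Agent.S0305.result (F := F) (q := Fintype.card F) rfl
  have hcomm : ∀ x y : ↥(Cfsg.Omega F (Cfsg.quadFormPlus 1 F)), x * y = y * x := by
    intro x y
    apply Subtype.ext
    exact commutator_comm_of_dihedral _ e x.1 y.1 x.2 y.2
  have htop : Subgroup.center ↥(Cfsg.Omega F (Cfsg.quadFormPlus 1 F)) = ⊤ := by
    rw [eq_top_iff]
    intro x _
    rw [Subgroup.mem_center_iff]
    intro y
    exact hcomm y x
  refine ⟨fun a b => ?_⟩
  obtain ⟨a, rfl⟩ := QuotientGroup.mk_surjective a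
  obtain ⟨b, rfl⟩ := QuotientGroup.mk_surjective b
  rw [QuotientGroup.eq, htop]
  exact Subgroup.mem_top _

/-- **S2548-ONE** -/
theorem oplus_steinberg_one {F : Type*} [Field F] [Fintype F] (p : ℕ) [Fact p.Prime] [CharP F p] :
    ∃ χ : Cfsg.POmega F (Cfsg.quadFormPlus 1 F) → ℂ,
      Cfsg.IsIrrCharacter (Cfsg.POmega F (Cfsg.quadFormPlus 1 F)) χ ∧
      ∀ P : Sylow p (Cfsg.POmega F (Cfsg.quadFormPlus 1 F)), χ 1 = Nat.card P ∧
        ∀ x : Cfsg.POmega F (Cfsg.quadFormPlus 1 F), x ∈ P → x ≠ 1 → χ x = 0 := by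
  have hsub : Subsingleton (Cfsg.POmega F (Cfsg.quadFormPlus 1 F)) := pomega_one_subsingleton
  refine ⟨fun _ => 1, Cfsg.Agent.H4.isIrrCharacter_one, fun P => ⟨?_, ?_⟩⟩
  · have h1 : Nat.card (P : Subgroup (Cfsg.POmega F (Cfsg.quadFormPlus 1 F))) = 1 := by
      rw [Nat.card_eq_one_iff_unique]
      exact ⟨⟨fun a b => Subtype.ext (Subsingleton.elim _ _)⟩, ⟨1⟩⟩
    rw [h1, Nat.cast_one]
  · intro x _ hx
    exact absurd (Subsingleton.elim x 1) hx

end Cfsg.Agent.H48.StO
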