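import Mathlib
import Cfsg.Agent.H48.QuadF2

set_option autoImplicit false

/-!
Helper lemmas (helper48): the "weight" quadratic form `Q(y) = ⌈wt(y)/2⌉ mod 2` on `F₂^κ`, its
polar form and its character sum.
-/

namespace Cfsg.Agent.H48

section
variable {κ : Type*} [Fintype κ]

/-- Hamming weight of a vector over the field with two elements. -/
def wt (y : κ → ZMod 2) : ℕ := ∑ i, (y i).val

/-- The weight form `⌈wt(y)/2⌉ mod 2`. -/
def wq (y : κ → ZMod 2) : ZMod 2 := (((wt y + 1) / 2 : ℕ) : ZMod 2)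

/-- The polar form of the weight form. -/
def wb (y y' : κ → ZMod 2) : ZMod 2 := ∑ i, y i * y' i + (∑ i, y i) * (∑ i, y' i)

theorem wt_add (y y' : κ → ZMod 2) : wt (y + y') + 2 * wt (y * y') = wt y + wt y' := by
  unfold wt
  rw [Finset.mul_sum, ← Finset.sum_add_distrib, ← Finset.sum_add_distrib]
  refine Finset.sum_congr rfl fun i _ => ?_
  simp only [Pi.add_apply, Pi.mul_apply]
  generalize y i = a
  generalize y' i = b
  revert a b
  decide

theorem natCast_wt (y : κ → ZMod 2) : ((wt y : ℕ) : ZMod 2) = ∑ i, y i := by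
  unfold wt
  rw [Nat.cast_sum]
  refine Finset.sum_congr rfl fun i _ => ?_
  exact ZMod.natCast_zmod_val _

theorem half_arith (a b c w : ℕ) (h : w + 2 * c = a + b) :
    (((w + 1) / 2 : ℕ) : ZMod 2) =
      (((a + 1) / 2 : ℕ) : ZMod 2) + (((b + 1) / 2 : ℕ) : ZMod 2) + (c : ZMod 2) +
        (a : ZMod 2) * (b : ZMod 2) := by
  have hN : (w + 1) / 2 + c + (a % 2) * (b % 2) = (a + 1) / 2 + (b + 1) / 2 := by
    rcases Nat.mod_two_eq_zero_or_one a with ha | ha <;>
      rcases Nat.mod_two_eq_zero_or_one b with hb | hb <;> rw [ha, hb] <;> omega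
  have hc := congrArg (fun n : ℕ => (n : ZMod 2)) hN
  simp only [Nat.cast_add, Nat.cast_mul, ZMod.natCast_mod] at hc
  have h1 := zmod2_add_self (c : ZMod 2)
  have h2 := zmod2_add_self ((a : ZMod 2) * (b : ZMod 2))
  linear_combination hc - h1 - h2

theorem wb_eq (y y' : κ → ZMod 2) :
    wb y y' = ((wt (y * y') : ℕ) : ZMod 2) + ((wt y : ℕ) : ZMod 2) * ((wt y' : ℕ) : ZMod 2) := by
  rw [natCast_wt, natCast_wt, natCast_wt]
  rfl

theorem wq_add (y y' : κ → ZMod 2) : wq (y + y') = wq y + wq y' + wb y y' := by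
  rw [wb_eq]
  unfold wq
  rw [half_arith (wt y) (wt y') (wt (y * y')) (wt (y + y')) (wt_add y y')]
  ring

theorem wb_self (y : κ → ZMod 2) : wb y y = 0 := by
  unfold wb
  have h1 : ∑ i, y i * y i = ∑ i, y i := Finset.sum_congr rfl fun i _ => zmod2_mul_self _
  rw [h1, zmod2_mul_self]
  exact zmod2_add_self _

theorem wb_add_left (y₁ y₂ y' : κ → ZMod 2) : wb (y₁ + y₂) y' = wb y₁ y' + wb y₂ y' := by
  unfold wb
  simp only [Pi.add_apply, add_mul, Finset.sum_add_distrib]
  ring

theorem wb_add_right (y y₁ y₂ : κ → ZMod 2) : wb y (y₁ + y₂) = wb y y₁ + wb y y₂ := by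
  unfold wb
  simp only [Pi.add_apply, mul_add, Finset.sum_add_distrib]
  ring

theorem wb_smul_left (c : ZMod 2) (y y' : κ → ZMod 2) : wb (c • y) y' = c * wb y y' := by
  unfold wb
  simp only [Pi.smul_apply, smul_eq_mul, mul_assoc, ← Finset.mul_sum]
  ring

theorem wb_smul_right (c : ZMod 2) (y y' : κ → ZMod 2) : wb y (c • y') = c * wb y y' := by
  unfold wb
  have h1 : ∑ i, y i * (c • y') i = c * ∑ i, y i * y' i := by
    rw [Finset.mul_sum]
    refine Finset.sum_congr rfl fun i _ => ?_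
    simp only [Pi.smul_apply, smul_eq_mul]
    ring
  have h2 : ∑ i, (c • y') i = c * ∑ i, y' i := by
    rw [Finset.mul_sum]
    rfl
  rw [h1, h2]
  ring

/-- The polar form as a bilinear form. -/
def wbForm (κ : Type*) [Fintype κ] : LinearMap.BilinForm (ZMod 2) (κ → ZMod 2) :=
  LinearMap.mk₂ (ZMod 2) wb wb_add_left wb_smul_left wb_add_right wb_smul_right

theorem wbForm_apply (y y' : κ → ZMod 2) : wbForm κ y y' = wb y y' := rfl

theorem wbForm_isAlt : (wbForm κ).IsAlt := fun y => wb_self y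

theorem wb_nondeg [DecidableEq κ] (hκ : Even (Fintype.card κ)) (y : κ → ZMod 2)
    (h : ∀ y', wb y y' = 0) : y = 0 := by
  have h1 : ∀ j, y j + ∑ i, y i = 0 := by
    intro j
    have h2 := h (Pi.single j 1)
    unfold wb at h2
    have h3 : ∑ i, y i * (Pi.single j (1 : ZMod 2) : κ → ZMod 2) i = y j := by
      rw [Finset.sum_eq_single j]
      · rw [Pi.single_eq_same, mul_one]
      · intro i _ hij
        rw [Pi.single_eq_of_ne hij, mul_zero]
      · intro hj
        exact absurd (Finset.mem_univ j) hj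
    have h4 : ∑ i, (Pi.single j (1 : ZMod 2) : κ → ZMod 2) i = 1 := by
      rw [Finset.sum_eq_single j]
      · rw [Pi.single_eq_same]
      · intro i _ hij
        rw [Pi.single_eq_of_ne hij]
      · intro hj
        exact absurd (Finset.mem_univ j) hj
    rw [h3, h4, mul_one] at h2
    exact h2
  have h5 : ∀ j, y j = ∑ i, y i := by
    intro j
    have h6 := zmod2_add_self (∑ i, y i)
    linear_combination h1 j - h6
  have h7 : ∑ i, y i = 0 := by
    have h8 : ∑ j, y j = ∑ _j : κ, ∑ i, y i := Finset.sum_congr rfl fun j _ => h5 j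
    rw [Finset.sum_const, Finset.card_univ] at h8
    obtain ⟨r, hr⟩ := hκ
    rw [hr, add_nsmul, zmod2_add_self] at h8
    exact h8
  funext j
  rw [h5 j, h7]
  rfl

theorem wt_comp_equiv {κ' : Type*} [Fintype κ'] (e : κ' ≃ κ) (y : κ → ZMod 2) :
    wt (y ∘ e) = wt y := by
  unfold wt
  exact Equiv.sum_comp e (fun i => (y i).val)

theorem wq_comp_equiv {κ' : Type*} [Fintype κ'] (e : κ' ≃ κ) (y : κ → ZMod 2) :
    wq (y ∘ e) = wq y := by
  unfold wq
  rw [wt_comp_equiv]

end

/-! ### The character sum of the weight form -/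

/-- The sum of a function of the weight over all vectors. -/
def wsum (n : ℕ) (f : ℕ → ℤ) : ℤ := ∑ y : Fin n → ZMod 2, f (wt y)

theorem wsum_zero (f : ℕ → ℤ) : wsum 0 f = f 0 := by
  unfold wsum
  rw [Fintype.sum_unique]
  congr 1

theorem wsum_succ (n : ℕ) (f : ℕ → ℤ) :
    wsum (n + 1) f = wsum n f + wsum n (fun w => f (w + 1)) := by
  have hz : ∀ g : ZMod 2 → ℤ, ∑ a, g a = g 0 + g 1 := fun g => Fin.sum_univ_two g
  unfold wsum
  rw [← Equiv.sum_comp (Fin.consEquiv (fun _ : Fin (n + 1) => ZMod 2)), Fintype.sum_prod_type, hz]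
  congr 1
  · refine Finset.sum_congr rfl fun y _ => ?_
    congr 1
    unfold wt
    rw [Fin.sum_univ_succ]
    simp [Fin.consEquiv]
  · refine Finset.sum_congr rfl fun y _ => ?_
    congr 1
    unfold wt
    rw [Fin.sum_univ_succ]
    have h1 : ZMod.val (1 : ZMod 2) = 1 := rfl
    simp [Fin.consEquiv, h1]
    ring

theorem wsum_neg (n : ℕ) (f : ℕ → ℤ) : wsum n (fun w => - f w) = - wsum n f := by
  unfold wsum
  rw [Finset.sum_neg_distrib]

/-- The sign function of the (shifted) weight form. -/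
def wf (j : ℕ) (w : ℕ) : ℤ := chi ((((w + j + 1) / 2 : ℕ) : ZMod 2))

theorem wf_two (j : ℕ) : wf (j + 2) = fun w => - wf j w := by
  funext w
  unfold wf
  have h1 : (w + (j + 2) + 1) / 2 = (w + j + 1) / 2 + 1 := by omega
  rw [h1, Nat.cast_add, Nat.cast_one, chi_add, chi_one]
  ring

theorem wf_shift (j : ℕ) : (fun w => wf j (w + 1)) = wf (j + 1) := by
  funext w
  unfold wf
  have h1 : w + 1 + j + 1 = w + (j + 1) + 1 := by omega
  rw [h1]

theorem wsum_wf_zero_succ (n : ℕ) :
    wsum (n + 1) (wf 0) = wsum n (wf 0) + wsum n (wf 1) := by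
  rw [wsum_succ, wf_shift]

theorem wsum_wf_one_succ (n : ℕ) :
    wsum (n + 1) (wf 1) = wsum n (wf 1) - wsum n (wf 0) := by
  rw [wsum_succ, wf_shift, wf_two, wsum_neg]
  ring

theorem wsum_wf_add_four (N : ℕ) :
    wsum (N + 4) (wf 0) = -4 * wsum N (wf 0) ∧ wsum (N + 4) (wf 1) = -4 * wsum N (wf 1) := by
  have a1 := wsum_wf_zero_succ N
  have b1 := wsum_wf_one_succ N
  have a2 := wsum_wf_zero_succ (N + 1)
  have b2 := wsum_wf_one_succ (N + 1)
  have a3 := wsum_wf_zero_succ (N + 2)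
  have b3 := wsum_wf_one_succ (N + 2)
  have a4 := wsum_wf_zero_succ (N + 3)
  have b4 := wsum_wf_one_succ (N + 3)
  constructor <;> linarith

theorem wsum_wf_four (n : ℕ) :
    wsum (4 * n) (wf 0) = (-4) ^ n ∧ wsum (4 * n) (wf 1) = - (-4) ^ n := by
  induction n with
  | zero =>
    refine ⟨?_, ?_⟩
    · rw [Nat.mul_zero, wsum_zero]
      decide
    · rw [Nat.mul_zero, wsum_zero]
      decide
  | succ n ih =>
    have h4 : 4 * (n + 1) = 4 * n + 4 := by ring
    rw [h4]
    have h := wsum_wf_add_four (4 * n)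
    refine ⟨?_, ?_⟩
    · rw [h.1, ih.1]
      ring
    · rw [h.2, ih.2]
      ring

theorem wsum_wf_four_add_two (n : ℕ) : wsum (4 * n + 2) (wf 0) = -2 * (-4) ^ n := by
  have h := wsum_wf_four n
  rw [show 4 * n + 2 = 4 * n + 1 + 1 by ring, wsum_wf_zero_succ, wsum_wf_zero_succ,
    wsum_wf_one_succ, h.1, h.2]
  ring

/-- The character sum of the weight form over any index type. -/
theorem sum_chi_wq (κ : Type*) [Fintype κ] [DecidableEq κ] (N : ℕ) (h : Fintype.card κ = N) :
    ∑ y : κ → ZMod 2, chi (wq y) = wsum N (wf 0) := by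
  subst h
  let e : κ ≃ Fin (Fintype.card κ) := Fintype.equivFin κ
  unfold wsum
  refine Fintype.sum_equiv (Equiv.arrowCongr e (Equiv.refl _)) _ _ fun y => ?_
  have h1 : (Equiv.arrowCongr e (Equiv.refl (ZMod 2))) y = y ∘ e.symm := rfl
  rw [h1, wt_comp_equiv]
  rfl

end Cfsg.Agent.H48
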