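import Mathlib
import Cfsg.Agent.H48.WeightForm

set_option autoImplicit false
set_option linter.unusedSectionVars false

/-!
Helper lemmas (helper48): the symmetric group on `κ ⊕ Fin 2` acts on `F₂^κ` (even weight vectors
modulo the all-ones vector), preserving the weight form when `4 ∣ |κ| + 2`.
-/

namespace Cfsg.Agent.H48

section
variable {κ : Type*} [Fintype κ] [DecidableEq κ]

/-- The section `y ↦ (y, Σ y, 0)`. -/
def sL (κ : Type*) [Fintype κ] : (κ → ZMod 2) →ₗ[ZMod 2] (κ ⊕ Fin 2 → ZMod 2) where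
  toFun y := Sum.elim y ![∑ i, y i, 0]
  map_add' := by
    intro y y'
    funext ω
    rcases ω with i | t
    · rfl
    · fin_cases t
      · simp [Finset.sum_add_distrib]
      · simp
  map_smul' := by
    intro c y
    funext ω
    rcases ω with i | t
    · rfl
    · fin_cases t
      · simp [Finset.mul_sum]
      · simp

theorem sL_inl (y : κ → ZMod 2) (i : κ) : sL κ y (Sum.inl i) = y i := rfl

theorem sL_inr_zero (y : κ → ZMod 2) : sL κ y (Sum.inr 0) = ∑ i, y i := rfl

theorem sL_inr_one (y : κ → ZMod 2) : sL κ y (Sum.inr 1) = 0 := rfl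

/-- The projection `x ↦ (x + x_last • 1)` restricted to `κ`. -/
def tL (κ : Type*) [Fintype κ] : (κ ⊕ Fin 2 → ZMod 2) →ₗ[ZMod 2] (κ → ZMod 2) where
  toFun x := fun i => x (Sum.inl i) + x (Sum.inr 1)
  map_add' := by
    intro x x'
    funext i
    simp only [Pi.add_apply]
    ring
  map_smul' := by
    intro c x
    funext i
    simp only [Pi.smul_apply, smul_eq_mul, RingHom.id_apply]
    ring

theorem tL_apply (x : κ ⊕ Fin 2 → ZMod 2) (i : κ) :
    tL κ x i = x (Sum.inl i) + x (Sum.inr 1) := rfl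

/-- The permutation action on vectors. -/
def pL (π : Equiv.Perm (κ ⊕ Fin 2)) :
    (κ ⊕ Fin 2 → ZMod 2) →ₗ[ZMod 2] (κ ⊕ Fin 2 → ZMod 2) :=
  LinearMap.funLeft (ZMod 2) (ZMod 2) π.symm

theorem pL_apply (π : Equiv.Perm (κ ⊕ Fin 2)) (x : κ ⊕ Fin 2 → ZMod 2) (ω : κ ⊕ Fin 2) :
    pL π x ω = x (π.symm ω) := rfl

theorem pL_mul (π τ : Equiv.Perm (κ ⊕ Fin 2)) (x : κ ⊕ Fin 2 → ZMod 2) :
    pL (π * τ) x = pL π (pL τ x) := rfl

theorem pL_one (x : κ ⊕ Fin 2 → ZMod 2) : pL (1 : Equiv.Perm (κ ⊕ Fin 2)) x = x := rfl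

theorem pL_const (π : Equiv.Perm (κ ⊕ Fin 2)) : pL π (1 : κ ⊕ Fin 2 → ZMod 2) = 1 := rfl

theorem sum_sL (y : κ → ZMod 2) : ∑ ω, sL κ y ω = 0 := by
  rw [Fintype.sum_sum_type, Fin.sum_univ_two]
  simp only [sL_inl, sL_inr_zero, sL_inr_one, add_zero]
  exact zmod2_add_self _

theorem sum_pL (π : Equiv.Perm (κ ⊕ Fin 2)) (x : κ ⊕ Fin 2 → ZMod 2) :
    ∑ ω, pL π x ω = ∑ ω, x ω :=
  Equiv.sum_comp π.symm x

theorem tL_sL (y : κ → ZMod 2) : tL κ (sL κ y) = y := by
  funext i
  rw [tL_apply, sL_inl, sL_inr_one, add_zero]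

theorem tL_const : tL κ (1 : κ ⊕ Fin 2 → ZMod 2) = 0 := by
  funext i
  rw [tL_apply]
  exact zmod2_add_self _

theorem sL_tL (hκ : Even (Fintype.card κ)) (x : κ ⊕ Fin 2 → ZMod 2) (hx : ∑ ω, x ω = 0) :
    sL κ (tL κ x) = x + x (Sum.inr 1) • (1 : κ ⊕ Fin 2 → ZMod 2) := by
  have hsum : ∑ i, x (Sum.inl i) + (x (Sum.inr 0) + x (Sum.inr 1)) = 0 := by
    rw [Fintype.sum_sum_type, Fin.sum_univ_two] at hx
    exact hx
  funext ω
  rcases ω with i | t
  · rw [sL_inl, tL_apply]
    simp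
  · fin_cases t
    · show sL κ (tL κ x) (Sum.inr 0) =
        (x + x (Sum.inr 1) • (1 : κ ⊕ Fin 2 → ZMod 2)) (Sum.inr 0)
      rw [sL_inr_zero]
      have h1 : ∑ i, tL κ x i = ∑ i, x (Sum.inl i) := by
        simp only [tL_apply]
        rw [Finset.sum_add_distrib, Finset.sum_const, Finset.card_univ]
        obtain ⟨r, hr⟩ := hκ
        rw [hr, add_nsmul, zmod2_add_self, add_zero]
      rw [h1]
      simp only [Pi.add_apply, Pi.smul_apply, Pi.one_apply, smul_eq_mul, mul_one]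
      have h2 := zmod2_add_self (x (Sum.inr 0) + x (Sum.inr 1))
      linear_combination hsum - h2
    · show sL κ (tL κ x) (Sum.inr 1) =
        (x + x (Sum.inr 1) • (1 : κ ⊕ Fin 2 → ZMod 2)) (Sum.inr 1)
      rw [sL_inr_one]
      simp only [Pi.add_apply, Pi.smul_apply, Pi.one_apply, smul_eq_mul, mul_one]
      exact (zmod2_add_self _).symm

/-- The action of `Sym(κ ⊕ Fin 2)` on `F₂^κ`. -/
def symM (hκ : Even (Fintype.card κ)) :
    Equiv.Perm (κ ⊕ Fin 2) →* Module.End (ZMod 2) (κ → ZMod 2) where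
  toFun π := tL κ ∘ₗ pL π ∘ₗ sL κ
  map_one' := by
    apply LinearMap.ext
    intro y
    show tL κ (pL 1 (sL κ y)) = y
    rw [pL_one, tL_sL]
  map_mul' := by
    intro π τ
    apply LinearMap.ext
    intro y
    show tL κ (pL (π * τ) (sL κ y)) = tL κ (pL π (sL κ (tL κ (pL τ (sL κ y)))))
    rw [sL_tL hκ _ (by rw [sum_pL, sum_sL]), map_add, map_add, map_smul, map_smul, pL_const,
      tL_const, smul_zero, add_zero, pL_mul]

theorem symM_apply (hκ : Even (Fintype.card κ)) (π : Equiv.Perm (κ ⊕ Fin 2)) (y : κ → ZMod 2) :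
    symM hκ π y = tL κ (pL π (sL κ y)) := rfl

theorem wt_sL (y : κ → ZMod 2) : wt (sL κ y) = wt y + wt y % 2 := by
  have h1 : (∑ i, y i).val = wt y % 2 := by
    rw [← natCast_wt, ZMod.val_natCast]
  show ∑ ω, (sL κ y ω).val = _
  rw [Fintype.sum_sum_type, Fin.sum_univ_two]
  simp only [sL_inl, sL_inr_zero, sL_inr_one, h1]
  show wt y + (wt y % 2 + 0) = _
  rw [add_zero]

theorem wq_eq_half (y : κ → ZMod 2) : wq y = ((wt (sL κ y) / 2 : ℕ) : ZMod 2) := by
  unfold wq
  rw [wt_sL]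
  congr 1
  omega

theorem wt_add_one {Ω : Type*} [Fintype Ω] (x : Ω → ZMod 2) :
    wt (x + 1) + wt x = Fintype.card Ω := by
  unfold wt
  rw [← Finset.sum_add_distrib]
  have h1 : ∀ a : ZMod 2, (a + 1).val + a.val = 1 := by decide
  simp only [Pi.add_apply, Pi.one_apply, h1]
  rw [Finset.sum_const, Finset.card_univ, smul_eq_mul, mul_one]

theorem even_wt_of_sum_zero {Ω : Type*} [Fintype Ω] (x : Ω → ZMod 2) (hx : ∑ ω, x ω = 0) :
    2 ∣ wt x := by
  rw [← natCast_wt] at hx
  exact (ZMod.natCast_eq_zero_iff _ _).mp hx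

theorem wq_symM (hκ : Even (Fintype.card κ)) (π : Equiv.Perm (κ ⊕ Fin 2)) (y : κ → ZMod 2)
    (h : 4 ∣ Fintype.card κ + 2 ∨ π.symm (Sum.inr 1) = Sum.inr 1) :
    wq (symM hκ π y) = wq y := by
  have hx : ∑ ω, pL π (sL κ y) ω = 0 := by rw [sum_pL, sum_sL]
  have hwt : wt (pL π (sL κ y)) = wt (sL κ y) := wt_comp_equiv π.symm (sL κ y)
  rw [wq_eq_half, wq_eq_half y, symM_apply, sL_tL hκ _ hx, ← hwt]
  rcases zmod2_eq_zero_or_one (pL π (sL κ y) (Sum.inr 1)) with hc | hc
  · rw [hc, zero_smul, add_zero]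
  · have h4 : 4 ∣ Fintype.card κ + 2 := by
      rcases h with h | h
      · exact h
      · exfalso
        rw [pL_apply, h, sL_inr_one] at hc
        exact zero_ne_one hc
    rw [hc, one_smul]
    have h1 := wt_add_one (pL π (sL κ y))
    rw [Fintype.card_sum, Fintype.card_fin] at h1
    have h2 := even_wt_of_sum_zero _ hx
    rw [ZMod.natCast_eq_natCast_iff']
    omega

theorem sL_single_eq_one (j : κ) (ω : κ ⊕ Fin 2) :
    sL κ (Pi.single j 1) ω = 1 ↔ ω = Sum.inl j ∨ ω = Sum.inr 0 := by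
  rcases ω with i | t
  · rw [sL_inl]
    by_cases hij : i = j
    · subst hij
      simp
    · rw [Pi.single_eq_of_ne hij]
      simp [hij]
  · fin_cases t
    · show sL κ (Pi.single j 1) (Sum.inr 0) = 1 ↔ _
      rw [sL_inr_zero]
      simp
    · show sL κ (Pi.single j 1) (Sum.inr 1) = 1 ↔ _
      rw [sL_inr_one]
      simp

theorem symM_eq_one (hκ : Even (Fintype.card κ)) (h3 : 3 ≤ Fintype.card κ)
    (π : Equiv.Perm (κ ⊕ Fin 2)) (h : symM hκ π = 1) : π = 1 := by
  obtain ⟨j0, j1, j2, h01, h02, h12⟩ := Fintype.two_lt_card_iff.mp h3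
  -- for any index there are two other distinct indices
  have hother : ∀ k : κ, ∃ i i' : κ, i ≠ k ∧ i' ≠ k ∧ i ≠ i' := by
    intro k
    by_cases hk0 : j0 = k
    · exact ⟨j1, j2, fun h => h01 (hk0.trans h.symm), fun h => h02 (hk0.trans h.symm), h12⟩
    · by_cases hk1 : j1 = k
      · exact ⟨j0, j2, hk0, fun h => h12 (hk1.trans h.symm), h02⟩
      · exact ⟨j0, j1, hk0, hk1, h01⟩
  have H : ∀ (y : κ → ZMod 2) (i : κ),
      sL κ y (π.symm (Sum.inl i)) + sL κ y (π.symm (Sum.inr 1)) = y i := by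
    intro y i
    have h1 : symM hκ π y i = y i := by rw [h]; rfl
    exact h1
  have hone : ∀ a b : ZMod 2, a + b = 0 → b = 1 → a = 1 := by decide
  have hinj := π.symm.injective
  -- Step 1
  have s1 : π.symm (Sum.inr 1) = Sum.inr 1 := by
    rcases h1 : π.symm (Sum.inr 1) with k | t
    · exfalso
      obtain ⟨i, i', hik, hi'k, hii'⟩ := hother k
      have key : ∀ i : κ, i ≠ k → π.symm (Sum.inl i) = Sum.inr 0 := by
        intro i hik
        have h2 := H (Pi.single k 1) i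
        rw [h1, Pi.single_eq_of_ne hik] at h2
        have h3 := hone _ _ h2 ((sL_single_eq_one k _).mpr (Or.inl rfl))
        rcases (sL_single_eq_one k _).mp h3 with h4 | h4
        · exfalso
          have h5 : Sum.inl i = (Sum.inr 1 : κ ⊕ Fin 2) := hinj (h4.trans h1.symm)
          exact Sum.inl_ne_inr h5
        · exact h4
      have h6 : Sum.inl i = (Sum.inl i' : κ ⊕ Fin 2) := hinj ((key i hik).trans (key i' hi'k).symm)
      exact hii' (Sum.inl_injective h6)
    · fin_cases t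
      · exfalso
        have h1' : π.symm (Sum.inr 1) = Sum.inr 0 := h1
        obtain ⟨i, i', hik, hi'k, hii'⟩ := hother j0
        have key : ∀ i : κ, i ≠ j0 → π.symm (Sum.inl i) = Sum.inl j0 := by
          intro i hik
          have h2 := H (Pi.single j0 1) i
          rw [h1', Pi.single_eq_of_ne hik] at h2
          have h3 := hone _ _ h2 ((sL_single_eq_one j0 _).mpr (Or.inr rfl))
          rcases (sL_single_eq_one j0 _).mp h3 with h4 | h4
          · exact h4
          · exfalso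
            have h5 : Sum.inl i = (Sum.inr 1 : κ ⊕ Fin 2) := hinj (h4.trans h1'.symm)
            exact Sum.inl_ne_inr h5
        have h6 : Sum.inl i = (Sum.inl i' : κ ⊕ Fin 2) :=
          hinj ((key i hik).trans (key i' hi'k).symm)
        exact hii' (Sum.inl_injective h6)
      · rfl
  -- Step 2
  have s2 : ∀ j : κ, π.symm (Sum.inl j) = Sum.inl j := by
    intro j
    have h2 := H (Pi.single j 1) j
    rw [s1, sL_inr_one, add_zero, Pi.single_eq_same] at h2
    rcases (sL_single_eq_one j _).mp h2 with h4 | h4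
    · exact h4
    · exfalso
      obtain ⟨j', _, hj', _, _⟩ := hother j
      have h5 := H (Pi.single j' 1) j
      rw [s1, sL_inr_one, add_zero, h4, sL_inr_zero, Pi.single_eq_of_ne (Ne.symm hj')] at h5
      simp at h5
  -- Step 3
  have s3 : π.symm (Sum.inr 0) = Sum.inr 0 := by
    rcases h1 : π.symm (Sum.inr 0) with k | t
    · exfalso
      have h5 : Sum.inr 0 = (Sum.inl k : κ ⊕ Fin 2) := hinj (h1.trans (s2 k).symm)
      exact Sum.inr_ne_inl h5
    · fin_cases t
      · rfl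
      · exfalso
        have h1' : π.symm (Sum.inr 0) = Sum.inr 1 := h1
        have h5 : Sum.inr 0 = (Sum.inr 1 : κ ⊕ Fin 2) := hinj (h1'.trans s1.symm)
        have h6 : (0 : Fin 2) = 1 := Sum.inr_injective h5
        exact absurd h6 (by decide)
  have hsymm : π.symm = 1 := by
    apply Equiv.ext
    intro ω
    rcases ω with i | t
    · exact s2 i
    · fin_cases t
      · exact s3
      · exact s1
  have : π⁻¹ = 1 := hsymm
  exact inv_eq_one.mp this

theorem symM_injective (hκ : Even (Fintype.card κ)) (h3 : 3 ≤ Fintype.card κ) :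
    Function.Injective (symM (κ := κ) hκ) := by
  intro π τ h
  have h1 : symM hκ (τ⁻¹ * π) = 1 := by
    rw [map_mul, h, ← map_mul, inv_mul_cancel, map_one]
  have h2 := symM_eq_one hκ h3 _ h1
  exact (inv_mul_eq_one.mp h2).symm

end

end Cfsg.Agent.H48
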