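import Mathlib
import Cfsg.Agent.H17.AltBasis
import Cfsg.Agent.H48.QuadF2d
import Cfsg.Agent.S2561

set_option autoImplicit false

/-!
Helper lemmas (helper48): a non-degenerate alternating form over the field with two elements is
the standard one in suitable coordinates; a quadratic form polarizing to it is of plus or minus
type according to the sign of its character sum.
-/

namespace Cfsg.Agent.H48

/-- Coordinates in which a non-degenerate alternating form over `ZMod 2` is the standard one. -/
theorem exists_symp_equiv {V : Type*} [AddCommGroup V] [Module (ZMod 2) V]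
    [FiniteDimensional (ZMod 2) V] (B : LinearMap.BilinForm (ZMod 2) V) (hA : B.IsAlt)
    (hnd : ∀ y, (∀ y', B y y' = 0) → y = 0) :
    ∃ (m : ℕ) (e : V ≃ₗ[ZMod 2] (Fin m ⊕ Fin m → ZMod 2)),
      ∀ x y, pol m (e x) (e y) = B x y := by
  classical
  obtain ⟨m, e, f, hef, hee, hff, hrad⟩ :=
    Cfsg.Agent.H17.alt_hyp_aux (Module.finrank (ZMod 2) V) V B hA rfl
  have hneg : ∀ a : ZMod 2, -a = a := by decide
  have hsymm : ∀ x y, B x y = B y x := by
    intro x y
    rw [← hA.neg_eq x y, hneg]
  let Φ : V →ₗ[ZMod 2] (Fin m ⊕ Fin m → ZMod 2) :=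
    { toFun := fun v => Sum.elim (fun i => B v (f i)) (fun i => B (e i) v)
      map_add' := by
        intro v w
        funext idx
        rcases idx with i | i <;> simp
      map_smul' := by
        intro c v
        funext idx
        rcases idx with i | i <;> simp }
  have hΦl : ∀ v i, Φ v (Sum.inl i) = B v (f i) := fun v i => rfl
  have hΦr : ∀ v i, Φ v (Sum.inr i) = B (e i) v := fun v i => rfl
  let Ψ : (Fin m ⊕ Fin m → ZMod 2) →ₗ[ZMod 2] V :=
    { toFun := fun u => ∑ i, (u (Sum.inl i) • e i + u (Sum.inr i) • f i)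
      map_add' := by
        intro u v
        simp only [Pi.add_apply, add_smul, ← Finset.sum_add_distrib]
        refine Finset.sum_congr rfl fun i _ => ?_
        abel
      map_smul' := by
        intro c u
        simp only [Pi.smul_apply, smul_eq_mul, RingHom.id_apply, Finset.smul_sum, smul_add,
          mul_smul] }
  have hΨ : ∀ u, Ψ u = ∑ i, (u (Sum.inl i) • e i + u (Sum.inr i) • f i) := fun u => rfl
  have hfe : ∀ i j, B (f i) (e j) = if j = i then 1 else 0 := by
    intro i j
    rw [hsymm, hef]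
  have hΦΨ : ∀ u, Φ (Ψ u) = u := by
    intro u
    funext idx
    rcases idx with j | j
    · rw [hΦl, hΨ, map_sum, LinearMap.sum_apply]
      rw [Finset.sum_eq_single j]
      · rw [map_add, LinearMap.add_apply, map_smul, map_smul, LinearMap.smul_apply,
          LinearMap.smul_apply, hef, hff]
        simp
      · intro i _ hij
        rw [map_add, LinearMap.add_apply, map_smul, map_smul, LinearMap.smul_apply,
          LinearMap.smul_apply, hef, hff, if_neg hij]
        simp
      · intro hj
        exact absurd (Finset.mem_univ j) hj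
    · rw [hΦr, hΨ, map_sum]
      rw [Finset.sum_eq_single j]
      · rw [map_add, map_smul, map_smul, hef, hee]
        simp
      · intro i _ hij
        rw [map_add, map_smul, map_smul, hef, hee, if_neg (Ne.symm hij)]
        simp
      · intro hj
        exact absurd (Finset.mem_univ j) hj
  have hinj : Function.Injective Φ := by
    rw [← LinearMap.ker_eq_bot, LinearMap.ker_eq_bot']
    intro d hd
    apply hnd
    refine hrad d ?_ ?_
    · intro i
      rw [← hΦr, hd]
      rfl
    · intro i
      rw [hsymm, ← hΦl, hd]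
      rfl
  have hsurj : Function.Surjective Φ := fun u => ⟨Ψ u, hΦΨ u⟩
  have hΨΦ : ∀ v, Ψ (Φ v) = v := fun v => hinj (hΦΨ (Φ v))
  refine ⟨m, LinearEquiv.ofBijective Φ ⟨hinj, hsurj⟩, ?_⟩
  intro x y
  show pol m (Φ x) (Φ y) = B x y
  conv_rhs => rw [← hΨΦ y, hΨ, map_sum]
  rw [pol_eq]
  refine Finset.sum_congr rfl fun i _ => ?_
  rw [map_add, map_smul, map_smul, hΦl, hΦr, hΦl, hΦr, hsymm x (e i)]
  simp only [smul_eq_mul]
  ring

/-- A quadratic form over `ZMod 2` with non-degenerate polar form and positive character sum is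
of plus type. -/
theorem exists_plus_equiv_of_pos {V : Type*} [AddCommGroup V] [Module (ZMod 2) V] [Fintype V]
    (B : LinearMap.BilinForm (ZMod 2) V) (hA : B.IsAlt)
    (hnd : ∀ y, (∀ y', B y y' = 0) → y = 0) (Q : V → ZMod 2)
    (hQ : ∀ x y, Q (x + y) = Q x + Q y + B x y) (k : ℕ)
    (hdim : Module.finrank (ZMod 2) V = 2 * (k + 1)) (hpos : 0 < ∑ y, chi (Q y)) :
    ∃ h : V ≃ₗ[ZMod 2] (Fin (k + 1) ⊕ Fin (k + 1) → ZMod 2),
      ∀ y, Q y = Cfsg.quadFormPlus (k + 1) (ZMod 2) (h y) := by
  classical
  have hfd : FiniteDimensional (ZMod 2) V := Module.Finite.of_finite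
  obtain ⟨m, e, he⟩ := exists_symp_equiv B hA hnd
  have hm : m = k + 1 := by
    have h1 := e.finrank_eq
    rw [hdim, Module.finrank_fintype_fun_eq_card, Fintype.card_sum, Fintype.card_fin] at h1
    omega
  subst hm
  let q : (Fin (k + 1) ⊕ Fin (k + 1) → ZMod 2) → ZMod 2 := fun u => Q (e.symm u)
  have hq : Polarizes (k + 1) q := by
    intro u v
    show Q (e.symm (u + v)) = Q (e.symm u) + Q (e.symm v) + pol (k + 1) u v
    rw [map_add, hQ, ← he, LinearEquiv.apply_symm_apply, LinearEquiv.apply_symm_apply]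
  have hsum : charSum (k + 1) q = ∑ y, chi (Q y) :=
    Equiv.sum_comp e.symm.toEquiv (fun y => chi (Q y))
  rcases (Cfsg.Agent.S2561.result_succ k).2.1 q hq with hplus | hminus
  · obtain ⟨g, hg⟩ := hplus
    refine ⟨e.trans g, fun y => ?_⟩
    have h1 := hg (e y)
    show Q y = Cfsg.quadFormPlus (k + 1) (ZMod 2) (g (e y))
    rw [← h1]
    show Q y = Q (e.symm (e y))
    rw [LinearEquiv.symm_apply_apply]
  · exfalso
    have h1 := charSum_of_minus hminus
    rw [hsum] at h1
    have h2 : (0 : ℤ) < 2 ^ (k + 1) := by positivity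
    omega

/-- A quadratic form over `ZMod 2` with non-degenerate polar form and negative character sum is
of minus type. -/
theorem exists_minus_equiv_of_neg {V : Type*} [AddCommGroup V] [Module (ZMod 2) V] [Fintype V]
    (B : LinearMap.BilinForm (ZMod 2) V) (hA : B.IsAlt)
    (hnd : ∀ y, (∀ y', B y y' = 0) → y = 0) (Q : V → ZMod 2)
    (hQ : ∀ x y, Q (x + y) = Q x + Q y + B x y) (k : ℕ)
    (hdim : Module.finrank (ZMod 2) V = 2 * (k + 1)) (hneg : ∑ y, chi (Q y) < 0) :
    ∃ h : V ≃ₗ[ZMod 2] ((Fin k ⊕ Fin k) ⊕ Fin 2 → ZMod 2),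
      ∀ y, Q y = Cfsg.quadFormMinus k (ZMod 2) 1 1 (h y) := by
  classical
  have hfd : FiniteDimensional (ZMod 2) V := Module.Finite.of_finite
  obtain ⟨m, e, he⟩ := exists_symp_equiv B hA hnd
  have hm : m = k + 1 := by
    have h1 := e.finrank_eq
    rw [hdim, Module.finrank_fintype_fun_eq_card, Fintype.card_sum, Fintype.card_fin] at h1
    omega
  subst hm
  let q : (Fin (k + 1) ⊕ Fin (k + 1) → ZMod 2) → ZMod 2 := fun u => Q (e.symm u)
  have hq : Polarizes (k + 1) q := by
    intro u v
    show Q (e.symm (u + v)) = Q (e.symm u) + Q (e.symm v) + pol (k + 1) u v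
    rw [map_add, hQ, ← he, LinearEquiv.apply_symm_apply, LinearEquiv.apply_symm_apply]
  have hsum : charSum (k + 1) q = ∑ y, chi (Q y) :=
    Equiv.sum_comp e.symm.toEquiv (fun y => chi (Q y))
  rcases (Cfsg.Agent.S2561.result_succ k).2.1 q hq with hplus | hminus
  · exfalso
    have h1 := charSum_of_plus hplus
    rw [hsum] at h1
    have h2 : (0 : ℤ) < 2 ^ (k + 1) := by positivity
    omega
  · obtain ⟨g, hg⟩ := hminus
    refine ⟨e.trans g, fun y => ?_⟩
    have h1 := hg (e y)
    show Q y = Cfsg.quadFormMinus k (ZMod 2) 1 1 (g (e y))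
    rw [← h1]
    show Q y = Q (e.symm (e y))
    rw [LinearEquiv.symm_apply_apply]

end Cfsg.Agent.H48
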