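import Mathlib
import Cfsg.Prelude.Def_Classical
import Cfsg.Agent.H48.SymEmbed
import Cfsg.Agent.H48.SympF2

set_option autoImplicit false

/-!
Helper lemmas (helper48): symmetric groups inside orthogonal groups over the field with two
elements, via the weight form.
-/

namespace Cfsg.Agent.H48

/-- Transport of an injective form-preserving action to an injective homomorphism into the
isometry group of a coordinate form. -/
theorem exists_hom_isometryGroup {G : Type*} [Group G] {F : Type*} [Field F] {V : Type*}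
    [AddCommGroup V] [Module F V] {ι : Type} [Fintype ι] [DecidableEq ι]
    (Q : V → F) (Q' : (ι → F) → F) (h : V ≃ₗ[F] (ι → F)) (hQ : ∀ y, Q y = Q' (h y))
    (M : G →* Module.End F V) (hM : ∀ g y, Q (M g y) = Q y) (hinj : Function.Injective M) :
    ∃ φ : G →* ↥(Cfsg.isometryGroup F Q'), Function.Injective φ := by
  classical
  let N : G →* Matrix ι ι F :=
    { toFun := fun g => LinearMap.toMatrix' (h.toLinearMap ∘ₗ M g ∘ₗ h.symm.toLinearMap)
      map_one' := by
        rw [map_one]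
        have h1 : h.toLinearMap ∘ₗ (1 : Module.End F V) ∘ₗ h.symm.toLinearMap = LinearMap.id := by
          apply LinearMap.ext
          intro u
          simp
        rw [h1, LinearMap.toMatrix'_id]
      map_mul' := by
        intro a b
        rw [← LinearMap.toMatrix'_comp, map_mul]
        congr 1
        apply LinearMap.ext
        intro u
        simp [Module.End.mul_apply] }
  have hN : ∀ g u, Matrix.mulVec (N g) u = h (M g (h.symm u)) := by
    intro g u
    show Matrix.mulVec (LinearMap.toMatrix' _) u = _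
    rw [LinearMap.toMatrix'_mulVec]
    rfl
  let φ0 : G →* (Matrix ι ι F)ˣ := N.toHomUnits
  have hφ0 : ∀ g, ((φ0 g : (Matrix ι ι F)ˣ) : Matrix ι ι F) = N g := fun g => rfl
  have hmem : ∀ g, φ0 g ∈ Cfsg.isometryGroup F Q' := by
    intro g u v
    show Q' (Matrix.mulVec (N g) u) = Q' u
    rw [hN, ← hQ, hM, hQ, LinearEquiv.apply_symm_apply]
  refine ⟨φ0.codRestrict _ hmem, ?_⟩
  intro a b hab
  have h1 : N a = N b := by
    have h0 := congrArg (fun x : ↥(Cfsg.isometryGroup F Q') =>
      (((x : (Matrix ι ι F)ˣ)) : Matrix ι ι F)) hab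
    exact h0
  apply hinj
  apply LinearMap.ext
  intro y
  have h2 : Matrix.mulVec (N a) (h y) = Matrix.mulVec (N b) (h y) := by rw [h1]
  rw [hN, hN, LinearEquiv.symm_apply_apply] at h2
  exact h.injective h2

/-- Symmetric groups acting through the weight form embed in the isometry group of any
coordinate form equivalent to it. -/
theorem exists_perm_hom_of_weight {α : Type*} (κ : Type*) [Fintype κ] [DecidableEq κ]
    (hκ : Even (Fintype.card κ)) (h3 : 3 ≤ Fintype.card κ) (emb : α ↪ κ ⊕ Fin 2)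
    (hcase : 4 ∣ Fintype.card κ + 2 ∨ (Sum.inr 1 : κ ⊕ Fin 2) ∉ Set.range emb)
    {ι' : Type} [Fintype ι'] [DecidableEq ι'] (Q' : (ι' → ZMod 2) → ZMod 2)
    (h : (κ → ZMod 2) ≃ₗ[ZMod 2] (ι' → ZMod 2)) (hQ : ∀ y, wq y = Q' (h y)) :
    ∃ φ : Equiv.Perm α →* ↥(Cfsg.isometryGroup (ZMod 2) Q'), Function.Injective φ := by
  refine exists_hom_isometryGroup (wq : (κ → ZMod 2) → ZMod 2) Q' h hQ
    ((symM hκ).comp (Equiv.Perm.viaEmbeddingHom emb)) ?_ ?_
  · intro g y
    show wq (symM hκ (Equiv.Perm.viaEmbeddingHom emb g) y) = wq y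
    apply wq_symM
    rcases hcase with h4 | hnot
    · exact Or.inl h4
    · right
      rw [Equiv.symm_apply_eq, Equiv.Perm.viaEmbeddingHom_apply,
        Equiv.Perm.viaEmbedding_apply_of_notMem _ _ _ hnot]
  · exact (symM_injective hκ h3).comp (Equiv.Perm.viaEmbeddingHom_injective emb)

/-- The weight form on `4j + 2` coordinates, `j` odd, is of plus type. -/
theorem exists_weight_equiv_plus (κ : Type*) [Fintype κ] [DecidableEq κ] (j : ℕ)
    (hcard : Fintype.card κ = 4 * j + 2) (hj : Odd j) :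
    ∃ h : (κ → ZMod 2) ≃ₗ[ZMod 2] (Fin (2 * j + 1) ⊕ Fin (2 * j + 1) → ZMod 2),
      ∀ y, wq y = Cfsg.quadFormPlus (2 * j + 1) (ZMod 2) (h y) := by
  refine exists_plus_equiv_of_pos (wbForm κ) wbForm_isAlt ?_ wq wq_add (2 * j) ?_ ?_
  · intro y hy
    exact wb_nondeg (by rw [hcard]; exact ⟨2 * j + 1, by ring⟩) y hy
  · rw [Module.finrank_fintype_fun_eq_card, hcard]
    ring
  · rw [sum_chi_wq κ (4 * j + 2) hcard, wsum_wf_four_add_two]
    have h1 : (-4 : ℤ) ^ j < 0 := Odd.pow_neg hj (by norm_num)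
    linarith

/-- The weight form on `4j + 2` coordinates, `j` even, is of minus type. -/
theorem exists_weight_equiv_minus (κ : Type*) [Fintype κ] [DecidableEq κ] (j : ℕ)
    (hcard : Fintype.card κ = 4 * j + 2) (hj : Even j) :
    ∃ h : (κ → ZMod 2) ≃ₗ[ZMod 2] ((Fin (2 * j) ⊕ Fin (2 * j)) ⊕ Fin 2 → ZMod 2),
      ∀ y, wq y = Cfsg.quadFormMinus (2 * j) (ZMod 2) 1 1 (h y) := by
  refine exists_minus_equiv_of_neg (wbForm κ) wbForm_isAlt ?_ wq wq_add (2 * j) ?_ ?_
  · intro y hy
    exact wb_nondeg (by rw [hcard]; exact ⟨2 * j + 1, by ring⟩) y hy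
  · rw [Module.finrank_fintype_fun_eq_card, hcard]
    ring
  · rw [sum_chi_wq κ (4 * j + 2) hcard, wsum_wf_four_add_two]
    have h1 : (0 : ℤ) < (-4 : ℤ) ^ j := Even.pow_pos hj (by norm_num)
    linarith

/-- The weight form on `4` coordinates is of minus type. -/
theorem exists_weight_equiv_minus_four (κ : Type*) [Fintype κ] [DecidableEq κ]
    (hcard : Fintype.card κ = 4) :
    ∃ h : (κ → ZMod 2) ≃ₗ[ZMod 2] ((Fin 1 ⊕ Fin 1) ⊕ Fin 2 → ZMod 2),
      ∀ y, wq y = Cfsg.quadFormMinus 1 (ZMod 2) 1 1 (h y) := by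
  refine exists_minus_equiv_of_neg (wbForm κ) wbForm_isAlt ?_ wq wq_add 1 ?_ ?_
  · intro y hy
    exact wb_nondeg (by rw [hcard]; exact ⟨2, by norm_num⟩) y hy
  · rw [Module.finrank_fintype_fun_eq_card, hcard]
  · rw [sum_chi_wq κ (4 * 1) hcard, (wsum_wf_four 1).1]
    norm_num

end Cfsg.Agent.H48
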